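import Cfsg.Agent.Lib.QW.Loc

set_option autoImplicit false
set_option linter.unusedSectionVars false

namespace H93.QW

open Subgroup

variable {Γ : Type*} [Group Γ] [Finite Γ]

namespace CCx

/-- `s` fixes `ρ` and multiplies `σ` by `ρ ^ l`. -/
def Ac (ρ σ s : Γ) (l : ℤ) : Prop := s * ρ = ρ * s ∧ s * σ * s⁻¹ = ρ ^ l * σ

/-- the group generated by two commuting elements -/
def B2 (ρ x : Γ) (c : Commute ρ x) : Subgroup Γ where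
  carrier := {g | ∃ k l : ℤ, g = ρ ^ k * x ^ l}
  one_mem' := ⟨0, 0, by simp⟩
  mul_mem' := by
    rintro _ _ ⟨k, l, rfl⟩ ⟨i, j, rfl⟩
    exact ⟨k + i, l + j, by rw [zpow_add, zpow_add, (c.zpow_zpow i l).symm.mul_mul_mul_comm]⟩
  inv_mem' := by
    rintro _ ⟨k, l, rfl⟩
    exact ⟨-k, -l, by rw [mul_inv_rev, ← zpow_neg, ← zpow_neg, (c.zpow_zpow _ _).eq]⟩

/-- the stabiliser of `{z', z z'}` -/
def N1 (S : Subgroup Γ) (z z' : Γ) (zz : z * z = 1) (zc : ∀ s ∈ S, s * z = z * s) : Subgroup Γ where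
  carrier := {s | s ∈ S ∧ (s * z' = z' * s ∨ s * z' = z * z' * s)}
  one_mem' := ⟨one_mem _, Or.inl (by simp)⟩
  mul_mem' := by
    rintro s r ⟨hs, e | e⟩ ⟨hr, e' | e'⟩ <;> refine ⟨mul_mem hs hr, ?_⟩ <;> rw [mul_assoc, e']
    · exact Or.inl (by rw [← mul_assoc, e, mul_assoc])
    · exact Or.inr (by rw [← mul_assoc, ← mul_assoc, zc s hs, mul_assoc z, e]; group)
    · exact Or.inr (by rw [← mul_assoc, e, mul_assoc])
    · refine Or.inl ?_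
      rw [← mul_assoc, ← mul_assoc, zc s hs, mul_assoc z, e, ← mul_assoc, ← mul_assoc, zz, one_mul,
        mul_assoc]
  inv_mem' := by
    rintro s ⟨hs, e | e⟩ <;> refine ⟨inv_mem hs, ?_⟩
    · exact Or.inl (show Commute s z' from e).inv_left
    · refine Or.inr (inv_mul_eq_iff_eq_mul.2 ?_)
      rw [← mul_assoc, ← mul_assoc, zc s hs, mul_assoc z, e, ← mul_assoc, ← mul_assoc, zz, one_mul,
        mul_inv_cancel_right]

structure Ctx (n : ℕ) (S R T : Subgroup Γ) (ρ σ z z' a x : Γ) : Prop where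
  h : Hyp n S R T ρ σ z
  t : Tri S z z' a
  h1 : z' * ρ = ρ * z'
  h2 : z' * σ * z'⁻¹ = σ * z
  hx : a * ρ * a⁻¹ = x

theorem eqns_cc : True := by
  have := @Ac.eq_1.{0}; have := @B2.eq_1.{0}; have := @N1.eq_1.{0}
  trivial

variable {n : ℕ} {S R T : Subgroup Γ} {ρ σ z z' a x s s' : Γ} {l l' : ℤ}

theorem Ac.mul (h : Ac ρ σ s l) (h' : Ac ρ σ s' l') : Ac ρ σ (s * s') (l + l') :=
  ⟨(show Commute s ρ from h.1).mul_left h'.1, by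
    calc _ = s * (s' * σ * s'⁻¹) * s⁻¹ := by group
      _ = s * ρ ^ l' * s⁻¹ * (s * σ * s⁻¹) := by rw [h'.2]; group
      _ = _ := by rw [((show Commute s ρ from h.1).zpow_right l').eq, h.2]; group⟩

theorem Ac.inv (h : Ac ρ σ s l) : Ac ρ σ s⁻¹ (-l) :=
  ⟨(show Commute s ρ from h.1).inv_left, by
    rw [inv_inv, mul_assoc, inv_mul_eq_iff_eq_mul, ← mul_assoc,
      ((show Commute s ρ from h.1).zpow_right _).eq, mul_assoc, mul_inv_eq_iff_eq_mul.1 h.2]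
    group⟩

theorem Ac.zpow (h : Ac ρ σ s l) (k : ℤ) : Ac ρ σ (s ^ k) (k * l) := by
  induction k with
  | zero => exact ⟨by simp, by simp⟩
  | succ k ih => rw [zpow_add_one, add_one_mul]; exact ih.mul h
  | pred k ih => rw [zpow_sub_one, sub_one_mul]; exact ih.mul h.inv

theorem odd_of {j : ℤ} (h : (8 * 2 ^ n : ℤ) ∣ 4 * 2 ^ n * j - 4 * 2 ^ n) : Odd j := by
  obtain ⟨c, hc⟩ := h
  exact ⟨c, mul_left_cancel₀ (a := (4 * 2 ^ n : ℤ)) (by positivity) (by linear_combination hc)⟩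

theorem inv8 (n : ℕ) {j : ℤ} (h : Odd j) : ∃ b : ℤ, (8 * 2 ^ n : ℤ) ∣ j * b - 1 := by
  obtain ⟨b, -, hb⟩ := odd_inv (n + 3) h
  exact ⟨b, by rwa [pow_add, mul_comm] at hb⟩

namespace Ctx

variable (c : Ctx n S R T ρ σ z z' a x)
include c

theorem ex (hs : s ∈ S) (e : s * ρ = ρ * s) : ∃ l, Ac ρ σ s l := by
  obtain ⟨_, j, -, -, e'⟩ := c.h.act hs
  exact ⟨j, e, e'⟩

theorem mT (hs : s ∈ S) (e : Ac ρ σ s l) (d : (8 * 2 ^ n : ℤ) ∣ l) : s ∈ T :=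
  (c.h.mem_T s).2 ⟨hs, e.1, mul_inv_eq_iff_eq_mul.1 (by rw [e.2, (c.h.ord l).2 d, one_mul])⟩

theorem ρC : ρ ∈ cS S z' := ⟨c.h.le c.h.ρ_mem, c.h1.symm⟩

theorem xC : x ∈ cS S z' := c.hx ▸ c.t.nm ρ c.ρC

theorem xm : x ^ (4 * 2 ^ n : ℤ) = z' := by rw [← c.hx, conj_zpow, ← c.h.z_def, c.t.az]

theorem odd (e : Ac ρ σ s l) (e' : s ^ (4 * 2 ^ n : ℤ) = z') : Odd l := by
  have := (e.zpow (4 * 2 ^ n)).2
  rw [e', c.h2, c.h.zc (c.h.le c.h.σ_mem), mul_left_inj] at this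
  exact odd_of (c.h.inj.1 (this.symm.trans c.h.z_def))

theorem RC {r : Γ} (hr : r ∈ R) (e : r * z' = z' * r) : ∃ i : ℤ, r = ρ ^ i := by
  obtain ⟨i, rfl | rfl⟩ := (c.h.mem_R r).1 hr
  · exact ⟨i, rfl⟩
  · refine absurd ?_ c.h.z_ne
    rw [← mul_assoc, ((show Commute z' ρ from c.h1).zpow_right i).eq, mul_assoc, mul_assoc,
      mul_right_inj, mul_inv_eq_iff_eq_mul.1 c.h2] at e
    simpa using e

theorem RC' {g : Γ} (hg : g * z = z * g) (e : g * ρ * g⁻¹ ∈ cS S z') : ∃ i : ℤ, g * ρ * g⁻¹ = ρ ^ i :=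
  c.RC (c.h.sc z c.h.z_mem_T c.h.zz c.h.z_ne g (mem_cS_top.2 hg) ρ c.h.ρ_mem e.1) e.2

theorem ax : a * x * a⁻¹ = a⁻¹ * ρ * a := by
  obtain ⟨i, e⟩ := c.RC' (g := a ^ 3) (mul_inv_eq_iff_eq_mul.1 (by
    calc _ = a * (a * (a * z * a⁻¹) * a⁻¹) * a⁻¹ := by rw [pow_three]; group
      _ = z := by rw [c.t.az, c.t.az', c.h.azz' c.t])) (c.t.nm.pow 3 ρ c.ρC)
  have := cyc_cent (c.t.odd.of_dvd_nat (orderOf_pow_dvd 3)) (k := n + 3) (by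
    rw [← zpow_natCast, c.h.ord]; push_cast; rw [pow_add, mul_comm]; rfl) e
  rw [← c.hx]
  calc _ = a⁻¹ * (a ^ 3 * ρ) * (a * a)⁻¹ := by rw [pow_three]; group
    _ = _ := by rw [this, pow_three]; group

theorem ρx : Commute ρ x :=
  c.hx ▸ (c.h.f4c c.t (Or.inl rfl) (Or.inl c.h.ρ_mem) c.h1.symm (Or.inl c.h.ρ_mem) c.h1.symm).symm

theorem ord (k l : ℤ) : ρ ^ k * x ^ l = 1 ↔ (8 * 2 ^ n : ℤ) ∣ k ∧ (8 * 2 ^ n : ℤ) ∣ l := by
  have p : (8 * 2 ^ n : ℤ) ∣ l → x ^ l = 1 := fun d => by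
    rw [← c.hx, conj_zpow, (c.h.ord l).2 d]; simp
  refine ⟨fun e => ?_, fun d => by rw [p d.2, (c.h.ord k).2 d.1, one_mul]⟩
  have := (c.h.ord l).1 (c.h.f4 c.t (Or.inl rfl) (Or.inl (zpow_mem c.h.ρ_mem l))
    ((show Commute z' ρ from c.h1).zpow_right l).symm (Or.inl (by
      rw [← conj_zpow, c.hx, eq_inv_of_mul_eq_one_right e]; exact inv_mem (zpow_mem c.h.ρ_mem k))))
  exact ⟨(c.h.ord k).1 (by rwa [p this, mul_one] at e), this⟩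

theorem inj {k l i j : ℤ} (e : ρ ^ k * x ^ l = ρ ^ i * x ^ j) :
    (8 * 2 ^ n : ℤ) ∣ k - i ∧ (8 * 2 ^ n : ℤ) ∣ l - j := (c.ord _ _).1 (by
  calc _ = (ρ ^ i)⁻¹ * (ρ ^ k * x ^ l) * (x ^ j)⁻¹ := by group
    _ = 1 := by rw [e]; group)

theorem eq_of {k l i j : ℤ} (d : (8 * 2 ^ n : ℤ) ∣ k - i) (d' : (8 * 2 ^ n : ℤ) ∣ l - j) :
    ρ ^ k * x ^ l = ρ ^ i * x ^ j := by
  calc _ = ρ ^ i * (ρ ^ (k - i) * x ^ (l - j)) * x ^ j := by group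
    _ = _ := by rw [(c.ord _ _).2 ⟨d, d'⟩, mul_one]

theorem ρB : ρ ∈ B2 ρ x c.ρx := ⟨1, 0, by simp⟩

theorem xB : x ∈ B2 ρ x c.ρx := ⟨0, 1, by simp⟩

theorem BC : B2 ρ x c.ρx ≤ cS S z' := by
  rintro _ ⟨k, l, rfl⟩
  exact mul_mem (zpow_mem c.ρC k) (zpow_mem c.xC l)

theorem mB (hs : s ∈ cS S z') (e : s * ρ = ρ * s) : s ∈ B2 ρ x c.ρx := by
  obtain ⟨j, hj⟩ := c.ex c.xC.1 c.ρx.symm
  obtain ⟨b, hb⟩ := inv8 n (c.odd hj c.xm)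
  have key : ∀ {s}, s ∈ cS S z' → ∀ {l}, Ac ρ σ s l → s * x ^ (-(l * b)) ∈ cS S z' ⊓ T :=
    fun hs l e => have m := mul_mem hs (zpow_mem c.xC _)
    ⟨m, c.mT m.1 (e.mul (hj.zpow _)) ((hb.mul_left (-l)).trans (dvd_of_eq (by ring)))⟩
  have ac : ∀ {u}, u ∈ cS S z' ⊓ T → ∃ l, Ac ρ σ (a * u * a⁻¹) l := fun hu =>
    c.ex (c.t.nm _ hu.1).1 (c.h.f4c c.t (Or.inl rfl) (Or.inr hu.2) hu.1.2 (Or.inl c.h.ρ_mem) c.h1.symm)
  have hη := key c.ρC (l := 2) ⟨rfl, by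
    rw [mul_assoc, ← zpow_neg_one, c.h.σ_mul, zpow_two]; group⟩
  obtain ⟨i, hi⟩ := ac hη
  obtain ⟨d, hd⟩ := inv8 n (c.odd hi (by
    rw [conj_zpow, (c.ρx.zpow_right _).mul_zpow, ← zpow_mul, c.eq_of (i := 4 * 2 ^ n) (j := 0) (by simp)
      ⟨-b, by ring⟩, zpow_zero, mul_one, ← c.h.z_def, c.t.az]))
  obtain ⟨l, hl⟩ := c.ex hs.1 e
  have ht := key hs hl
  obtain ⟨k, hk⟩ := ac ht
  have m := mul_mem ht (zpow_mem hη (-(k * d)))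
  have := c.h.f4 c.t (Or.inl rfl) (Or.inr m.2) m.1.2 (Or.inr (c.mT (c.t.nm _ m.1).1
    (by rw [← conj_mul, ← conj_zpow]; exact hk.mul (hi.zpow _))
    ((hd.mul_left (-k)).trans (dvd_of_eq (by ring)))))
  rw [mul_assoc] at this
  rw [eq_inv_of_mul_eq_one_left this]
  exact inv_mem (mul_mem (zpow_mem c.xB _) (zpow_mem (mul_mem c.ρB (zpow_mem c.xB _)) _))

theorem invol (hs : s ∈ B2 ρ x c.ρx) (e : s * s = 1) : s = 1 ∨ s = z ∨ s = z' ∨ s = z * z' := by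
  obtain ⟨k, l, rfl⟩ := hs
  rw [(c.ρx.zpow_zpow k l).symm.mul_mul_mul_comm, ← zpow_add, ← zpow_add, c.ord] at e
  have p : ∀ {k : ℤ}, (8 * 2 ^ n : ℤ) ∣ k + k → ρ ^ k = 1 ∨ ρ ^ k = z := fun d =>
    c.h.invol (zpow_mem c.h.ρ_mem _) (by rw [← zpow_add, (c.h.ord _).2 d])
  rw [← c.hx, conj_zpow]
  rcases p e.1 with e1 | e1 <;> rcases p e.2 with e2 | e2 <;> simp [e1, e2, c.t.az]

theorem z'_ne : z' ≠ 1 := fun e => c.h.z_ne (by simpa [e] using c.t.az)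

theorem ax' : a * x * a⁻¹ = (ρ * x)⁻¹ := by
  have m : a * x * a⁻¹ ∈ B2 ρ x c.ρx := c.mB (c.t.nm _ c.xC) (by
    simpa [c.ax] using c.h.f4c c.t (Or.inr rfl) (Or.inl c.h.ρ_mem) c.h1.symm (Or.inl c.h.ρ_mem)
      c.h1.symm)
  have m' := mul_mem (mul_mem c.ρB c.xB) m
  have f : a * (ρ * x * (a * x * a⁻¹)) * a⁻¹ = ρ * x * (a * x * a⁻¹) := by
    have : a * (a * x * a⁻¹) * a⁻¹ = ρ := by rw [c.ax]; group
    rw [← conj_mul, ← conj_mul, this, c.hx, mul_assoc ρ]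
    obtain ⟨k, l, e⟩ := mul_mem c.xB m
    rw [e]
    exact (((Commute.refl ρ).zpow_right k).mul_right (c.ρx.zpow_right l)).symm
  refine eq_inv_of_mul_eq_one_right ?_
  by_contra n1
  obtain ⟨k, k1, k2⟩ := exists_invol c.h.pgrp (c.BC m').1 n1
  have f' := congrArg (· ^ 2 ^ k) f
  simp only [conj_pow] at f'
  rcases c.invol (pow_mem m' _) k2 with e | e | e | e <;> rw [e] at f'
  · exact k1 e
  · exact c.t.ne (c.t.az.symm.trans f')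
  · exact c.h.z_ne (by simpa [c.t.az'] using f')
  · exact c.z'_ne (by simpa [c.h.azz' c.t] using f')

theorem scal (hs : s ∈ cS S z') : ∃ l : ℤ, s * ρ * s⁻¹ = ρ ^ l ∧ s * x * s⁻¹ = x ^ l := by
  obtain ⟨i, _, -, e1, -⟩ := c.h.act hs.1
  obtain ⟨j, _, -, e2, -⟩ := c.h.act (c.t.nm' s hs).1
  obtain ⟨k, _, -, e3, -⟩ := c.h.act (c.t.nm s hs).1
  have e2 : s * x * s⁻¹ = x ^ j := by rw [← c.hx, conj_zpow, ← e2]; group
  have e3 : s * (ρ * x)⁻¹ * s⁻¹ = (ρ * x)⁻¹ ^ k := by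
    rw [← c.ax', c.ax]
    calc _ = a⁻¹ * (a * s * a⁻¹ * ρ * (a * s * a⁻¹)⁻¹) * a⁻¹⁻¹ := by group
      _ = _ := by rw [e3, ← conj_zpow, inv_inv]
  rw [← conj_inv, ← conj_mul, e1, e2, inv_zpow, inv_inj, c.ρx.mul_zpow] at e3
  obtain ⟨d1, d2⟩ := c.inj e3
  exact ⟨k, e1.trans (c.h.inj.2 d1), e2.trans (by simpa using c.eq_of (k := 0) (i := 0) (by simp) d2)⟩

theorem σz' : σ * z' = z * z' * σ := by
  have := mul_inv_eq_iff_eq_mul.1 c.h2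
  rw [mul_assoc z, this, ← mul_assoc, ← mul_assoc, ← c.h.zc (c.h.le c.h.σ_mem), mul_assoc σ, c.h.zz,
    mul_one]

theorem σx : σ * x * σ⁻¹ = ρ * x := by
  have hσ := c.h.le c.h.σ_mem
  have m : σ * x * σ⁻¹ ∈ cS S z' := ⟨Cj.of_mem hσ x c.xC.1, by
    have : z' = σ * (z * z') * σ⁻¹ := by
      rw [← mul_assoc, c.h.zc hσ, mul_assoc z, c.σz', ← mul_assoc, ← mul_assoc, c.h.zz]; group
    rw [this, conj_mul, conj_mul,
      ((show Commute x z from c.h.zc c.xC.1).mul_right (show Commute x z' from c.xC.2)).eq]⟩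
  obtain ⟨k, e⟩ := c.RC' (g := a * σ * a) (mul_inv_eq_iff_eq_mul.1 (by
    calc _ = a * (σ * (a * z * a⁻¹) * σ⁻¹) * a⁻¹ := by group
      _ = z := by rw [c.t.az, c.σz', mul_inv_cancel_right, c.h.azz' c.t]))
    (by convert c.t.nm _ m using 1; rw [← c.hx]; group)
  have e1 : σ * x * σ⁻¹ = ρ ^ (-k) * x ^ (-k) := by
    rw [← c.ρx.mul_zpow, zpow_neg, ← inv_zpow, ← c.ax', c.ax]
    calc _ = a⁻¹ * (a * σ * a * ρ * (a * σ * a)⁻¹) * a⁻¹⁻¹ := by rw [← c.hx]; group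
      _ = _ := by rw [e, ← conj_zpow, inv_inv]
  obtain ⟨j, hj⟩ := c.ex c.xC.1 c.ρx.symm
  have e2 : σ * x * σ⁻¹ = ρ ^ (-j) * x ^ (1 : ℤ) := by
    rw [zpow_one, (c.ρx.zpow_left _).eq, mul_inv_eq_iff_eq_mul, mul_assoc, ← hj.inv.2]; group
  have d := (c.inj (e1.symm.trans e2)).2
  simpa [e1] using c.eq_of d d

theorem n1 (hs : s ∈ S) : s * z' = z' * s ∨ s * z' = z * z' * s := by
  refine ((?_ : S ≤ N1 S z z' c.h.zz fun _ => c.h.zc) hs).2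
  by_contra hn
  obtain ⟨s, hs, ns, e⟩ := exists_norm (P := N1 S z z' c.h.zz fun _ => c.h.zc) c.h.pgrp
    (fun _ h => h.1) le_rfl (fun _ h => Cj.of_mem h.1) hn
  have u := e x ⟨c.xC.1, Or.inl c.xC.2⟩
  have m : s * x * s⁻¹ * (s * x * s⁻¹) ∈ B2 ρ x c.ρx := by
    refine c.mB ⟨mul_mem u.1 u.1, ?_⟩ ?_
    · rcases u.2 with q | q
      · exact (show Commute _ z' from q).mul_left q
      · generalize s * x * s⁻¹ = v at u q
        rw [mul_assoc, q, ← mul_assoc, ← mul_assoc, c.h.zc u.1, mul_assoc z, q, ← mul_assoc,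
          ← mul_assoc, c.h.zz, one_mul, mul_assoc]
    · obtain ⟨i, _, -, q, -⟩ := c.h.act (inv_mem hs)
      have : Commute (s * x * s⁻¹) ρ := by
        rw [show ρ = s * ρ ^ i * s⁻¹ by rw [← q]; group, Commute, SemiconjBy, conj_mul, conj_mul,
          (c.ρx.zpow_left i).eq]
      exact this.mul_left this
  have m' := zpow_mem m (2 * 2 ^ n)
  rw [← zpow_two, ← zpow_mul, conj_zpow, show (2 * (2 * 2 ^ n) : ℤ) = 4 * 2 ^ n by ring, c.xm] at m'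
  rcases c.invol m' (by rw [conj_mul, c.h.z'z' c.t]; simp) with q | q | q | q
  · exact c.z'_ne (by simpa using q)
  · exact c.t.ne (mul_left_cancel (a := s) (by rw [mul_inv_eq_iff_eq_mul.1 q, c.h.zc hs]))
  · exact ns ⟨hs, Or.inl (mul_inv_eq_iff_eq_mul.1 q)⟩
  · exact ns ⟨hs, Or.inr (mul_inv_eq_iff_eq_mul.1 q)⟩

theorem form (k l : ℤ) : ρ ^ k * x ^ l = x ^ (l - k) * (ρ * x) ^ k := by
  rw [c.ρx.mul_zpow, ← mul_assoc, ← (c.ρx.zpow_zpow _ _).eq]; group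

theorem dec (hs : s ∈ cS S z') : ∃ i j l : ℤ, ∃ e ∈ S, a * e = e * a ∧ e * x * e⁻¹ = x ^ l ∧
    e * (ρ * x) * e⁻¹ = (ρ * x) ^ l ∧ s = x ^ i * (ρ * x) ^ j * e := by
  obtain ⟨l, e1, e2⟩ := c.scal (inv_mem hs)
  obtain ⟨p, r, e⟩ := inv_mem (c.mB (mul_mem hs (c.t.nm _ (inv_mem hs))) (by
    have : a * s⁻¹ * a⁻¹ * ρ * (a * s⁻¹ * a⁻¹)⁻¹ = s⁻¹ * ρ * s⁻¹⁻¹ := by
      calc _ = a * (s⁻¹ * (a⁻¹ * ρ * a) * s⁻¹⁻¹) * a⁻¹ := by group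
        _ = a * ((a⁻¹ * ρ * a⁻¹⁻¹) ^ l) * a⁻¹ := by
          rw [inv_inv a, ← c.ax, c.ax', ← conj_inv, ← conj_mul, e1, e2, inv_zpow, c.ρx.mul_zpow]
        _ = _ := by rw [conj_zpow, e1]; group
    rw [mul_assoc, mul_inv_eq_iff_eq_mul.1 this]; group))
  obtain ⟨b, hb⟩ := inv8 n (by decide : Odd (3 : ℤ))
  have m : ρ ^ ((p + r) * b - p) * x ^ (-((p + r) * b)) ∈ B2 ρ x c.ρx := ⟨_, _, rfl⟩
  have q : a * (ρ ^ ((p + r) * b - p) * x ^ (-((p + r) * b))) * a⁻¹ =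
      ρ ^ p * x ^ r * (ρ ^ ((p + r) * b - p) * x ^ (-((p + r) * b))) := by
    rw [← conj_mul, ← conj_zpow, ← conj_zpow, c.hx, c.ax', inv_zpow', neg_neg, c.ρx.mul_zpow,
      ← mul_assoc, ← (c.ρx.zpow_zpow _ _).eq, mul_assoc, ← zpow_add,
      (c.ρx.zpow_zpow _ _).symm.mul_mul_mul_comm, ← zpow_add, ← zpow_add]
    exact c.eq_of (by simp) ((hb.mul_left (p + r)).trans (dvd_of_eq (by ring)))
  have m' := mul_mem (inv_mem (c.BC m)) hs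
  obtain ⟨l', e3, e4⟩ := c.scal m'
  refine ⟨_, _, l', _, m'.1, mul_inv_eq_iff_eq_mul.1 ?_, e4, ?_, by rw [← c.form, mul_inv_cancel_left]⟩
  · rw [← conj_mul, ← conj_inv, q, ← e]; group
  · rw [← conj_mul, e3, e4, c.ρx.mul_zpow]

end Ctx

end CCx

theorem Hyp.cc {n : ℕ} {S R T : Subgroup Γ} {ρ σ z z' a : Γ} (h : Hyp n S R T ρ σ z)
    (t : Tri S z z' a) (h1 : z' * ρ = ρ * z') (h2 : z' * σ * z'⁻¹ = σ * z) :
    ∃ x y w, CC n S ρ σ x y w a := by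
  obtain ⟨x, c⟩ : ∃ x, CCx.Ctx n S R T ρ σ z z' a x := ⟨_, h, t, h1, h2, rfl⟩
  have hσ := h.le h.σ_mem
  have zz := h.z'z' t
  have ww : σ * z' * (σ * z') = 1 := by
    rw [mul_assoc, ← mul_assoc z', mul_inv_eq_iff_eq_mul.1 h2, ← mul_assoc, ← mul_assoc, ← mul_assoc,
      h.sq, h.zz, one_mul, zz]
  refine ⟨x, ρ * x, σ * z', fun i j => ?_, (c.ρx.symm.mul_right (Commute.refl x)).eq, c.xC.1,
    mul_mem c.ρC.1 c.xC.1, mul_mem hσ t.mem, by simp, by rw [c.xm, mul_assoc, zz, mul_one], ww, ?_,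
    c.ax', by rw [← conj_mul, c.hx, c.ax'], fun s hs => ?_, fun e he e1 e2 => ?_⟩
  · rw [show x ^ i = x ^ (i + j - j) by simp, ← c.form, c.ord, and_comm]
    exact and_congr_left fun d => dvd_add_left d
  · rw [mul_assoc σ, ← c.xC.2, ← c.σx]; group
  · rcases c.n1 hs with e | e
    · obtain ⟨i, j, l, e, p1, p2, p3, p4, p5⟩ := c.dec ⟨hs, e⟩
      exact ⟨i, j, l, e, p1, p2, p3, p4, Or.inl p5⟩
    · obtain ⟨i, j, l, e, p1, p2, p3, p4, p5⟩ := c.dec (s := s * (σ * z'))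
        ⟨mul_mem hs (mul_mem hσ t.mem), by
          rw [← mul_assoc s]
          refine Commute.mul_left (show s * σ * z' = z' * (s * σ) from ?_) (Commute.refl z')
          rw [mul_assoc, c.σz', ← mul_assoc, ← mul_assoc, h.zc hs, mul_assoc z, e, ← mul_assoc,
            ← mul_assoc, h.zz, one_mul, mul_assoc]⟩
      exact ⟨i, j, l, e, p1, p2, p3, p4, Or.inr (by rw [← p5, mul_assoc, ww, mul_one])⟩
  · obtain ⟨k, l, rfl⟩ := c.mB ⟨he, c.xm ▸ ((show Commute e x from e1).zpow_right _).eq⟩ (by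
      simpa using ((show Commute e _ from e2).mul_right (show Commute e x from e1).inv_right).eq)
    exact ⟨_, _, c.form k l⟩

end H93.QW
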