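import Cfsg.Agent.Lib.QW.Loc

/-! The case `C_R(z') = ⟨z⟩`: first part. -/

set_option autoImplicit false
set_option linter.unusedSectionVars false

namespace H93.QW

open Subgroup

variable {Γ : Type*} [Group Γ] [Finite Γ]

/-- The structure of `S` when `C_R(z') = ⟨z⟩`; here `z' * σ` plays the role of `π`. -/
structure CS (n : ℕ) (S R T : Subgroup Γ) (ρ σ z z' : Γ) : Prop where
  sq : z' * σ * (z' * σ) = ρ
  inv : z' * ρ * z'⁻¹ = ρ⁻¹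
  ab : ∀ c ∈ cS S z', ∀ e ∈ cS S z', c * e = e * c
  T0 : ∀ u ∈ T, u * z' = z' * u → u = 1 ∨ u = z
  ZC : ∀ g, g * z * g⁻¹ ∈ cS S z' → g * z * g⁻¹ = z ∨ g * z * g⁻¹ = z' ∨ g * z * g⁻¹ = z * z'

namespace CS1

open Loc

theorem act_mul {c e π : Γ} {u v : ℤ} (hc : c * π * c⁻¹ = π ^ u) (he : e * π * e⁻¹ = π ^ v) :
    c * e * π * (c * e)⁻¹ = π ^ (u * v) := by
  rw [show c * e * π * (c * e)⁻¹ = c * (e * π * e⁻¹) * c⁻¹ by group, he, ← conj_zpow, hc, ← zpow_mul]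

variable {n : ℕ} {S R T : Subgroup Γ} {ρ σ z z' a π : Γ} (h : Hyp n S R T ρ σ z)
include h

theorem l1' {y g : Γ} (hy : y ∈ T) (h2 : y * y = 1) (h1 : y ≠ 1) (hg : g * y * g⁻¹ ∈ S)
    (hz : g * z * g⁻¹ ∈ S) (hk' : ∀ k, Cj k (cS S (g * y * g⁻¹)) S → k * z * k⁻¹ = z) : g * z * g⁻¹ = z := by
  obtain ⟨p, -, k, -, e, hp, hk⟩ := h.sat.ext2 (h.T_le hy) (mem_top g) hg
  have pR := h.wc p (hp.mono (fun r hr => ⟨h.le hr, (h.T_comm hy hr).symm⟩) le_rfl)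
  have c : ∀ r ∈ R, p * y * p⁻¹ * r = r * (p * y * p⁻¹) := fun r hr => by
    have := h.T_comm hy (pR.inv r hr)
    calc p * y * p⁻¹ * r = p * (y * (p⁻¹ * r * p⁻¹⁻¹)) * p⁻¹ := by group
      _ = _ := by rw [this]; group
  have yT : p * y * p⁻¹ ∈ T := (h.mem_T _).2 ⟨hp y ⟨h.T_le hy, rfl⟩, c _ h.ρ_mem, c _ h.σ_mem⟩
  have e1 : k * g * p⁻¹ * z * (k * g * p⁻¹)⁻¹ = k * (g * z * g⁻¹) * k⁻¹ := by
    conv_lhs => rw [← cm_cj.1 (h.zc' pR)]
    group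
  have m := h.sc _ yT (by rw [conj_mul, h2]; simp) (fun e => h1 (conj_eq_one_iff.1 e)) (k * g * p⁻¹)
    (mem_cS_top.2 (cm_cj.2 (by conv_rhs => rw [e]
                               group))) z h.z_mem (e1 ▸ hk _ ⟨hz, by
      rw [conj_mul, conj_mul, h.T_comm hy h.z_mem]⟩)
  rw [e1] at m
  rcases h.invol m (by rw [conj_mul, conj_mul, h.zz]; simp) with e | e
  · exact absurd (conj_eq_one_iff.1 (conj_eq_one_iff.1 e)) h.z_ne
  · exact conj_injective (e.trans (hk' k hk).symm)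

variable (t : Tri S z z' a) (hπ : π = z' * σ) (sq : π * π = ρ) (inv : z' * ρ * z'⁻¹ = ρ⁻¹)
include t hπ sq

theorem πp (v : ℤ) : π ^ (2 * v) = ρ ^ v := by rw [zpow_mul, zpow_two, sq]

theorem ordπ {u : ℤ} (e : π ^ u = 1) : (8 * 2 ^ (n + 1) : ℤ) ∣ u := by
  rcases Int.even_or_odd' u with ⟨v, rfl | rfl⟩
  · rw [πp h t hπ sq] at e
    obtain ⟨c, rfl⟩ := (h.ord _).1 e
    exact ⟨c, by ring⟩
  · rw [zpow_add, πp h t hπ sq, zpow_one, hπ, ← mul_assoc, mul_eq_one_iff_eq_inv, ← eq_inv_mul_iff_mul_eq] at e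
    have m : z' ∈ R := e ▸ mul_mem (inv_mem (zpow_mem h.ρ_mem v)) (inv_mem h.σ_mem)
    exact absurd (inT h.toQS (Or.inl m) (h.z'z' t) fun e => h.z'_notMem t (e ▸ one_mem _)) (h.z'_notMem t)

theorem injπ {u v : ℤ} (d : (8 * 2 ^ (n + 1) : ℤ) ∣ u - v) : π ^ u = π ^ v := by
  obtain ⟨c, e⟩ := d
  rw [show u = 2 * (8 * 2 ^ n * c) + v by linear_combination e, zpow_add, πp h t hπ sq,
    (h.ord _).2 ⟨c, rfl⟩, one_mul]

theorem z'π : z' * π * z'⁻¹ = π ^ (8 * 2 ^ n - 1 : ℤ) := by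
  rw [show (8 * 2 ^ n - 1 : ℤ) = 2 * (4 * 2 ^ n) + -1 by ring, zpow_add, πp h t hπ sq, ← h.z_def, zpow_neg_one,
    hπ, mul_inv_rev, h.σ_inv, ← mul_assoc z', h.z'z' t, one_mul, ← mul_assoc, ← mul_assoc, h.zz, one_mul]

theorem toT {c : Γ} (hc : c ∈ cS S z') (e : c * π * c⁻¹ = π) : c ∈ T := by
  have c1 : Commute c π := cm_cj.2 e
  have c2 : Commute c z' := hc.2
  refine (h.mem_T c).2 ⟨hc.1, sq ▸ (c1.mul_right c1).eq, ?_⟩
  have := (c2.inv_right.mul_right c1).eq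
  rwa [hπ, inv_mul_cancel_left] at this

include inv

theorem actπ {c : Γ} (hc : c ∈ cS S z') : ∃ u : ℤ, c * π * c⁻¹ = π ^ u := by
  obtain ⟨b, l, -, -, e⟩ := h.act hc.1
  refine ⟨2 * -l + 1, ?_⟩
  rw [zpow_add, πp h t hπ sq, zpow_one, hπ, ← conj_mul, cm_cj.1 hc.2, e, zpow_neg, ← inv_zpow, ← inv,
    conj_zpow]
  group

theorem ab (c : Γ) (hc : c ∈ cS S z') (e : Γ) (he : e ∈ cS S z') : c * e = e * c := by
  have mC : ∀ {c e}, c ∈ cS S z' → e ∈ cS S z' → c * e * (e * c)⁻¹ ∈ cS S z' := fun hc he =>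
    mul_mem (mul_mem hc he) (inv_mem (mul_mem he hc))
  have mT : ∀ {c e}, c ∈ cS S z' → e ∈ cS S z' → c * e * (e * c)⁻¹ ∈ T := fun {c e} hc he => by
    obtain ⟨u, hu⟩ := actπ h t hπ sq inv (inv_mem hc)
    obtain ⟨v, hv⟩ := actπ h t hπ sq inv (inv_mem he)
    refine toT h t hπ sq (mC hc he) ?_
    have e1 := act_mul hu hv
    have e2 := act_mul hv hu
    rw [mul_comm, ← e1] at e2
    calc c * e * (e * c)⁻¹ * π * (c * e * (e * c)⁻¹)⁻¹ =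
        c * e * (c⁻¹ * e⁻¹ * π * (c⁻¹ * e⁻¹)⁻¹) * (c * e)⁻¹ := by group
      _ = _ := by rw [← e2]; group
  have := h.f4 t (Or.inr rfl) (Or.inr (mT hc he)) (mC hc he).2 (Or.inr (by
    have := mT (t.nm' c hc) (t.nm' e he)
    rwa [conj_mul, conj_mul, conj_inv, conj_mul] at this))
  exact mul_inv_eq_one.1 this

theorem MM {e k : Γ} (he : e ∈ cS S z') (c : e * ρ = ρ * e) (hk : Cj k (cS S e) S) : k * z * k⁻¹ = z := by
  by_contra ne
  have m := t.max k (hk.mono (fun c hc => ⟨hc.1, ab h t hπ sq inv c hc e he⟩) le_rfl) ne (k * ρ * k⁻¹)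
    ⟨hk ρ ⟨h.le h.ρ_mem, c.symm⟩, by rw [conj_mul, conj_mul, h.zc (h.le h.ρ_mem)]⟩
  rw [show k⁻¹ * (k * ρ * k⁻¹) * k⁻¹⁻¹ = ρ by group] at m
  rw [cm_cj.1 m.2.symm, ← zpow_one ρ, ← zpow_neg, h.inj] at inv
  have := Int.le_of_dvd (by norm_num) inv
  have p : (0 : ℤ) < 2 ^ n := by positivity
  omega

/-- the four possible actions of an involution -/
theorem four {c : Γ} (hc : c ∈ cS S z') (c2 : c * c = 1) :
    c ∈ T ∨ c * π * c⁻¹ = π⁻¹ ∨ c * ρ = ρ * c ∨ c * z' ∈ T := by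
  obtain ⟨u, hu⟩ := actπ h t hπ sq inv hc
  have e := act_mul hu hu
  rw [c2, one_mul, inv_one, mul_one, eq_comm, ← mul_inv_eq_one, ← zpow_sub_one] at e
  rcases sq_cases (ordπ h t hπ sq e) with d | d | ⟨w, d⟩ | ⟨w, d⟩
  · exact Or.inl (toT h t hπ sq hc (by rw [hu, injπ h t hπ sq d, zpow_one]))
  · exact Or.inr (Or.inl (by rw [hu, injπ h t hπ sq (v := -1) (by simpa using d), zpow_neg_one]))
  · refine Or.inr (Or.inr (Or.inl (cm_cj.2 ?_)))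
    rw [← sq, ← conj_mul, hu, ← zpow_add, injπ h t hπ sq (v := 2) ⟨2 * w + 1, by linear_combination 2 * d⟩,
      zpow_two]
  · refine Or.inr (Or.inr (Or.inr (toT h t hπ sq (mul_mem hc ⟨t.mem, rfl⟩) ?_)))
    rw [act_mul hu (z'π h t hπ sq), injπ h t hπ sq (v := 1) ⟨w * (8 * 2 ^ n - 1) + 4 * 2 ^ n - 1, by
      linear_combination (8 * 2 ^ n - 1) * d⟩, zpow_one]

theorem T1 {y : Γ} (hy : y ∈ T) (c : y * z' = z' * y) (y2 : y * y = 1) : y = 1 ∨ y = z := by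
  by_contra hn
  push Not at hn
  have key : ∀ y ∈ T, y * z' = z' * y → y * y = 1 → y ≠ 1 → a * y * a⁻¹ * ρ ≠ ρ * (a * y * a⁻¹) :=
    fun y hy c y2 y1 e => by
      have m := t.nm y ⟨h.T_le hy, c⟩
      exact t.ne (t.az ▸ l1' h hy y2 y1 m.1 (t.az.symm ▸ t.mem) fun k hk => MM h t hπ sq inv m e hk)
  have zc := h.zc (h.T_le hy)
  have hy' := mul_mem hy h.z_mem_T
  have c' : y * z * z' = z' * (y * z) := by rw [mul_assoc, ← h.zc t.mem, ← mul_assoc, c, mul_assoc]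
  have n' : y * z ≠ 1 := fun e => hn.2 (by rw [eq_inv_of_mul_eq_one_left e, h.z_inv])
  have e' : a * (y * z) * a⁻¹ = a * y * a⁻¹ * z' := by rw [← conj_mul, t.az]
  rcases four h t hπ sq inv (t.nm y ⟨h.T_le hy, c⟩) (by rw [conj_mul, y2]; simp) with e | e | e | e
  · exact hn.1 (h.f4 t (Or.inl rfl) (Or.inr hy) c (Or.inr e))
  · refine key _ hy' c' (by rw [mul_assoc, ← mul_assoc z, ← zc, mul_assoc y, h.zz, mul_one, y2]) n' ?_
    have : a * y * a⁻¹ * ρ * (a * y * a⁻¹)⁻¹ = ρ⁻¹ := by rw [← sq, ← conj_mul, e, mul_inv_rev]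
    rw [cm_cj, e', show a * y * a⁻¹ * z' * ρ * (a * y * a⁻¹ * z')⁻¹ =
      a * y * a⁻¹ * (z' * ρ * z'⁻¹) * (a * y * a⁻¹)⁻¹ by group, inv, ← conj_inv, this, inv_inv]
  · exact key y hy c y2 hn.1 e
  · exact n' (h.f4 t (Or.inl rfl) (Or.inr hy') c' (Or.inr (e' ▸ e)))

theorem T0 (u : Γ) (hu : u ∈ T) : u * z' = z' * u → u = 1 ∨ u = z := by
  refine sq_induction h.pgrp (C := fun u => u ∈ T → u * z' = z' * u → u = 1 ∨ u = z) (fun _ _ => Or.inl rfl)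
    (fun u _ ih hu c => ?_) u (h.T_le hu) hu
  rcases ih (mul_mem hu hu) ((show Commute u z' from c).mul_left c).eq with e | e
  · exact T1 h t hπ sq inv hu c e
  · obtain ⟨b, j, ⟨b', hb⟩, e1, -⟩ := h.act (t.nm u ⟨h.T_le hu, c⟩).1
    have e2 := sqρ h.toQS e1
    rw [conj_mul, e, t.az, inv, ← zpow_neg_one, h.inj, hb] at e2
    obtain ⟨w, hw⟩ := e2
    have : 4 * (b' * b' + b' + 2 * 2 ^ n * w) = -2 := by linear_combination -hw
    omega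

theorem Z1 {g : Γ} (m : g * z * g⁻¹ ∈ cS S z') : (g * z * g⁻¹ = z ∨ g * z * g⁻¹ = z' ∨ g * z * g⁻¹ = z * z') ∨
    g * z * g⁻¹ * π * (g * z * g⁻¹)⁻¹ = π⁻¹ := by
  have z2 := h.z'z' t
  rcases four h t hπ sq inv m (by rw [conj_mul, h.zz]; simp) with e | e | e | e
  · exact Or.inl (Or.inl (h.zT e))
  · exact Or.inr e
  · have e0 : g⁻¹ * (g * z * g⁻¹) * g⁻¹⁻¹ = z := by group
    obtain ⟨k, -, ek, ck⟩ := h.sat.extZ m.1 (mem_top g⁻¹) (e0.symm ▸ h.le h.z_mem) fun s hs => e0.symm ▸ h.zc hs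
    exact Or.inl (Or.inl (conj_injective ((ek.trans e0).trans (MM h t hπ sq inv m e ck).symm)))
  · rcases T0 h t hπ sq inv _ e (mul_mem m ⟨t.mem, rfl⟩).2 with e | e
    · exact Or.inl (Or.inr (Or.inl (by rw [eq_inv_of_mul_eq_one_left e, inv_eq_of_mul_eq_one_right z2])))
    · exact Or.inl (Or.inr (Or.inr (by rw [← mul_one (g * z * g⁻¹), ← z2, ← mul_assoc, e])))

theorem ZC (g : Γ) (m : g * z * g⁻¹ ∈ cS S z') :
    g * z * g⁻¹ = z ∨ g * z * g⁻¹ = z' ∨ g * z * g⁻¹ = z * z' := by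
  by_contra hn
  push Not at hn
  obtain ⟨r, -, er⟩ := h.f2 m.1 (by rw [conj_mul, h.zz]; simp) fun e => hn.1 (h.zT e)
  have z2 := h.z'z' t
  have e1 : a * g * z * (a * g)⁻¹ = a * (g * z * g⁻¹) * a⁻¹ := by group
  have e2 : a * r * g * z * (a * r * g)⁻¹ = a * (g * z * g⁻¹ * z) * a⁻¹ := by rw [← er]; group
  have back : ∀ x, (a * x * a⁻¹ = z ∨ a * x * a⁻¹ = z' ∨ a * x * a⁻¹ = z * z') →
      x = z * z' ∨ x = z ∨ x = z' := fun x e => e.imp (fun e => conj_injective (e.trans (h.azz' t).symm))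
    fun e => e.imp (fun e => conj_injective (e.trans t.az.symm)) fun e => conj_injective (e.trans t.az'.symm)
  have k1 := Z1 h t hπ sq inv (g := a * g) (e1 ▸ t.nm _ m)
  have k2 := Z1 h t hπ sq inv (g := a * r * g) (e2 ▸ t.nm _ (mul_mem m ⟨h.le h.z_mem, (h.zc t.mem).symm⟩))
  rw [e1] at k1
  rw [e2] at k2
  have n1 : g * z * g⁻¹ ≠ 1 := fun e => h.z_ne (conj_eq_one_iff.1 e)
  generalize g * z * g⁻¹ = y at *
  rcases k1 with k1 | k1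
  · rcases back _ k1 with e | e | e
    exacts [hn.2.2 e, hn.1 e, hn.2.1 e]
  rcases k2 with k2 | k2
  · rcases back _ k2 with e | e | e
    · exact hn.2.1 (mul_right_cancel (e.trans (h.zc t.mem).symm))
    · exact n1 (mul_eq_right.1 e)
    · exact hn.2.2 (by rw [← e, ← h.zc (mul_mem m.1 (h.le h.z_mem)), mul_assoc, h.zz, mul_one])
  · refine h.z'_notMem t (toT h t hπ sq ⟨t.mem, rfl⟩ (conj_injective (x := a * y * a⁻¹) ?_))
    rw [← conj_mul, t.az] at k2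
    show a * y * a⁻¹ * (z' * π * z'⁻¹) * (a * y * a⁻¹)⁻¹ = a * y * a⁻¹ * π * (a * y * a⁻¹)⁻¹
    rw [k1, ← k2]
    group

end CS1

theorem Hyp.cs {n : ℕ} {S R T : Subgroup Γ} {ρ σ z z' a : Γ} (h : Hyp n S R T ρ σ z)
    (t : Tri S z z' a) (h0 : ∀ r ∈ R, r * z' = z' * r → r = 1 ∨ r = z) :
    ∃ ρ', Hyp n S R T ρ' σ z ∧ CS n S R T ρ' σ z z' := by
  obtain ⟨b, j, ⟨b', hb⟩, e1, e2⟩ := h.act t.mem
  have z2 := h.z'z' t
  have p : (0 : ℤ) < 2 ^ n := by positivity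
  have e8 : (2 ^ (n + 3) : ℤ) = 8 * 2 ^ n := by ring
  have ob : Odd b' := by
    refine (Int.even_or_odd b').resolve_left fun ⟨c, hc⟩ => ?_
    rcases h0 _ (zpow_mem h.ρ_mem (2 * 2 ^ n)) (Loc.cm_cj.2 (by
      rw [← conj_zpow, e1, ← zpow_mul]
      exact h.inj.2 ⟨c, by rw [hb, hc]; ring⟩)).symm with e | e
    · have := Int.le_of_dvd (by positivity) ((h.ord _).1 e)
      omega
    · have e' := h.ii
      rw [e, h.zz] at e'
      exact h.z_ne e'.symm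
  have oj : Odd j := by
    refine (Int.even_or_odd j).resolve_left fun ⟨c, hc⟩ => ?_
    obtain ⟨d, -, w, hw⟩ := odd_inv (n + 3) ob
    rcases h0 _ (mul_mem (zpow_mem h.ρ_mem (-c * d)) h.σ_mem) (Loc.cm_cj.2 (by
      rw [← conj_mul, ← conj_zpow, e1, e2, ← zpow_mul, ← mul_assoc, ← zpow_add]
      congr 1
      exact h.inj.2 ⟨-2 * c * w, by rw [hb, hc, ← e8]; linear_combination -2 * c * hw⟩)).symm with e | e
    · exact h.ne 0 _ (by rw [e, zpow_zero])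
    · exact h.ne _ _ (h.z_def.symm.trans e.symm)
  have e3 : σ = ρ ^ (j * (b + 1)) * σ := by
    calc σ = z' * (z' * σ * z'⁻¹) * z'⁻¹ := by
          rw [show z' * (z' * σ * z'⁻¹) * z'⁻¹ = z' * z' * σ * (z' * z')⁻¹ by group, z2]; simp
      _ = _ := by
          rw [e2, ← conj_mul, ← conj_zpow, e1, e2, ← zpow_mul, ← mul_assoc, ← zpow_add]
          congr 2; ring
  have d := dvd_of_odd_mul (k := n + 3) oj (e8 ▸ (h.ord _).1 (right_eq_mul.1 e3))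
  have inv : z' * ρ * z'⁻¹ = ρ⁻¹ := by
    rw [e1, ← zpow_neg_one]; exact h.inj.2 (by rwa [sub_neg_eq_add, ← e8])
  have h' : Hyp n S R T (ρ ^ (j + 4 * 2 ^ n)) σ z :=
    ⟨by simpa using h.regen (oj.add_even ⟨2 * 2 ^ n, by ring⟩) 0, h.sat, h.satz, h.wc, h.sc, h.nz, h.tr⟩
  have sq : z' * σ * (z' * σ) = ρ ^ (j + 4 * 2 ^ n) := by
    rw [zpow_add, ← h.z_def, ← h.sq, ← mul_assoc, ← mul_assoc, ← e2, inv_eq_of_mul_eq_one_right z2]
  have inv' : z' * ρ ^ (j + 4 * 2 ^ n) * z'⁻¹ = (ρ ^ (j + 4 * 2 ^ n))⁻¹ := by rw [← conj_zpow, inv, inv_zpow]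
  exact ⟨_, h', sq, inv', CS1.ab h' t rfl sq inv', CS1.T0 h' t rfl sq inv', CS1.ZC h' t rfl sq inv'⟩

end H93.QW
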