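import Cfsg.Prelude.Def_CaseTheorems
import Cfsg.Agent.Lib.QW.CS1

set_option autoImplicit false
set_option linter.unusedSectionVars false

namespace H93.QW

open Subgroup

variable {Γ : Type*} [Group Γ] [Finite Γ]

namespace CS2

/-- the semidihedral group -/
def SD (π y : Γ) (e : ℤ) (h : y * π * y⁻¹ = π ^ e) (yy : y * y = 1) : Subgroup Γ where
  carrier := {g | ∃ k : ℤ, g = π ^ k ∨ g = π ^ k * y}
  one_mem' := ⟨0, Or.inl (by simp)⟩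
  mul_mem' := by
    have p : ∀ l : ℤ, y * π ^ l = π ^ (e * l) * y := fun l => by
      rw [zpow_mul, ← h, conj_zpow, inv_mul_cancel_right]
    rintro _ _ ⟨k, rfl | rfl⟩ ⟨l, rfl | rfl⟩
    · exact ⟨k + l, Or.inl (zpow_add ..).symm⟩
    · exact ⟨k + l, Or.inr (by rw [zpow_add, mul_assoc])⟩
    · exact ⟨k + e * l, Or.inr (by rw [zpow_add, mul_assoc, p, mul_assoc])⟩
    · exact ⟨k + e * l, Or.inl (by rw [zpow_add, mul_assoc, ← mul_assoc y, p, mul_assoc, yy, mul_one])⟩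
  inv_mem' := by
    rintro _ ⟨k, rfl | rfl⟩
    · exact ⟨-k, Or.inl (zpow_neg ..).symm⟩
    · exact ⟨e * -k, Or.inr (by
        rw [zpow_mul, ← h, conj_zpow, inv_mul_cancel_right, mul_inv_rev, zpow_neg,
          inv_eq_of_mul_eq_one_right yy])⟩

/-- conjugates of `z` in `S` -/
def Zc (S : Subgroup Γ) (z u : Γ) : Prop := u ∈ S ∧ ∃ g, g * z * g⁻¹ = u

/-- `u` inverts `ρ` and multiplies `σ` by `ρ ^ j` -/
def Iv (ρ σ u : Γ) (j : ℤ) : Prop := u * ρ * u⁻¹ = ρ⁻¹ ∧ u * σ * u⁻¹ = ρ ^ j * σ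

structure Ctx (n : ℕ) (S R T : Subgroup Γ) (ρ σ z z' a π : Γ) : Prop where
  h : Hyp n S R T ρ σ z
  t : Tri S z z' a
  c : CS n S R T ρ σ z z'
  hπ : z' * σ = π

theorem eqns_cs2 : True := by
  have := @SD.eq_1.{0}; have := @Zc.eq_1.{0}; have := @Iv.eq_1.{0}
  trivial

variable {n : ℕ} {S R T : Subgroup Γ} {ρ σ z z' a π s u g : Γ}

theorem Zc.cj (h : Zc S z u) (hg : g * u * g⁻¹ ∈ S) : Zc S z (g * u * g⁻¹) :=
  ⟨hg, h.2.elim fun k e => ⟨g * k, by rw [← e]; group⟩⟩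

theorem inv8 (n : ℕ) {j : ℤ} (h : Odd j) : ∃ b : ℤ, (8 * 2 ^ n : ℤ) ∣ j * b - 1 := by
  obtain ⟨b, -, hb⟩ := odd_inv (n + 3) h
  exact ⟨b, by rwa [pow_add, mul_comm] at hb⟩

namespace Ctx

variable (c : Ctx n S R T ρ σ z z' a π)
include c

theorem zz' : z' * z' = 1 := c.h.z'z' c.t
theorem z'i : z'⁻¹ = z' := inv_eq_of_mul_eq_one_right c.zz'
theorem Zz' : Zc S z z' := ⟨c.t.mem, a, c.t.az⟩
theorem Zsq (hu : Zc S z u) : u * u = 1 := hu.2.elim fun g e => by rw [← e, conj_mul, c.h.zz]; simp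
theorem πS : π ∈ S := c.hπ ▸ mul_mem c.t.mem (c.h.le c.h.σ_mem)
theorem ππ : π * π = ρ := c.hπ ▸ c.c.sq
theorem π2 (k : ℤ) : π ^ (2 * k) = ρ ^ k := by rw [zpow_mul, zpow_two, c.ππ]
theorem πN : π ^ (8 * 2 ^ n : ℤ) = z := by rw [c.h.z_def, ← c.π2]; congr 1; ring
theorem z'ρ (k : ℤ) : z' * ρ ^ k = ρ ^ (-k) * z' := by
  rw [← inv_zpow', ← c.c.inv, conj_zpow, inv_mul_cancel_right]
theorem σ_eq : σ = z' * π := by rw [← c.hπ, ← mul_assoc, c.zz', one_mul]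

theorem z'π : z' * π * z'⁻¹ = π ^ (8 * 2 ^ n - 1 : ℤ) := by
  rw [zpow_sub_one, c.πN, ← c.σ_eq, ← c.hπ, mul_inv_rev, ← mul_assoc, ← c.h.sq, mul_inv_cancel_right]

theorem z'σ : z' * σ * z'⁻¹ = ρ ^ (1 + 4 * 2 ^ n : ℤ) * σ := by
  rw [zpow_add, zpow_one, ← c.h.z_def, mul_assoc ρ, ← c.h.σ_inv, ← c.ππ, c.hπ, mul_assoc π, ← c.hπ,
    mul_inv_cancel_right, c.z'i]

theorem ρne : ρ⁻¹ ≠ ρ := fun e => by
  obtain ⟨k, hk⟩ := (c.h.ord 2).1 (by rw [zpow_two]; nth_rw 1 [← e]; simp)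
  rw [mul_assoc] at hk
  omega

theorem ord (k : ℤ) : π ^ k = 1 ↔ (8 * 2 ^ (n + 1) : ℤ) ∣ k := by
  obtain ⟨l, rfl | rfl⟩ := Int.even_or_odd' k
  · rw [c.π2, c.h.ord, show (8 * 2 ^ (n + 1) : ℤ) = 2 * (8 * 2 ^ n) by ring,
      mul_dvd_mul_iff_left two_ne_zero]
  · refine iff_of_false (fun e => ?_) fun ⟨d, hd⟩ => by rw [mul_assoc] at hd; omega
    rw [zpow_add_one, c.π2, ← c.hπ, ← mul_assoc] at e
    have : z' ∈ R := by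
      simpa using mul_mem (inv_mem (zpow_mem c.h.ρ_mem l))
        (eq_inv_of_mul_eq_one_left e ▸ inv_mem c.h.σ_mem : ρ ^ l * z' ∈ R)
    rcases c.h.invol this c.zz' with q | q
    exacts [c.h.z_ne (by simpa [q] using c.t.az), c.t.ne q]

theorem pa : ∀ t ∈ S, t ∈ T → z' * t * z'⁻¹ = t⁻¹ → Zc S z (z' * t) → t = 1 ∨ t = z := by
  refine sq_induction c.h.pgrp (fun _ _ _ => Or.inl rfl) fun t hs ih ht e hz => ?_
  have e1 : t⁻¹ * z' * t⁻¹⁻¹ = z' * (t * t) := by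
    rw [← mul_inv_eq_iff_eq_mul.1 e, inv_inv, mul_assoc]
  rcases ih (mul_mem ht ht) (by rw [← conj_mul, e, mul_inv_rev])
    (e1 ▸ c.Zz'.cj (Cj.of_mem (inv_mem hs) _ c.t.mem)) with q | q
  · exact c.c.T0 t ht (mul_inv_eq_iff_eq_mul.1 (e.trans (inv_eq_of_mul_eq_one_right q))).symm
  have cm : ∀ k : ℤ, t * ρ ^ k = ρ ^ k * t := fun k => c.h.T_comm ht (zpow_mem c.h.ρ_mem k)
  have e2 : ρ ^ (2 ^ n : ℤ) * (z' * t) * (ρ ^ (2 ^ n : ℤ))⁻¹ = z' * (ρ ^ (-(2 * 2 ^ n) : ℤ) * t) := by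
    rw [← zpow_neg, mul_assoc, mul_assoc, cm, ← mul_assoc z', ← mul_assoc z', c.z'ρ, c.z'ρ]; group
  have m : z' * (ρ ^ (-(2 * 2 ^ n) : ℤ) * t) ∈ cS S z' := by
    refine mul_mem ⟨c.t.mem, rfl⟩ ⟨mul_mem (c.h.le (zpow_mem c.h.ρ_mem _)) hs, ?_⟩
    rw [← mul_assoc z', c.z'ρ, mul_assoc _ z', mul_inv_eq_iff_eq_mul.1 e, neg_neg, ← mul_assoc,
      mul_left_inj, eq_mul_inv_iff_mul_eq, mul_assoc, q, ← c.h.ii]
    group
  obtain ⟨-, g, e3⟩ := hz.cj (e2 ▸ m.1)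
  have r : ∀ r ∈ R, ρ ^ (-(2 * 2 ^ n) : ℤ) * t = r → t = 1 ∨ t = z := fun r hr e =>
    c.h.inf ((mul_mem_cancel_left (zpow_mem c.h.ρ_mem _)).1 (e ▸ hr)) ht
  rcases c.c.ZC g (by rwa [e3, e2]) with q | q | q <;> rw [e3, e2] at q
  · refine absurd ?_ c.ρne
    have : Commute ρ (ρ ^ (-(2 * 2 ^ n) : ℤ) * t) :=
      ((Commute.refl ρ).zpow_right _).mul_right (c.h.T_comm ht c.h.ρ_mem).symm
    rw [← c.c.inv, eq_mul_inv_of_mul_eq q, mul_inv_eq_iff_eq_mul]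
    exact ((show Commute ρ z from c.h.zc (c.h.le c.h.ρ_mem)).mul_right this.inv_right).symm
  · exact r 1 (one_mem _) (by simpa using q)
  · exact r z c.h.z_mem (by rwa [← c.h.zc c.t.mem, mul_right_inj] at q)

theorem Iρ {j : ℤ} (e : Iv ρ σ u j) (k : ℤ) : Iv ρ σ (ρ ^ k * u * (ρ ^ k)⁻¹) (4 * k + j) := by
  refine ⟨?_, ?_⟩
  · calc _ = ρ ^ k * (u * ρ * u⁻¹) * (ρ ^ k)⁻¹ := by group
      _ = _ := by rw [e.1]; group
  · calc _ = ρ ^ k * (u * (ρ ^ (-k) * (σ * ρ ^ k)) * u⁻¹) * ρ ^ (-k) := by group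
      _ = ρ ^ k * ((u * ρ * u⁻¹) ^ (-k + -k) * (u * σ * u⁻¹)) * ρ ^ (-k) := by
        rw [c.h.σ_mul, conj_zpow]; group
      _ = ρ ^ (3 * k + j) * (σ * ρ ^ (-k)) := by rw [e.1, e.2]; group
      _ = _ := by rw [c.h.σ_mul]; group

theorem Iσ {j : ℤ} (e : Iv ρ σ u j) : Iv ρ σ (σ * u * σ⁻¹) (-j) := by
  refine ⟨?_, ?_⟩
  · have : σ⁻¹ * ρ * σ = ρ⁻¹ := by
      rw [mul_assoc, inv_mul_eq_iff_eq_mul, ← zpow_neg_one, c.h.σ_mul, neg_neg, zpow_one]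
    calc _ = σ * (u * (σ⁻¹ * ρ * σ) * u⁻¹) * σ⁻¹ := by group
      _ = _ := by rw [this, ← conj_inv, e.1, inv_inv, c.h.conj]
  · calc _ = σ * (u * σ * u⁻¹) * σ⁻¹ := by group
      _ = _ := by rw [e.2, ← c.h.σ_mul]; group

theorem pb (hu : Zc S z u) {j : ℤ} (e : Iv ρ σ u j) (o : Odd j) : ∃ r ∈ R, r * u * r⁻¹ = z' := by
  have key : ∀ {v}, Zc S z v → Iv ρ σ v (1 + 4 * 2 ^ n) → ∃ r ∈ R, r * v * r⁻¹ = z' := by
    intro v hv e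
    have m : z'⁻¹ * v ∈ T := (c.h.mem_T _).2 ⟨mul_mem (inv_mem c.t.mem) hv.1,
      mul_inv_eq_iff_eq_mul.1 (by
        calc _ = z'⁻¹ * (v * ρ * v⁻¹) * z' := by group
          _ = _ := by rw [e.1, ← c.c.inv]; group),
      mul_inv_eq_iff_eq_mul.1 (by
        calc _ = z'⁻¹ * (v * σ * v⁻¹) * z' := by group
          _ = _ := by rw [e.2, ← c.z'σ]; group)⟩
    rcases c.pa _ (c.h.T_le m) m (by
      rw [mul_inv_cancel_left, mul_inv_rev, inv_eq_of_mul_eq_one_right (c.Zsq hv), inv_inv, c.z'i])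
      (by rwa [mul_inv_cancel_left]) with q | q
    · exact ⟨1, one_mem _, by simpa using (inv_mul_eq_one.1 q).symm⟩
    · refine ⟨ρ ^ (-(2 * 2 ^ n) : ℤ), zpow_mem c.h.ρ_mem _, ?_⟩
      rw [inv_mul_eq_iff_eq_mul.1 q, ← mul_assoc, ← c.z'ρ, ← c.h.ii]
      calc _ = z' * (ρ ^ (2 * 2 ^ n : ℤ) * ρ ^ (2 * 2 ^ n : ℤ) *
            (ρ ^ (2 * 2 ^ n : ℤ) * ρ ^ (2 * 2 ^ n : ℤ))) := by group
        _ = _ := by rw [c.h.ii, c.h.zz, mul_one]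
  have tr : ∀ {r}, r ∈ R → ∀ {v}, (∃ r' ∈ R, r' * (r * v * r⁻¹) * r'⁻¹ = z') →
      ∃ r ∈ R, r * v * r⁻¹ = z' := fun hr _ ⟨r', h1, h2⟩ => ⟨_, mul_mem h1 hr, by rw [← h2]; group⟩
  have st : ∀ {v}, Zc S z v → ∀ {i : ℤ}, Iv ρ σ v (4 * i + 1) → ∃ r ∈ R, r * v * r⁻¹ = z' :=
    fun hv i e => have m := zpow_mem c.h.ρ_mem (2 ^ n - i)
      tr m (key (hv.cj (Cj.of_mem (c.h.le m) _ hv.1)) (by convert c.Iρ e (2 ^ n - i) using 1; ring))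
  obtain ⟨i, rfl | rfl⟩ : ∃ i, j = 4 * i + 1 ∨ j = -(4 * i + 1) := by
    obtain ⟨k, rfl⟩ := o
    obtain ⟨l, rfl | rfl⟩ := Int.even_or_odd' k
    exacts [⟨l, Or.inl (by ring)⟩, ⟨-l - 1, Or.inr (by ring)⟩]
  · exact st hu e
  · exact tr c.h.σ_mem (st (hu.cj (Cj.of_mem (c.h.le c.h.σ_mem) _ hu.1)) (neg_neg (4 * i + 1) ▸ c.Iσ e))

theorem mP (k : ℤ) : π ^ k ∈ SD π z' _ c.z'π c.zz' := ⟨k, Or.inl rfl⟩

theorem z'P : z' ∈ SD π z' _ c.z'π c.zz' := ⟨0, Or.inr (by simp)⟩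

theorem RP : R ≤ SD π z' _ c.z'π c.zz' :=
  c.h.le_iff.2 ⟨by have := c.mP (2 * 1); rwa [c.π2, zpow_one] at this,
    by have := mul_mem c.z'P (c.mP 1); rwa [zpow_one, ← c.σ_eq] at this⟩

theorem dec (hs : s ∈ S) : ∃ k : ℤ, ∃ e ∈ cS S z', s = π ^ k * e := by
  obtain ⟨b, j, -, e1, e2⟩ := c.h.act (inv_mem hs)
  obtain ⟨b', _, o, e3, -⟩ := c.h.act hs
  obtain ⟨r, hr, e⟩ := c.pb (c.Zz'.cj (Cj.of_mem hs _ c.t.mem)) (j := b' * (1 + 4 * 2 ^ n - 2 * j)) ⟨by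
      calc _ = s * (z' * (s⁻¹ * ρ * s⁻¹⁻¹) * z'⁻¹) * s⁻¹ := by group
        _ = s * (s⁻¹ * ρ * s⁻¹⁻¹)⁻¹ * s⁻¹ := by rw [e1, ← conj_zpow, c.c.inv, inv_zpow]
        _ = _ := by group, by
      calc _ = s * (z' * (s⁻¹ * σ * s⁻¹⁻¹) * z'⁻¹) * s⁻¹ := by group
        _ = s * (ρ ^ (1 + 4 * 2 ^ n - 2 * j) * (s⁻¹ * σ * s⁻¹⁻¹)) * s⁻¹ := by
          rw [e2, show z' * (ρ ^ j * σ) * z'⁻¹ = ρ ^ (-j) * (ρ ^ (1 + 4 * 2 ^ n : ℤ) * σ) by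
            rw [← c.z'σ, ← mul_assoc, c.z'ρ]; group]
          group
        _ = _ := by rw [zpow_mul, ← e3, conj_zpow]; group⟩ (o.mul ⟨2 * 2 ^ n - j, by ring⟩)
  have m : r * s ∈ cS S z' := ⟨mul_mem (c.h.le hr) hs, mul_inv_eq_iff_eq_mul.1 (by
    refine Eq.trans ?_ e; group)⟩
  obtain ⟨k, q | q⟩ := c.RP (inv_mem hr)
  · exact ⟨k, _, m, by rw [← q, inv_mul_cancel_left]⟩
  · exact ⟨k, _, mul_mem ⟨c.t.mem, rfl⟩ m, by rw [← mul_assoc, ← q, inv_mul_cancel_left]⟩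

theorem act (hs : s ∈ S) : ∃ l : ℤ, s * π * s⁻¹ = π ^ (2 * l + 1) := by
  obtain ⟨k, e, he, rfl⟩ := c.dec hs
  obtain ⟨_, l, -, -, q⟩ := c.h.act he.1
  have : e * π * e⁻¹ = π ^ (2 * -l + 1) := by
    rw [zpow_add_one, c.π2, ← c.hπ, ← conj_mul, q, he.2, mul_inv_cancel_right, ← mul_assoc, c.z'ρ,
      mul_assoc]
  refine ⟨-l, ?_⟩
  calc _ = π ^ k * (e * π * e⁻¹) * (π ^ k)⁻¹ := by group
    _ = _ := by rw [this]; group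

theorem T0 (hs : s ∈ cS S z') (e : s * π = π * s) : s = 1 ∨ s = z :=
  c.c.T0 s ((c.h.mem_T s).2 ⟨hs.1, c.ππ ▸ (show Commute s π from e).mul_right e,
    c.σ_eq ▸ (show Commute s z' from hs.2).mul_right e⟩) hs.2

theorem fix (hs : s ∈ S) (e : s * π = π * s) : ∃ k : ℤ, s = π ^ k := by
  obtain ⟨k, y, hy, rfl⟩ := c.dec hs
  rcases c.T0 hy (by
    simpa using (((Commute.refl π).zpow_left k).inv_left.mul_left e).eq) with rfl | rfl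
  exacts [⟨k, mul_one _⟩, ⟨_, by rw [← c.πN, ← zpow_add]⟩]

theorem ext (hu : Zc S z u) : ∃ h, Cj h (cS S u) S ∧ (h * z * h⁻¹ = z → u = z) ∧ Zc S z (h * z * h⁻¹) := by
  obtain ⟨g, e⟩ := hu.2
  have e' : g⁻¹ * u * g⁻¹⁻¹ = z := by rw [← e]; group
  obtain ⟨h, -, h1, h2⟩ := c.h.sat.extZ hu.1 (mem_top g⁻¹) (e' ▸ c.h.le c.h.z_mem)
    fun s hs => e' ▸ c.h.zc hs
  exact ⟨h, h2, fun q => by simpa using h1.trans (e'.trans q.symm),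
    h2 z ⟨c.h.le c.h.z_mem, (c.h.zc hu.1).symm⟩, h, rfl⟩

theorem pe (hu : Zc S z u) (e : u * ρ = ρ * u) : u = z := by
  obtain ⟨h, h1, h2, h3⟩ := c.ext hu
  obtain ⟨l, q⟩ := c.act (h1 ρ ⟨c.h.le c.h.ρ_mem, e.symm⟩)
  have q := conj_pow_of q (2 ^ (n + 2))
  rw [conj_pow, ← zpow_natCast ρ, show ((2 ^ (n + 2) : ℕ) : ℤ) = 4 * 2 ^ n by push_cast; ring,
    ← c.h.z_def, ← sub_add_cancel ((2 * l + 1) ^ _) 1, zpow_add_one, (c.ord _).2 (by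
      convert odd_pow_dvd (n + 1) (odd_two_mul_add_one l) using 1; ring), one_mul] at q
  obtain ⟨k, hk⟩ := c.fix h3.1 (mul_inv_eq_iff_eq_mul.1 q)
  have s := c.Zsq h3
  obtain ⟨d, rfl⟩ := (c.h.ord k).1 (by rw [← c.π2, two_mul, zpow_add, ← hk, s])
  refine h2 ((c.h.invol ?_ s).resolve_left fun q => c.h.z_ne (by simpa using q))
  rw [hk, zpow_mul, c.πN]
  exact zpow_mem c.h.z_mem d

theorem pf (hu : Zc S z u) (n1 : u ≠ z) : u * ρ * u⁻¹ = ρ⁻¹ := by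
  obtain ⟨l, q⟩ := c.act hu.1
  have q2 := conj_pow_of q 2
  rw [sq, c.Zsq hu, one_mul, inv_one, mul_one, ← sub_add_cancel ((2 * l + 1) ^ 2) 1, zpow_add_one,
    right_eq_mul, c.ord, sq] at q2
  have r : u * ρ * u⁻¹ = ρ ^ (2 * l + 1) := by
    rw [← c.π2, mul_comm 2, zpow_mul, ← q, zpow_two, conj_mul, c.ππ]
  have d : ∀ {x : ℤ}, (8 * 2 ^ (n + 1) : ℤ) ∣ x → (8 * 2 ^ n : ℤ) ∣ x := Dvd.dvd.trans ⟨2, by ring⟩
  have d' : ∀ {x : ℤ}, (8 * 2 ^ (n + 1) : ℤ) ∣ x - 4 * 2 ^ (n + 1) → (8 * 2 ^ n : ℤ) ∣ x :=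
    fun h => (dvd_sub_left ⟨1, by ring⟩).1 (d h)
  have p1 : ¬ (8 * 2 ^ n : ℤ) ∣ 2 * l + 1 - 1 := fun h =>
    n1 (c.pe hu (mul_inv_eq_iff_eq_mul.1 (by rw [r, c.h.inj.2 h, zpow_one])))
  have p2 : (8 * 2 ^ n : ℤ) ∣ 2 * l + 1 + 1 → u * ρ * u⁻¹ = ρ⁻¹ := fun h => by
    rw [r, (c.h.inj (j := -1)).2 (by rwa [sub_neg_eq_add]), zpow_neg_one]
  rcases sq_cases q2 with h | h | h | h
  exacts [absurd (d h) p1, p2 (d h), absurd (d' h) p1, p2 (d' h)]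

theorem nsq (hs : s ∈ S) (hu : Zc S z (s * s)) : s * s = z := by
  by_contra n1
  obtain ⟨b, _, ⟨k, rfl⟩, q, -⟩ := c.h.act hs
  have q2 := conj_pow_of q 2
  rw [sq, c.pf hu n1, ← zpow_neg_one, c.h.inj] at q2
  obtain ⟨d, hd⟩ := q2
  have : -1 - 4 * (k * k) - 4 * k - 1 = 8 * (2 ^ n * d) := by linear_combination hd
  omega

theorem pg (hu : Zc S z u) : u ∈ SD π z' _ c.z'π c.zz' := by
  by_cases n1 : u = z
  · rw [n1]; exact c.RP c.h.z_mem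
  obtain ⟨_, j, -, -, q⟩ := c.h.act hu.1
  rcases Int.even_or_odd j with ⟨k, rfl⟩ | o
  · obtain ⟨h, h1, h2, h3⟩ := c.ext hu
    have m := h1 (ρ ^ k * σ) ⟨c.h.le (mul_mem (zpow_mem c.h.ρ_mem k) c.h.σ_mem),
      (mul_inv_eq_iff_eq_mul.1 (by rw [← conj_mul, ← conj_zpow, c.pf hu n1, q]; group)).symm⟩
    have e : h * z * h⁻¹ = h * (ρ ^ k * σ) * h⁻¹ * (h * (ρ ^ k * σ) * h⁻¹) := by rw [conj_mul, c.h.sq']
    exact absurd (h2 (e.trans (c.nsq m (e ▸ h3)))) n1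
  · obtain ⟨r, hr, e⟩ := c.pb hu ⟨c.pf hu n1, q⟩ o
    simpa [← e, mul_assoc] using mul_mem (mul_mem (inv_mem (c.RP hr)) c.z'P) (c.RP hr)

theorem gz (hs : g * s * g⁻¹ ∈ S) (e : s * s = z) : g * z = z * g := by
  have e' : g * z * g⁻¹ = g * s * g⁻¹ * (g * s * g⁻¹) := by rw [conj_mul, e]
  exact mul_inv_eq_iff_eq_mul.1 (e'.trans (c.nsq hs ⟨mul_mem hs hs, g, e'⟩))

theorem scR (hu : u ∈ R) (hg : g * u * g⁻¹ ∈ S) : g * u * g⁻¹ ∈ SD π z' _ c.z'π c.zz' := by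
  by_cases n1 : u = 1
  · simp [n1, one_mem]
  obtain ⟨k, k1, k2⟩ := exists_invol c.h.pgrp (c.h.le hu) n1
  have e := (c.h.invol (pow_mem hu _) k2).resolve_left k1
  rcases k with _ | k
  · exact c.pg ⟨hg, g, by rw [← e]; simp⟩
  · exact c.RP (c.h.sc z c.h.z_mem_T c.h.zz c.h.z_ne g (mem_cS_top.2 (c.gz (s := u ^ 2 ^ k)
      (by rw [← conj_pow]; exact pow_mem hg _) (by rw [← e, pow_succ, pow_mul, sq]))) u hu hg)

theorem scπ (hg : g * π * g⁻¹ ∈ S) : ∃ k : ℤ, g * π * g⁻¹ = π ^ k := by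
  have gz := c.gz (s := π ^ (4 * 2 ^ n : ℤ)) (by rw [← conj_zpow]; exact zpow_mem hg _)
    (by rw [← zpow_add, ← c.πN]; congr 1; ring)
  have e : g * ρ * g⁻¹ = g * π * g⁻¹ * (g * π * g⁻¹) := by rw [conj_mul, c.ππ]
  obtain ⟨b, hb⟩ := c.h.big (c.h.sc z c.h.z_mem_T c.h.zz c.h.z_ne g (mem_cS_top.2 gz) ρ c.h.ρ_mem
    (e ▸ mul_mem hg hg)) fun q => by
      rw [conj_mul, mul_inv_eq_iff_eq_mul, ← gz, mul_right_inj, ← zpow_two, c.h.z_def, c.h.inj] at q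
      obtain ⟨d, hd⟩ := q
      rw [mul_assoc] at hd
      omega
  obtain ⟨b', hb'⟩ := inv8 n (j := b) (Int.not_even_iff_odd.1 fun ⟨d, hd⟩ => c.h.z_ne (by
    have := congrArg (· ^ (4 * 2 ^ n : ℤ)) hb
    simp only [conj_zpow] at this
    rwa [← c.h.z_def, gz, mul_inv_cancel_right, ← zpow_mul, (c.h.ord _).2 ⟨d, by rw [hd]; ring⟩] at this))
  generalize hp : g * π * g⁻¹ = p at *
  have pρ : p * ρ * p⁻¹ = ρ := by
    rw [← zpow_one ρ, ← c.h.inj.2 hb', zpow_mul, ← hb, e, ← conj_zpow]; group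
  obtain ⟨l, q⟩ := c.act hg
  obtain ⟨d, hd⟩ := (c.h.ord (2 * l)).1 (by
    rw [← c.ππ, ← conj_mul, q, ← zpow_add, ← two_mul, c.π2, c.ππ, zpow_add_one] at pρ
    simpa using pρ)
  rw [zpow_add_one, hd, zpow_mul, c.πN] at q
  rcases c.h.invol (zpow_mem c.h.z_mem d) (by
    rw [← (Commute.refl z).mul_zpow, c.h.zz, one_zpow]) with r | r <;> rw [r] at q
  · exact c.fix hg (mul_inv_eq_iff_eq_mul.1 (q.trans (one_mul _)))
  exfalso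
  obtain ⟨k, y, hy, rfl⟩ := c.dec hg
  have zπ : Commute z π := (c.h.zc c.πS).symm
  have q : y * π * y⁻¹ = z * π := by
    calc _ = (π ^ k)⁻¹ * (π ^ k * y * π * (π ^ k * y)⁻¹) * π ^ k := by group
      _ = _ := by rw [q, mul_assoc, mul_assoc, ← mul_assoc _ z, (zπ.zpow_right k).inv_right.symm.eq]; group
  have yy : y * y = 1 := by
    refine (c.T0 (mul_mem hy hy) (mul_inv_eq_iff_eq_mul.1 ?_)).resolve_right fun r => c.t.ne ?_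
    · calc _ = y * (y * π * y⁻¹) * y⁻¹ := by group
        _ = _ := by
          rw [q, ← conj_mul, q, c.h.zc hy.1, mul_inv_cancel_right, ← mul_assoc, c.h.zz, one_mul]
    · have e : z' = a * y * a⁻¹ * (a * y * a⁻¹) := by rw [conj_mul, r, c.t.az]
      exact e.trans (c.nsq (c.t.nm y hy).1 (e ▸ c.Zz'))
  have iv : z' * (π ^ k * y) * z'⁻¹ = (π ^ k * y)⁻¹ := by
    rw [← conj_mul, ← hy.2, mul_inv_cancel_right, ← conj_zpow, c.z'π, zpow_sub_one, c.πN,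
      eq_inv_iff_mul_eq_one, mul_assoc, ← mul_assoc y, ← mul_inv_cancel_right (y * π ^ k) y⁻¹, inv_inv,
      ← conj_zpow, q, mul_assoc, yy, mul_one,
      ← (((Commute.refl z).mul_right zπ).mul_left
        (zπ.symm.mul_right (Commute.refl π)).inv_left).mul_zpow, zπ.eq, mul_assoc, inv_mul_cancel_left,
      c.h.zz, one_zpow]
  obtain ⟨h, -, -, h2, h3⟩ := c.h.sat.extN (zpowers (π ^ k * y)) (zpowers_le.2 hg) (zpowers π)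
    (zpowers_le.2 c.πS) (by
      rintro s hs _ ⟨i, rfl⟩
      obtain ⟨l, q⟩ := c.act hs
      exact ⟨(2 * l + 1) * i, by simp only [zpow_mul, ← q, conj_zpow]⟩) g⁻¹ (mem_top _)
    (by rintro _ ⟨i, rfl⟩; exact ⟨i, by simp only [← hp, conj_zpow]; group⟩)
    (by rintro _ ⟨i, rfl⟩; exact ⟨i, by simp only [← hp, conj_zpow, inv_inv]⟩)
  obtain ⟨i, hi⟩ := h2 π (mem_zpowers π)
  have r : h * z' * h⁻¹ * π * (h * z' * h⁻¹)⁻¹ = π⁻¹ := by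
    calc _ = h * (z' * (h⁻¹ * π * h⁻¹⁻¹) * z'⁻¹) * h⁻¹ := by group
      _ = h * (h⁻¹ * π * h⁻¹⁻¹)⁻¹ * h⁻¹ := by simp only [← hi, ← conj_zpow, iv, inv_zpow]
      _ = _ := by group
  obtain ⟨j, w | w⟩ := c.pg (c.Zz'.cj (h3 z' c.t.mem (by
    rintro _ ⟨i, rfl⟩
    exact ⟨-i, by simp only [← conj_zpow, iv, inv_zpow']⟩))) <;> rw [w] at r
  · refine c.ρne ?_
    have : π⁻¹ = π := by rw [← r]; group
    rw [← c.ππ, mul_inv_rev, this]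
  · refine c.h.z_ne ?_
    have : π⁻¹ = π ^ j * (z' * π * z'⁻¹) * (π ^ j)⁻¹ := by rw [← r]; group
    rw [← c.πN, ← sub_add_cancel (8 * 2 ^ n : ℤ) 1, zpow_add_one, ← eq_inv_iff_mul_eq_one, this, c.z'π]
    group

theorem sc : SC ⊤ S (SD π z' _ c.z'π c.zz') := by
  rintro g - _ ⟨k, rfl | rfl⟩ hg <;> obtain ⟨l, rfl | rfl⟩ := Int.even_or_odd' k
  · exact c.scR (c.π2 l ▸ zpow_mem c.h.ρ_mem l) hg
  · obtain ⟨b, hb⟩ := inv8 (n + 1) (odd_two_mul_add_one l)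
    obtain ⟨k, e⟩ := c.scπ (g := g) (by
      have := zpow_mem hg b
      rwa [conj_zpow, ← zpow_mul, ← sub_add_cancel (_ * b) 1, zpow_add_one, (c.ord _).2 hb,
        one_mul] at this)
    rw [← conj_zpow, e, ← zpow_mul]
    exact c.mP _
  · obtain ⟨b, hb⟩ := inv8 n (j := 1 - 4 * 2 ^ n) ⟨-(2 * 2 ^ n), by ring⟩
    have e : π ^ (b * l) * z' * (π ^ (b * l))⁻¹ = π ^ (2 * l) * z' := by
      rw [mul_assoc, ← zpow_neg, ← inv_mul_cancel_right (z' * _) z', ← conj_zpow, c.z'π, ← zpow_mul,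
        ← mul_assoc, ← zpow_add, mul_left_inj, ← mul_inv_eq_one, ← zpow_sub, c.ord]
      exact (mul_dvd_mul_left 2 (hb.mul_left l)).trans (dvd_of_eq (by ring)) |> Dvd.dvd.trans ⟨1, by ring⟩
    exact c.pg ((e ▸ c.Zz'.cj (Cj.of_mem (zpow_mem c.πS _) _ c.t.mem) :
      Zc S z (π ^ (2 * l) * z')).cj hg)
  · refine c.scR ?_ hg
    have : π ^ (2 * l + 1) * z' = ρ ^ (l + 1 - 4 * 2 ^ n) * σ := by
      rw [← c.π2, c.σ_eq, ← inv_mul_cancel_right (z' * π) z', c.z'π, ← mul_assoc, ← zpow_add]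
      congr 2; ring
    exact this ▸ mul_mem (zpow_mem c.h.ρ_mem _) c.h.σ_mem

end Ctx

end CS2

theorem Hyp.qd {n : ℕ} {S R T : Subgroup Γ} {ρ σ z z' a : Γ} (h : Hyp n S R T ρ σ z)
    (t : Tri S z z' a) (c : CS n S R T ρ σ z z') :
    ∃ P ≤ S, Cfsg.IsQuasiDihedral P ∧ SC ⊤ S P := by
  obtain ⟨π, c⟩ : ∃ π, CS2.Ctx n S R T ρ σ z z' a π := ⟨_, h, t, c, rfl⟩
  have m : π ∈ CS2.SD π z' _ c.z'π c.zz' := by simpa using c.mP 1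
  have e : π ^ 2 ^ (n + 3) = z := by
    rw [← c.πN, ← zpow_natCast]; congr 1; push_cast; ring
  have o : orderOf π = 2 ^ (n + 4) := orderOf_eq_prime_pow (e ▸ h.z_ne)
    (by rw [pow_succ, pow_mul, e, sq, h.zz])
  have z1 : z' ≠ 1 := fun q => h.z_ne (by simpa [q] using t.az)
  refine ⟨_, ?_, ⟨n + 4, by omega, ?_, ⟨π, m⟩, ⟨z', c.z'P⟩, by rw [orderOf_mk, o],
    by rw [orderOf_mk]; exact orderOf_eq_prime ((sq _).trans c.zz') z1, Subtype.ext ?_⟩, c.sc⟩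
  · rintro _ ⟨k, rfl | rfl⟩
    exacts [zpow_mem c.πS k, mul_mem (zpow_mem c.πS k) t.mem]
  · have nz : z' ∉ zpowers π := fun ⟨k, hk⟩ => c.ρne (by
      rw [← c.c.inv, ← hk, ← c.π2 1 |>.trans (zpow_one ρ)]; group)
    rw [← card_mul_index ((zpowers π).subgroupOf _),
      Nat.card_congr (subgroupOfEquivOfLe (zpowers_le.2 m)).toEquiv, Nat.card_zpowers, o,
      index_eq_two_iff.2 ⟨⟨z', c.z'P⟩, ?_⟩, ← pow_succ]
    rintro ⟨_, k, rfl | rfl⟩ <;> simp only [mem_subgroupOf, coe_mul]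
    · exact Or.inr ⟨zpow_mem_zpowers π k, fun q => nz ((mul_mem_cancel_left (zpow_mem_zpowers π k)).1 q)⟩
    · exact Or.inl ⟨by rw [mul_assoc, c.zz', mul_one]; exact zpow_mem_zpowers π k,
        fun q => nz ((mul_mem_cancel_left (zpow_mem_zpowers π k)).1 q)⟩
  · change z' * π * z'⁻¹ = π ^ (2 ^ (n + 3) - 1)
    rw [c.z'π, zpow_sub_one, c.πN, ← e, mul_inv_eq_iff_eq_mul, pow_sub_one_mul (by positivity)]

end H93.QW
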