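import Cfsg.Agent.Lib.QW.Bas

/-! Normal forms in the Sylow `2`-subgroup of `G₂(q)`. -/

set_option autoImplicit false

namespace H93.QW

open Subgroup

variable {Γ : Type*} [Group Γ] {n : ℕ} {S : Subgroup Γ} {x y w d : Γ}

namespace GMb

/-- normal form -/
def nf (x y w d : Γ) (i j : ℤ) (a b : Bool) : Γ := x ^ i * y ^ j * (cond a w 1 * cond b d 1)

/-- the action on the exponents -/
def sw (a b : Bool) (k l : ℤ) : ℤ := cond b (-cond a l k) (cond a l k)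

theorem nf00 (i j : ℤ) : nf x y w d i j false false = x ^ i * y ^ j := by simp [nf]
theorem nf10 (i j : ℤ) : nf x y w d i j true false = x ^ i * y ^ j * w := by simp [nf]
theorem nf01 (i j : ℤ) : nf x y w d i j false true = x ^ i * y ^ j * d := by simp [nf]
theorem nf11 (i j : ℤ) : nf x y w d i j true true = x ^ i * y ^ j * (w * d) := by simp [nf]

theorem ex_iff {g : Γ} : (∃ i j : ℤ, g = x ^ i * y ^ j ∨ g = x ^ i * y ^ j * w ∨ g = x ^ i * y ^ j * d ∨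
    g = x ^ i * y ^ j * (w * d)) ↔ ∃ i j a b, g = nf x y w d i j a b := by
  simp only [Bool.exists_bool, nf00, nf10, nf01, nf11]
  exact exists₂_congr fun i j => by tauto

theorem small {k : ℤ} (h : (8 * 2 ^ n : ℤ) ∣ k) : (8 : ℤ) ∣ k := (dvd_mul_right 8 _).trans h

theorem mem_cl {ρ σ u : Γ} {m : ℤ} (h1 : σ * ρ * σ⁻¹ = ρ⁻¹) (h2 : σ * σ = ρ ^ m) :
    u ∈ closure {ρ, σ} ↔ ∃ i : ℤ, u = ρ ^ i ∨ u = ρ ^ i * σ := by
  have e : ∀ i : ℤ, σ * ρ ^ i = ρ ^ (-i) * σ := fun i => by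
    rw [← mul_inv_eq_iff_eq_mul, ← conj_zpow, h1, inv_zpow']
  refine ⟨fun hu => ?_, ?_⟩
  · induction hu using closure_induction with
    | mem u hu => rcases hu with rfl | rfl; exacts [⟨1, .inl (zpow_one _).symm⟩, ⟨0, .inr (by simp)⟩]
    | one => exact ⟨0, .inl (zpow_zero _).symm⟩
    | mul u v _ _ a b =>
      obtain ⟨i, rfl | rfl⟩ := a <;> obtain ⟨j, rfl | rfl⟩ := b
      · exact ⟨i + j, .inl (zpow_add ..).symm⟩
      · exact ⟨i + j, .inr (by rw [zpow_add, mul_assoc])⟩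
      · exact ⟨i + -j, .inr (by rw [zpow_add, mul_assoc, e, mul_assoc])⟩
      · exact ⟨i + -j + m, .inl (by rw [zpow_add, zpow_add, ← h2, mul_assoc, ← mul_assoc σ, e]; group)⟩
    | inv u _ a =>
      obtain ⟨i, rfl | rfl⟩ := a
      · exact ⟨-i, .inl (zpow_neg ..).symm⟩
      · exact ⟨-m + i, .inr (by
          rw [zpow_add, mul_assoc, zpow_neg _ m, ← h2, show ρ ^ i * σ = σ * ρ ^ (-i) by rw [e, neg_neg],
            mul_inv_rev σ σ, mul_assoc, inv_mul_cancel_left, e, neg_neg, mul_inv_rev, zpow_neg])⟩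
  · have a : ρ ∈ closure {ρ, σ} := subset_closure (by simp)
    rintro ⟨i, rfl | rfl⟩
    exacts [zpow_mem a i, mul_mem (zpow_mem a i) (subset_closure (by simp))]

end GMb

open GMb

namespace GM0

variable (h : GM0 n x y w d)
include h

theorem mul (i j k l : ℤ) : x ^ i * y ^ j * (x ^ k * y ^ l) = x ^ (i + k) * y ^ (j + l) := by
  rw [(Commute.zpow_zpow h.comm.symm j k).mul_mul_mul_comm, zpow_add, zpow_add]
theorem inv (i j : ℤ) : (x ^ i * y ^ j)⁻¹ = x ^ (-i) * y ^ (-j) :=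
  inv_eq_of_mul_eq_one_right (by rw [h.mul]; simp)
theorem inj {i j k l : ℤ} :
    x ^ i * y ^ j = x ^ k * y ^ l ↔ (8 * 2 ^ n : ℤ) ∣ i - k ∧ (8 * 2 ^ n : ℤ) ∣ j - l := by
  rw [← mul_inv_eq_one, h.inv, h.mul, h.ord, sub_eq_add_neg, sub_eq_add_neg]
theorem zpow (i j k : ℤ) : (x ^ i * y ^ j) ^ k = x ^ (i * k) * y ^ (j * k) := by
  rw [(Commute.zpow_zpow h.comm i j).mul_zpow, zpow_mul, zpow_mul]
theorem w_inv : w⁻¹ = w := inv_eq_of_mul_eq_one_right h.ww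
theorem d_inv : d⁻¹ = d := inv_eq_of_mul_eq_one_right h.dd
theorem w_mul (i j : ℤ) : w * (x ^ i * y ^ j) = x ^ j * y ^ i * w := by
  have : w * y * w⁻¹ = x := by
    rw [← h.wx, show w * (w * x * w⁻¹) * w⁻¹ = w * w * x * (w * w)⁻¹ by group, h.ww]; group
  rw [← mul_inv_eq_iff_eq_mul, ← conj_mul, ← conj_zpow, ← conj_zpow, h.wx, this, (Commute.zpow_zpow h.comm j i).eq]
theorem d_mul (i j : ℤ) : d * (x ^ i * y ^ j) = x ^ (-i) * y ^ (-j) * d := by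
  rw [← mul_inv_eq_iff_eq_mul, ← conj_mul, ← conj_zpow, ← conj_zpow, h.dx, h.dy, inv_zpow', inv_zpow']
theorem wd_mul (i j : ℤ) : w * d * (x ^ i * y ^ j) = x ^ (-j) * y ^ (-i) * (w * d) := by
  rw [mul_assoc, h.d_mul, ← mul_assoc, h.w_mul, mul_assoc]
theorem w_ne (i j : ℤ) : w ≠ x ^ i * y ^ j := fun e => by
  have := h.w_mul 1 0
  rw [e, h.mul, h.mul] at this
  have := small (h.inj.1 this).1
  omega
theorem d_ne (i j : ℤ) : d ≠ x ^ i * y ^ j := fun e => by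
  have := h.d_mul 1 0
  rw [e, h.mul, h.mul] at this
  have := small (h.inj.1 this).1
  omega
theorem wd_ne (i j : ℤ) : w * d ≠ x ^ i * y ^ j := fun e => by
  have := h.wd_mul 1 0
  rw [e, h.mul, h.mul] at this
  have := small (h.inj.1 this).1
  omega
theorem gmb_ρ : gρ x y = x ^ (-1 : ℤ) * y ^ (1 : ℤ) := by
  rw [gρ, ← (Commute.zpow_zpow h.comm.symm 1 (-1)).eq]; simp
theorem gmb_ρ_pow (i : ℤ) : gρ x y ^ i = x ^ (-i) * y ^ i := by rw [h.gmb_ρ, h.zpow]; simp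
theorem gmb_σ : gσ n x w = x ^ (0 : ℤ) * y ^ (4 * 2 ^ n : ℤ) * w := by rw [← h.w_mul, gσ]; simp
theorem gz_eq : gz n x y = x ^ (4 * 2 ^ n : ℤ) * y ^ (4 * 2 ^ n : ℤ) :=
  (h.gmb_ρ_pow _).trans (h.inj.2 ⟨⟨-1, by ring⟩, by simp⟩)
theorem invB {i j : ℤ} (e : x ^ i * y ^ j * (x ^ i * y ^ j) = 1) : x ^ i * y ^ j = 1 ∨
    x ^ i * y ^ j = gz n x y ∨ x ^ i * y ^ j = x ^ (4 * 2 ^ n : ℤ) ∨
      x ^ i * y ^ j = y ^ (4 * 2 ^ n : ℤ) := by
  rw [h.mul, h.ord] at e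
  obtain ⟨⟨a, ha⟩, b, hb⟩ := e
  rw [h.gz_eq, h.ord, h.inj, ← mul_one (x ^ (4 * 2 ^ n : ℤ)), ← one_mul (y ^ (4 * 2 ^ n : ℤ)), ← zpow_zero y,
    h.inj, zpow_zero, ← zpow_zero x, h.inj]
  obtain ⟨a, rfl | rfl⟩ := Int.even_or_odd' a <;> obtain ⟨b, rfl | rfl⟩ := Int.even_or_odd' b
  exacts [.inl ⟨⟨a, by linarith⟩, b, by linarith⟩, .inr (.inr (.inr ⟨⟨a, by linarith⟩, b, by linarith⟩)),
    .inr (.inr (.inl ⟨⟨a, by linarith⟩, b, by linarith⟩)), .inr (.inl ⟨⟨a, by linarith⟩, b, by linarith⟩)]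
theorem gmb_wdd : w * d * d = w := by rw [mul_assoc, h.dd, mul_one]
theorem flip : GM0 n x y⁻¹ (w * d) d where
  ord i j := by rw [inv_zpow', h.ord, dvd_neg]
  comm := (show Commute x y from h.comm).inv_right
  ww := by rw [(show Commute w d from h.wd).symm.mul_mul_mul_comm, h.ww, h.dd, mul_one]
  dd := h.dd
  wd := by rw [← mul_assoc, h.wd]
  wx := by rw [← h.wx, conj_inv, ← h.dx]; group
  dx := h.dx
  dy := by rw [← conj_inv, h.dy]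
theorem gz_flip : gz n x y⁻¹ = gz n x y := by
  rw [h.flip.gz_eq, h.gz_eq, inv_zpow']
  exact h.inj.2 ⟨by simp, ⟨-1, by ring⟩⟩

theorem gmb_E (a b a' b' : Bool) : cond a w 1 * cond b d 1 * (cond a' w 1 * cond b' d 1) =
    cond (xor a a') w 1 * cond (xor b b') d 1 := by
  rw [Commute.mul_mul_mul_comm (by cases b <;> cases a' <;> simp [(show Commute w d from h.wd).symm])]
  congr 1
  · cases a <;> cases a' <;> simp [h.ww]
  · cases b <;> cases b' <;> simp [h.dd]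

theorem gmb_mul (i j k l : ℤ) (a b a' b' : Bool) : nf x y w d i j a b * nf x y w d k l a' b' =
    nf x y w d (i + sw a b k l) (j + sw a b l k) (xor a a') (xor b b') := by
  have : cond a w 1 * cond b d 1 * (x ^ k * y ^ l) = x ^ sw a b k l * y ^ sw a b l k * (cond a w 1 * cond b d 1) := by
    cases a <;> cases b <;> simp only [sw, cond_true, cond_false, mul_one, one_mul]
    exacts [h.d_mul _ _, h.w_mul _ _, h.wd_mul _ _]
  rw [nf, nf, nf, mul_assoc, ← mul_assoc (cond a w 1 * _), this, mul_assoc _ (cond a w 1 * _), h.gmb_E, ← mul_assoc,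
    h.mul]

theorem gmb_inv (i j : ℤ) (a b : Bool) :
    (nf x y w d i j a b)⁻¹ = nf x y w d (-sw a b i j) (-sw a b j i) a b :=
  inv_eq_of_mul_eq_one_left (by rw [h.gmb_mul]; simp [nf00])

theorem gmb_eq {i j k l : ℤ} {a b a' b' : Bool} : nf x y w d i j a b = nf x y w d k l a' b' ↔
    a = a' ∧ b = b' ∧ (8 * 2 ^ n : ℤ) ∣ i - k ∧ (8 * 2 ^ n : ℤ) ∣ j - l := by
  refine ⟨fun e => ?_, ?_⟩
  · have e1 : ∀ i j a b, nf x y w d i j a b = 1 → a = false ∧ b = false := fun i j a b e => by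
      have := (eq_inv_of_mul_eq_one_right e).trans (h.inv ..)
      cases a <;> cases b <;> simp only [cond_true, cond_false, mul_one, one_mul] at this
      exacts [⟨rfl, rfl⟩, (h.d_ne _ _ this).elim, (h.w_ne _ _ this).elim, (h.wd_ne _ _ this).elim]
    have := mul_inv_eq_one.2 e
    rw [h.gmb_inv, h.gmb_mul] at this
    have := e1 _ _ _ _ this
    obtain ⟨rfl, rfl⟩ : a = a' ∧ b = b' := by simpa using this
    exact ⟨rfl, rfl, h.inj.1 (mul_right_cancel e)⟩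
  · rintro ⟨rfl, rfl, e⟩
    rw [nf, nf, h.inj.2 e]

theorem exists_gm : ∃ S : Subgroup Γ, GM n S x y w d :=
  ⟨{ carrier := {g | ∃ i j a b, g = nf x y w d i j a b}
     one_mem' := ⟨0, 0, false, false, by simp [nf]⟩
     mul_mem' := by rintro _ _ ⟨i, j, a, b, rfl⟩ ⟨k, l, a', b', rfl⟩; exact ⟨_, _, _, _, h.gmb_mul ..⟩
     inv_mem' := by rintro _ ⟨i, j, a, b, rfl⟩; exact ⟨_, _, _, _, h.gmb_inv ..⟩ }, h, fun _ => ex_iff.symm⟩

end GM0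

namespace GM

variable (h : GM n S x y w d)
include h

theorem gmb_mem {g : Γ} : g ∈ S ↔ ∃ i j a b, g = nf x y w d i j a b := (h.mem g).trans ex_iff
theorem gmb_nf (i j : ℤ) (a b : Bool) : nf x y w d i j a b ∈ S := h.gmb_mem.2 ⟨i, j, a, b, rfl⟩
theorem e_mem (i j : ℤ) : x ^ i * y ^ j ∈ S := (h.mem _).2 ⟨i, j, .inl rfl⟩
theorem x_mem : x ∈ S := by simpa using h.e_mem 1 0
theorem y_mem : y ∈ S := by simpa using h.e_mem 0 1
theorem w_mem : w ∈ S := by simpa [nf] using h.gmb_nf 0 0 true false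
theorem d_mem : d ∈ S := by simpa [nf] using h.gmb_nf 0 0 false true
theorem flip : GM n S x y⁻¹ (w * d) d :=
  ⟨h.toGM0.flip, fun g => by
    rw [h.mem, h.gmb_wdd]
    simp only [inv_zpow']
    exact ⟨fun ⟨i, j, e⟩ => ⟨i, -j, by rw [neg_neg]; tauto⟩, fun ⟨i, j, e⟩ => ⟨i, -j, by tauto⟩⟩⟩
theorem card : Nat.card S = 2 ^ (2 * n + 8) := by
  have c : ((8 * 2 ^ n : ℕ) : ℤ) = 8 * 2 ^ n := by simp
  have k : ∀ {i j : ℤ}, (8 * 2 ^ n : ℤ) ∣ i - j ↔ (j : ZMod (8 * 2 ^ n)) = i := by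
    intro i j; rw [ZMod.intCast_eq_intCast_iff_dvd_sub, c]
  rw [← Nat.card_congr (Equiv.ofBijective (fun p : ZMod (8 * 2 ^ n) × ZMod (8 * 2 ^ n) × Bool × Bool =>
    (⟨_, h.gmb_nf p.1.val p.2.1.val p.2.2.1 p.2.2.2⟩ : S)) ⟨?_, ?_⟩)]
  · simp only [Nat.card_eq_fintype_card, Fintype.card_prod, ZMod.card, Fintype.card_bool]; ring
  · rintro ⟨i, j, a, b⟩ ⟨i', j', a', b'⟩ e
    simpa [k, and_comm, and_assoc, and_left_comm, eq_comm] using h.gmb_eq.1 (congrArg Subtype.val e)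
  · rintro ⟨g, hg⟩
    obtain ⟨i, j, a, b, rfl⟩ := h.gmb_mem.1 hg
    exact ⟨(i, j, a, b), Subtype.ext (h.gmb_eq.2 ⟨rfl, rfl, k.2 (by simp), k.2 (by simp)⟩)⟩
theorem pgrp : IsPGroup 2 S := IsPGroup.of_card h.card
theorem sq {s : Γ} (hs : s ∈ S) : ∃ i j : ℤ, s * s = x ^ i * y ^ j := by
  obtain ⟨i, j, a, b, rfl⟩ := h.gmb_mem.1 hs
  exact ⟨_, _, by rw [h.gmb_mul, Bool.xor_self, Bool.xor_self, nf00]⟩

theorem gmb_ρ' : gρ x y = nf x y w d (-1) 1 false false := h.gmb_ρ.trans (nf00 ..).symm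
theorem gmb_σ' : gσ n x w = nf x y w d 0 (4 * 2 ^ n) true false := h.gmb_σ.trans (nf10 ..).symm
theorem gmb_conj : gσ n x w * gρ x y * (gσ n x w)⁻¹ = (gρ x y)⁻¹ := by
  rw [h.gmb_ρ', h.gmb_σ', h.gmb_inv, h.gmb_inv, h.gmb_mul, h.gmb_mul, h.gmb_eq]
  exact ⟨rfl, rfl, ⟨0, by simp [sw]⟩, 0, by simp [sw]⟩
theorem gmb_sq : gσ n x w * gσ n x w = gz n x y := by
  rw [h.gz_eq, h.gmb_σ', ← nf00 (w := w) (d := d), h.gmb_mul, h.gmb_eq]
  simp [sw]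
theorem gmb_R {u : Γ} : u ∈ gQ n x y w ↔ ∃ i : ℤ, u = gρ x y ^ i ∨ u = gρ x y ^ i * gσ n x w :=
  mem_cl h.gmb_conj h.gmb_sq
theorem mem_gQ {u : Γ} :
    u ∈ gQ n x y w ↔ ∃ i : ℤ, u = x ^ (-i) * y ^ i ∨ u = x ^ (-i) * y ^ (i + 4 * 2 ^ n) * w :=
  h.gmb_R.trans (exists_congr fun i => by rw [h.gmb_ρ_pow, h.gmb_σ, ← mul_assoc, h.mul, add_zero])

theorem gmb_pm {s : Γ} (hs : s ∈ S) : s * gρ x y * s⁻¹ = gρ x y ∨ s * gρ x y * s⁻¹ = (gρ x y)⁻¹ := by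
  obtain ⟨i, j, a, b, rfl⟩ := h.gmb_mem.1 hs
  rw [h.gmb_ρ', h.gmb_inv, h.gmb_inv, h.gmb_mul, h.gmb_mul, h.gmb_eq, h.gmb_eq]
  cases a <;> cases b <;> simp [sw]

theorem gmb_q : QS n S (gQ n x y w) (gQ n x y⁻¹ (w * d)) (gρ x y) (gσ n x w) (gz n x y) where
  pgrp := h.pgrp
  ord i := by rw [h.gmb_ρ_pow, h.ord, dvd_neg, and_self]
  z_def := rfl
  sq := h.gmb_sq
  conj := h.gmb_conj
  mem_R _ := h.gmb_R
  le u hu := by
    obtain ⟨i, rfl | rfl⟩ := h.mem_gQ.1 hu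
    exacts [h.e_mem _ _, mul_mem (h.e_mem _ _) h.w_mem]
  norm s hs u hu := by
    have m : gρ x y ∈ gQ n x y w := subset_closure (by simp)
    have h1 : s * gρ x y * s⁻¹ ∈ gQ n x y w := by
      rcases h.gmb_pm hs with e | e <;> rw [e]
      exacts [m, inv_mem m]
    have h2 : s * gσ n x w * s⁻¹ ∈ gQ n x y w := by
      obtain ⟨i, j, a, b, rfl⟩ := h.gmb_mem.1 hs
      rw [h.gmb_σ', h.gmb_inv, h.gmb_mul, h.gmb_mul]
      refine h.mem_gQ.2 ⟨j - i - cond a (4 * 2 ^ n) 0, .inr (.trans ?_ (nf10 (d := d) ..))⟩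
      rw [h.gmb_eq]
      cases a <;> cases b <;> simp only [sw, Bool.xor_true, Bool.xor_false, Bool.not_true, Bool.not_false, cond_true,
        cond_false, true_and]
      exacts [⟨⟨0, by ring⟩, 0, by ring⟩, ⟨⟨0, by ring⟩, -1, by ring⟩, ⟨⟨0, by ring⟩, 0, by ring⟩,
        ⟨⟨-1, by ring⟩, 0, by ring⟩]
    obtain ⟨i, rfl | rfl⟩ := h.gmb_R.1 hu
    · exact conj_zpow (a := s) ▸ zpow_mem h1 i
    · rw [← conj_mul, ← conj_zpow]; exact mul_mem (zpow_mem h1 i) h2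
  mem_T g := by
    have e : g ∈ gQ n x y⁻¹ (w * d) ↔ ∃ i, g = nf x y w d (-i) (-i) false false ∨
        g = nf x y w d (-i) (-(i + 4 * 2 ^ n)) true true := by
      simp only [h.flip.mem_gQ, inv_zpow', nf00, nf11]
    rw [e, h.gmb_ρ', h.gmb_σ']
    constructor
    · rintro ⟨i, rfl | rfl⟩ <;> refine ⟨h.gmb_nf .., ?_, ?_⟩ <;> rw [h.gmb_mul, h.gmb_mul, h.gmb_eq] <;>
        simp only [sw, Bool.xor_true, Bool.xor_false, Bool.not_true, Bool.not_false, cond_true, cond_false, true_and]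
      exacts [⟨⟨0, by ring⟩, 0, by ring⟩, ⟨⟨0, by ring⟩, 0, by ring⟩, ⟨⟨0, by ring⟩, 0, by ring⟩,
        ⟨⟨0, by ring⟩, -1, by ring⟩]
    · rintro ⟨hg, h1, h2⟩
      obtain ⟨i, j, a, b, rfl⟩ := h.gmb_mem.1 hg
      rw [h.gmb_mul, h.gmb_mul, h.gmb_eq] at h1 h2
      refine ⟨-i, ?_⟩
      rw [h.gmb_eq, h.gmb_eq]
      have h3 := small h1.2.2.1
      obtain ⟨c, hc⟩ := h2.2.2.1
      cases a <;> cases b <;> simp only [sw, cond_true, cond_false] at h3 hc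
      exacts [.inl ⟨rfl, rfl, by simp, -c, by linarith⟩, by omega, by omega, .inr ⟨rfl, rfl, by simp, -c, by linarith⟩]

theorem gmb_x : x * gρ x y = gρ x y * x ∧ x * gσ n x w * x⁻¹ = (gρ x y)⁻¹ * gσ n x w := by
  refine ⟨((show Commute x y from h.comm).mul_right (Commute.refl x).inv_right).eq, ?_⟩
  have : nf x y w d 1 0 false false * gσ n x w * (nf x y w d 1 0 false false)⁻¹ = (gρ x y)⁻¹ * gσ n x w := by
    rw [h.gmb_ρ', h.gmb_σ', h.gmb_inv, h.gmb_inv, h.gmb_mul, h.gmb_mul, h.gmb_mul, h.gmb_eq]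
    exact ⟨rfl, rfl, ⟨0, by simp [sw]⟩, 0, by simp [sw, add_comm]⟩
  simpa [nf] using this

theorem dq : DQ n S (gQ n x y w) (gQ n x y⁻¹ (w * d)) (gρ x y) (gσ n x w) (gρ x y⁻¹)
    (gσ n x (w * d)) (gz n x y) x :=
  ⟨h.gmb_q, by simpa only [inv_inv, h.gmb_wdd, h.gz_flip] using h.flip.gmb_q, fun _ => h.gmb_pm,
    fun _ => h.flip.gmb_pm, h.x_mem, h.gmb_x.1, h.gmb_x.2, h.flip.gmb_x.1, h.flip.gmb_x.2⟩
theorem exists_M : ∃ M ≤ S, (∀ u, u ∈ M ↔ ∃ i j : ℤ, u = x ^ i * y ^ j ∨ u = x ^ i * y ^ j * (w * d)) ∧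
    w ∉ M ∧ ∀ s ∈ S, ∀ t ∈ S, s * t * s⁻¹ * t⁻¹ ∈ M := by
  refine ⟨{ carrier := {g | ∃ i j a, g = nf x y w d i j a a}
            one_mem' := ⟨0, 0, false, by simp [nf]⟩
            mul_mem' := by rintro _ _ ⟨i, j, a, rfl⟩ ⟨k, l, a', rfl⟩; exact ⟨_, _, _, h.gmb_mul ..⟩
            inv_mem' := by rintro _ ⟨i, j, a, rfl⟩; exact ⟨_, _, _, h.gmb_inv ..⟩ }, ?_, fun u => ?_, ?_, ?_⟩
  · rintro _ ⟨i, j, a, rfl⟩
    exact h.gmb_nf ..
  · exact exists₂_congr fun i j => by rw [Bool.exists_bool, nf00, nf11]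
  · rintro ⟨i, j, a, e⟩
    have := h.gmb_eq.1 ((show nf x y w d 0 0 true false = w by simp [nf]).trans e)
    exact absurd (this.1.trans this.2.1.symm) (by decide)
  · intro s hs t ht
    obtain ⟨i, j, a, b, rfl⟩ := h.gmb_mem.1 hs
    obtain ⟨k, l, a', b', rfl⟩ := h.gmb_mem.1 ht
    rw [h.gmb_inv, h.gmb_inv, h.gmb_mul, h.gmb_mul, h.gmb_mul,
      (by decide : ∀ a a', xor (xor (xor a a') a) a' = false), (by decide : ∀ a a', xor (xor (xor a a') a) a' = false)]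
    exact ⟨_, _, false, rfl⟩

theorem gmb_map {Γ' : Type*} [Group Γ'] {x' y' w' d' : Γ'} (h' : GM0 n x' y' w' d') :
    ∃ f : Γ → Γ', Mul S f ∧ ∀ i j a b, f (nf x y w d i j a b) = nf x' y' w' d' i j a b := by
  let F : ℤ × ℤ × Bool × Bool → Γ := fun p => nf x y w d p.1 p.2.1 p.2.2.1 p.2.2.2
  let F' : ℤ × ℤ × Bool × Bool → Γ' := fun p => nf x' y' w' d' p.1 p.2.1 p.2.2.1 p.2.2.2
  have k : ∀ i j a b, F' (Function.invFun F (nf x y w d i j a b)) = nf x' y' w' d' i j a b := fun i j a b =>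
    h'.gmb_eq.2 (h.gmb_eq.1 (Function.invFun_eq (f := F) ⟨(i, j, a, b), rfl⟩))
  refine ⟨fun u => F' (Function.invFun F u), fun s hs t ht => ?_, k⟩
  obtain ⟨i, j, a, b, rfl⟩ := h.gmb_mem.1 hs
  obtain ⟨i', j', a', b', rfl⟩ := h.gmb_mem.1 ht
  simp only [h.gmb_mul, k, h'.gmb_mul]

theorem exists_equiv {Γ' : Type*} [Group Γ'] {S' : Subgroup Γ'} {x' y' w' d' : Γ'}
    (h' : GM n S' x' y' w' d') : ∃ (f : Γ → Γ') (f' : Γ' → Γ), Mul S f ∧ Mul S' f' ∧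
      (∀ u ∈ S, f u ∈ S' ∧ f' (f u) = u) ∧ (∀ u ∈ S', f' u ∈ S ∧ f (f' u) = u) ∧
      f x = x' ∧ f y = y' ∧ f w = w' ∧ f d = d' := by
  obtain ⟨f, a, e⟩ := h.gmb_map h'.toGM0
  obtain ⟨f', a', e'⟩ := h'.gmb_map h.toGM0
  refine ⟨f, f', a, a', fun u hu => ?_, fun u hu => ?_, by simpa [nf] using e 1 0 false false,
    by simpa [nf] using e 0 1 false false, by simpa [nf] using e 0 0 true false, by simpa [nf] using e 0 0 false true⟩
  · obtain ⟨i, j, a, b, rfl⟩ := h.gmb_mem.1 hu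
    exact ⟨e .. ▸ h'.gmb_nf .., by rw [e, e']⟩
  · obtain ⟨i, j, a, b, rfl⟩ := h'.gmb_mem.1 hu
    exact ⟨e' .. ▸ h.gmb_nf .., by rw [e', e]⟩

end GM

namespace Mul

variable {Γ' : Type*} [Group Γ'] {f : Γ → Γ'} (hf : Mul S f)
include hf

theorem one : f 1 = 1 := by simpa using hf 1 (one_mem _) 1 (one_mem _)
theorem inv {u : Γ} (hu : u ∈ S) : f u⁻¹ = (f u)⁻¹ :=
  eq_inv_of_mul_eq_one_left (by rw [← hf _ (inv_mem hu) _ hu, inv_mul_cancel, hf.one])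
theorem zpow {u : Γ} (hu : u ∈ S) (i : ℤ) : f (u ^ i) = f u ^ i := by
  induction i using Int.induction_on with
  | zero => simpa using hf.one
  | succ i ih => rw [zpow_add_one, zpow_add_one, hf _ (zpow_mem hu _) _ hu, ih]
  | pred i ih => rw [zpow_sub_one, zpow_sub_one, hf _ (zpow_mem hu _) _ (inv_mem hu), ih, hf.inv hu]
theorem conj {s u : Γ} (hs : s ∈ S) (hu : u ∈ S) : f (s * u * s⁻¹) = f s * f u * (f s)⁻¹ := by
  rw [hf _ (mul_mem hs hu) _ (inv_mem hs), hf _ hs _ hu, hf.inv hs]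

end Mul

end H93.QW
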