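import Cfsg.Agent.Lib.QW.Rad
import Cfsg.Agent.Lib.QW.GMb

set_option autoImplicit false

namespace H93.QW

open Subgroup

variable {Γ : Type*} [Group Γ] [Finite Γ] {n : ℕ} {S : Subgroup Γ}

omit [Finite Γ] in
theorem gex_cj {g a b : Γ} {K : Subgroup Γ} (h1 : g * a * g⁻¹ ∈ K) (h2 : g * b * g⁻¹ ∈ K) :
    Cj g (closure {a, b}) K := fun _ hu =>
  ((closure_le (K.comap (MulAut.conj g).toMonoidHom)).2 (by
    rintro _ (rfl | rfl)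
    exacts [h1, h2]) hu :)

omit [Finite Γ] in
theorem gex_pow {g h : Γ} {P : Subgroup Γ} (hg : Cj g P P)
    (e : ∀ u ∈ P, h * u * h⁻¹ = g * u * g⁻¹) (m : ℕ) :
    ∀ u ∈ P, h ^ m * u * (h ^ m)⁻¹ = g ^ m * u * (g ^ m)⁻¹ := by
  induction m with
  | zero => simp
  | succ m ih =>
    intro u hu
    calc _ = h * (h ^ m * u * (h ^ m)⁻¹) * h⁻¹ := by rw [pow_succ']; group
      _ = _ := by rw [ih u hu, e _ (hg.pow m u hu), pow_succ']; group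

theorem gex_zero {R T : Subgroup Γ} {ρ σ η τ z x : Γ} (h : DQ n S R T ρ σ η τ z x)
    (hz : Sat (cS ⊤ z) S) (hsc : SC (cS ⊤ z) S R) {g : Γ} (hg : g ∈ cS ⊤ z) (ho : Odd (orderOf g))
    (hn : Cj g (Q8 n ρ σ 0) (Q8 n ρ σ 0)) (h1 : ¬ ∀ u ∈ Q8 n ρ σ 0, g * u = u * g) :
    GR n ρ σ η τ := by
  have q := h.q
  have hI : ρ ^ (2 * 2 ^ n : ℤ) ∈ Q8 n ρ σ 0 := subset_closure (Or.inl rfl)
  have hJ : ρ ^ (0 : ℤ) * σ ∈ Q8 n ρ σ 0 := subset_closure (Or.inr rfl)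
  have hc : ρ ^ (0 : ℤ) * σ * ρ ^ (2 * 2 ^ n : ℤ) * (ρ ^ (0 : ℤ) * σ)⁻¹ = (ρ ^ (2 * 2 ^ n : ℤ))⁻¹ := by
    rw [zpow_zero, one_mul, q.σ_mul, mul_inv_cancel_right, zpow_neg]
  obtain ⟨f, -, e, hf⟩ := hz.extP _ ((q.Q8_le 0).trans q.le) g hg hn fun k hk c => by
    have kz : k * z * k⁻¹ = z := by rw [mem_cS_top.1 hk, mul_inv_cancel_right]
    obtain ⟨l, l1, l2⟩ := q.q8_of (hsc k hk _ (q.Q8_le 0 hI) (c _ hI))
      (hsc k hk _ (q.Q8_le 0 hJ) (c _ hJ)) (by rw [conj_mul, q.ii, kz]) (by rw [conj_mul, q.sq', kz])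
      (by rw [conj_mul, conj_inv, conj_mul, hc, conj_inv])
    exact ⟨x ^ l, zpow_mem h.x_mem l, (gex_cj l1 l2).mul (sub_self l ▸ h.cj_Q8 l l)⟩
  have hT : Cj f T T := fun t ht => by
    have c : ∀ u ∈ Q8 n ρ σ 0, t * u = u * t := fun u hu => q.T_comm ht (q.Q8_le 0 hu)
    refine h.cent_Q8 (k := 0) (hf t (q.T_le ht) c) fun u hu => ?_
    have := e _ (hn.inv u hu)
    rw [show g * (g⁻¹ * u * g⁻¹⁻¹) * g⁻¹ = u by group] at this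
    rw [← this, conj_mul, conj_mul, c _ (hn.inv u hu)]
  obtain ⟨a, ha⟩ := exists_odd_pow f
  have c1 := h.q'.odd_cent_R ha (hT.pow _)
  have e1 := gex_pow hn e (4 ^ a)
  have key : ∀ r ∈ Q8 n ρ σ 0, ∀ t ∈ T, r⁻¹ * f ^ 4 ^ a * t = t * (r⁻¹ * f ^ 4 ^ a) :=
    fun r hr t ht => by
      rw [mul_assoc, c1 t ht, ← mul_assoc, ← q.T_comm ht (inv_mem (q.Q8_le 0 hr)), mul_assoc]
  rcases q8_odd q.ii (q.sq' 0) q.z_ne hc ha (fun u hu => e1 u hu ▸ hn.pow _ u hu) with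
    ⟨k1, k2⟩ | ⟨r, hr, ⟨k1, k2⟩ | ⟨k1, k2⟩⟩
  · refine (h1 fun u hu => odd_comm ho (2 * a) ?_).elim
    have : u ∈ cS ⊤ (f ^ 4 ^ a) := (closure_le (cS ⊤ (f ^ 4 ^ a))).2 (by
      rintro _ (rfl | rfl)
      exacts [mem_cS_top.2 k1.symm, mem_cS_top.2 k2.symm]) hu
    rw [pow_mul, show 2 ^ 2 = 4 from rfl, ← mul_inv_eq_iff_eq_mul, ← e1 u hu, ← mem_cS_top.1 this,
      mul_inv_cancel_right]
  · simp only [zpow_zero, one_mul] at k1 k2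
    refine ⟨r⁻¹ * f ^ 4 ^ a, ?_, ?_, key r hr _ h.q'.ρ_mem, key r hr _ h.q'.σ_mem⟩
    · calc _ = r⁻¹ * (f ^ 4 ^ a * ρ ^ (2 * 2 ^ n : ℤ) * (f ^ 4 ^ a)⁻¹) * r := by
            simp only [mul_inv_rev, inv_inv, mul_assoc]
        _ = _ := by rw [k1]; simp [mul_assoc]
    · calc _ = r⁻¹ * (f ^ 4 ^ a * σ * (f ^ 4 ^ a)⁻¹) * r := by
            simp only [mul_inv_rev, inv_inv, mul_assoc]
        _ = _ := by rw [k2]; simp [mul_assoc]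
  · simp only [zpow_zero, one_mul] at k1 k2 hc
    have k3 := key r hr _ h.q'.ρ_mem
    have k4 := key r hr _ h.q'.σ_mem
    have k5 : r⁻¹ * f ^ 4 ^ a * ρ ^ (2 * 2 ^ n : ℤ) * (r⁻¹ * f ^ 4 ^ a)⁻¹ = ρ ^ (2 * 2 ^ n : ℤ) * σ := by
      calc _ = r⁻¹ * (f ^ 4 ^ a * ρ ^ (2 * 2 ^ n : ℤ) * (f ^ 4 ^ a)⁻¹) * r := by
            simp only [mul_inv_rev, inv_inv, mul_assoc]
        _ = _ := by rw [k1]; simp [mul_assoc]
    have k6 : r⁻¹ * f ^ 4 ^ a * σ * (r⁻¹ * f ^ 4 ^ a)⁻¹ = ρ ^ (2 * 2 ^ n : ℤ) := by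
      calc _ = r⁻¹ * (f ^ 4 ^ a * σ * (f ^ 4 ^ a)⁻¹) * r := by
            simp only [mul_inv_rev, inv_inv, mul_assoc]
        _ = _ := by rw [k2]; simp [mul_assoc]
    unfold GR
    generalize r⁻¹ * f ^ 4 ^ a = F, ρ ^ (2 * 2 ^ n : ℤ) = I at k3 k4 k5 k6 hc ⊢
    have k7 : F * (I * σ) * F⁻¹ = σ := by
      rw [← conj_mul, k5, k6, mul_assoc, mul_inv_eq_iff_eq_mul.1 hc, mul_inv_cancel_left]
    refine ⟨F⁻¹, by rw [← k6]; group, ?_, (Commute.inv_left k3).eq, (Commute.inv_left k4).eq⟩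
    nth_rewrite 1 [← k7]
    group

theorem DQ.gr_of {R T : Subgroup Γ} {ρ σ η τ z x : Γ} (h : DQ n S R T ρ σ η τ z x)
    (hz : Sat (cS ⊤ z) S) (hsc : SC (cS ⊤ z) S R) {g : Γ} (hg : g ∈ cS ⊤ z) (ho : Odd (orderOf g))
    {k : ℤ} (hn : Cj g (Q8 n ρ σ k) (Q8 n ρ σ k)) (h1 : ¬ ∀ u ∈ Q8 n ρ σ k, g * u = u * g) :
    GR n ρ σ η τ := by
  have c1 : Cj (x ^ k) (Q8 n ρ σ k) (Q8 n ρ σ 0) := sub_self k ▸ h.cj_Q8 k k
  have c2 : Cj (x ^ k)⁻¹ (Q8 n ρ σ 0) (Q8 n ρ σ k) := by simpa using h.cj_Q8 0 (-k)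
  have xz := mem_cS_top.2 (h.q.zc (zpow_mem h.x_mem k))
  refine gex_zero h hz hsc (g := x ^ k * g * (x ^ k)⁻¹) (mul_mem (mul_mem xz hg) (inv_mem xz))
    (by rwa [show orderOf (x ^ k * g * (x ^ k)⁻¹) = orderOf g from (MulAut.conj _).orderOf_eq g])
    (by rw [mul_assoc]; exact (c2.mul hn).mul c1) fun c => h1 fun u hu => ?_
  have := c _ (c1 u hu)
  rwa [conj_mul, conj_mul, mul_left_inj, mul_right_inj] at this

theorem GM.gr {x y w d : Γ} (h : GM n S x y w d) (hz : Sat (cS ⊤ (gz n x y)) S)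
    (hsc : SC (cS ⊤ (gz n x y)) S (gQ n x y w)) (ht : Tr S)
    (hW : ∀ u, u = x ^ (4 * 2 ^ n : ℤ) ∨ u = y ^ (4 * 2 ^ n : ℤ) → ∃ b, b * u * b⁻¹ = gz n x y ∧
      ∀ i j : ℤ, ∃ k l : ℤ, b * (x ^ i * y ^ j) * b⁻¹ = x ^ k * y ^ l) :
    GR n (gρ x y) (gσ n x w) (gρ x y⁻¹) (gσ n x (w * d)) := by
  by_contra hn
  obtain ⟨M, -, mM, wM, cM⟩ := h.exists_M
  have D := h.dq
  have TM : gQ n x y⁻¹ (w * d) ≤ M := D.q'.le_iff.2
    ⟨(mM _).2 ⟨-1, -1, Or.inl (by rw [gρ, zpow_neg_one, zpow_neg_one, ← mul_inv_rev, h.comm, mul_inv_rev])⟩,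
      (mM _).2 ⟨0, -(4 * 2 ^ n), Or.inr (by simpa [gσ] using h.wd_mul (4 * 2 ^ n) 0)⟩⟩
  have F := hz.alp (fun P g => ∀ u ∈ P, u⁻¹ * (g * u * g⁻¹) ∈ M) (fun P Q g l c u hu => c u (l hu))
    (fun P Q g k _ _ c _ c1 c2 u hu => by
      have := mul_mem (c1 u hu) (c2 _ (c u hu))
      rwa [show u⁻¹ * (g * u * g⁻¹) * ((g * u * g⁻¹)⁻¹ * (k * (g * u * g⁻¹) * k⁻¹)) =
        u⁻¹ * (k * g * u * (k * g)⁻¹) by group] at this)
    (fun P g k e c u hu => e u hu ▸ c u hu)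
    (fun s hs u hu => by simpa [mul_assoc] using cM _ (inv_mem hu) s hs)
    (fun P hP g hg c ho u hu => by
      obtain ⟨c1, c2, c3, -, c4 | c4⟩ := D.rad hsc hP hg c ho
      · rw [c4 u hu]; simp
      obtain ⟨r, hr, t, ht, rfl⟩ := c4 u hu
      have : g * r = r * g := by
        rcases c3 with c3 | ⟨k, c3⟩
        · exact c3 r hr
        · by_contra e
          exact hn (D.gr_of hz hsc hg ho (c3 ▸ c1) fun c5 => e (c5 r (c3 ▸ hr)))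
      rw [← mul_assoc g, this, show (r * t)⁻¹ * (r * g * t * g⁻¹) = t⁻¹ * (g * t * g⁻¹) by group]
      exact TM (mul_mem (inv_mem ht.2) (c2 t ht).2))
  obtain ⟨g, c, hg⟩ := ht M cM w h.w_mem h.ww wM
  have wS : w ∈ cS S w := ⟨h.w_mem, rfl⟩
  have e0 : x ^ (2 * 2 ^ n : ℤ) * y ^ (2 * 2 ^ n : ℤ) * (x ^ (2 * 2 ^ n : ℤ) * y ^ (2 * 2 ^ n : ℤ)) =
      gz n x y := by rw [h.mul, h.gz_eq]; congr 2 <;> ring
  obtain ⟨i, j, e⟩ := h.sq (c _ ⟨h.e_mem (2 * 2 ^ n) (2 * 2 ^ n), (h.w_mul _ _).symm⟩)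
  rw [conj_mul, e0] at e
  have cw : g * w * g⁻¹ * (g * gz n x y * g⁻¹) = g * gz n x y * g⁻¹ * (g * w * g⁻¹) := by
    rw [conj_mul, conj_mul, D.q.zc h.w_mem]
  have nd : ¬ (8 * 2 ^ n : ℤ) ∣ 4 * 2 ^ n := QS.not_dvd (by positivity) le_rfl
  have key : ∀ a b : ℤ, g * gz n x y * g⁻¹ = x ^ a * y ^ b →
      (a = 4 * 2 ^ n ∧ b = 0 ∨ a = 0 ∧ b = 4 * 2 ^ n) → False := fun a b e hab => by
    obtain ⟨β, e1, hb⟩ := hW (x ^ a * y ^ b) (by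
      rcases hab with ⟨rfl, rfl⟩ | ⟨rfl, rfl⟩ <;> simp)
    rw [e] at cw
    obtain ⟨k, l, e2 | e2 | e2 | e2⟩ := (h.mem _).1 (c w wS)
    · obtain ⟨k', l', e3⟩ := hb k l
      have e4 : β * g * w * (β * g)⁻¹ = x ^ k' * y ^ l' := by rw [← e3, ← e2]; group
      have := F (zpowers w) (zpowers_le.2 h.w_mem) (β * g) (mem_cS_top.2 (by
        rw [← mul_inv_eq_iff_eq_mul]
        nth_rewrite 2 [← e1]
        rw [← e]; group)) (by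
          rintro _ ⟨m, rfl⟩
          simp only
          rw [← conj_zpow, e4]
          exact zpow_mem (h.e_mem ..) m) w (mem_zpowers w)
      rw [e4, mul_mem_cancel_right ((mM _).2 ⟨k', l', Or.inl rfl⟩), inv_mem_iff] at this
      exact wM this
    · rw [e2, mul_assoc, h.w_mul, ← mul_assoc, ← mul_assoc (x ^ a * y ^ b), mul_left_inj, h.mul,
        h.mul, h.inj] at cw
      rcases hab with ⟨rfl, rfl⟩ | ⟨rfl, rfl⟩
      · exact nd (by simpa using cw.2)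
      · exact nd (by simpa using cw.1)
    · exact hg ((mM _).2 ⟨l, k, Or.inr (by rw [e2, ← mul_assoc, h.w_mul, mul_assoc])⟩)
    · rw [e2, mul_assoc, h.wd_mul, ← mul_assoc, ← mul_assoc (x ^ a * y ^ b), mul_left_inj, h.mul,
        h.mul, h.inj] at cw
      rcases hab with ⟨rfl, rfl⟩ | ⟨rfl, rfl⟩
      · exact nd (by simpa using cw.2)
      · exact nd (by simpa using cw.1)
  rcases h.invB (i := i) (j := j) (by rw [← e, conj_mul, D.q.zz]; simp) with k | k | k | k <;>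
    rw [← e] at k
  · exact D.q.z_ne (by simpa using k)
  · have := F _ (cS_le S w) g (mem_cS_top.2 (mul_inv_eq_iff_eq_mul.1 k)) c w wS
    rw [h.w_inv] at this
    exact hg this
  · exact key (4 * 2 ^ n) 0 (by simpa using k) (Or.inl ⟨rfl, rfl⟩)
  · exact key 0 (4 * 2 ^ n) (by simpa using k) (Or.inr ⟨rfl, rfl⟩)

theorem GM.nf {x y w d b : Γ} (h : GM n S x y w d) (hz : Sat (cS ⊤ (gz n x y)) S)
    (hsc : SC (cS ⊤ (gz n x y)) S (gQ n x y w)) (ht : Tr S) (h1 : b * x * b⁻¹ = y⁻¹)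
    (h2 : b * y * b⁻¹ = x * y⁻¹) (h3 : b * d = d * b) : NF n S x y w d := by
  have hb : ∀ i j : ℤ, b * (x ^ i * y ^ j) * b⁻¹ = x ^ j * y ^ (-i + -j) := fun i j => by
    have := h.mul 0 (-i) j (-j)
    have e := h.zpow 1 (-1) j
    rw [zpow_one, zpow_neg_one, one_mul, neg_one_mul] at e
    rw [zpow_zero, one_mul, zero_add] at this
    rw [← conj_mul, ← conj_zpow, ← conj_zpow, h1, h2, e, ← this, inv_zpow']
  have yy : y⁻¹ ^ (4 * 2 ^ n : ℤ) = y ^ (4 * 2 ^ n : ℤ) := by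
    simpa using (h.inj (i := 0) (j := -(4 * 2 ^ n)) (k := 0) (l := 4 * 2 ^ n)).2
      ⟨by simp, -1, by ring⟩
  have e1 : b * y ^ (4 * 2 ^ n : ℤ) * b⁻¹ = gz n x y := by
    have := hb 0 (4 * 2 ^ n)
    rw [zpow_zero, one_mul] at this
    rw [this, h.gz_eq, neg_zero, zero_add, ← inv_zpow', yy]
  have hW : ∀ u, u = x ^ (4 * 2 ^ n : ℤ) ∨ u = y ^ (4 * 2 ^ n : ℤ) → ∃ b, b * u * b⁻¹ = gz n x y ∧
      ∀ i j : ℤ, ∃ k l : ℤ, b * (x ^ i * y ^ j) * b⁻¹ = x ^ k * y ^ l := by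
    rintro _ (rfl | rfl)
    · refine ⟨b * b, ?_, fun i j => ⟨_, _, Eq.trans ?_ (hb j (-i + -j))⟩⟩
      · rw [← e1, ← yy, ← h1, conj_zpow]; simp [mul_assoc]
      · rw [← hb]; simp [mul_assoc]
    · exact ⟨b, e1, fun i j => ⟨_, _, hb i j⟩⟩
  refine ⟨h, ⟨b, h1, h2, h3⟩, h.gr hz hsc ht hW, ?_, hsc⟩
  have := h.flip.gr (h.gz_flip ▸ hz) (h.gz_flip ▸ h.dq.scT hz hsc) ht fun u hu => by
    obtain ⟨β, e, k⟩ := hW u (yy ▸ hu)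
    refine ⟨β, h.gz_flip ▸ e, fun i j => ?_⟩
    obtain ⟨k, l, e⟩ := k i (-j)
    exact ⟨k, -l, by rw [inv_zpow', inv_zpow', neg_neg, e]⟩
  rwa [inv_inv, mul_assoc, h.dd, mul_one] at this

end H93.QW
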