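import Cfsg.Agent.Lib.QW.Odd

/-! Local facts on the conjugates of `z`. -/

set_option autoImplicit false
set_option linter.unusedSectionVars false
set_option linter.unusedVariables false

namespace H93.QW

open Subgroup

variable {Γ : Type*} [Group Γ] [Finite Γ]

namespace Loc

theorem cm_cj {g x : Γ} : g * x = x * g ↔ g * x * g⁻¹ = x := mul_inv_eq_iff_eq_mul.symm

theorem half {M j : ℤ} (h : 8 * M ∣ j + j) : 8 * M ∣ j ∨ 8 * M ∣ j - 4 * M := by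
  obtain ⟨c, hc⟩ := h
  rcases Int.even_or_odd' c with ⟨d, rfl | rfl⟩
  · exact Or.inl ⟨d, by linarith⟩
  · exact Or.inr ⟨d, by linarith⟩

variable {n : ℕ} {S R T : Subgroup Γ} {ρ σ z : Γ} (h : QS n S R T ρ σ z)
include h

theorem fixρ {u : Γ} (hu : u ∈ S) (h2 : u * u = 1) (hT : u ∉ T) (c : u * ρ = ρ * u) :
    u * σ * u⁻¹ = σ * z := by
  obtain ⟨a, j, -, -, e⟩ := h.act hu
  have e1 : σ = ρ ^ (j + j) * σ := by
    calc σ = u * (u * σ * u⁻¹) * u⁻¹ := by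
          rw [show u * (u * σ * u⁻¹) * u⁻¹ = u * u * σ * (u * u)⁻¹ by group, h2]; simp
      _ = _ := by rw [e, ← conj_mul, ← conj_zpow, cm_cj.1 c, e, zpow_add, mul_assoc]
  rcases half ((h.ord _).1 (right_eq_mul.1 e1)) with d | d
  · rw [(h.ord _).2 d, one_mul] at e
    exact absurd ((h.mem_T u).2 ⟨hu, c, cm_cj.2 e⟩) hT
  · rw [e, h.inj.2 d, ← h.z_def, h.zc (h.le h.σ_mem)]

theorem sqρ {u : Γ} {a : ℤ} (e : u * ρ * u⁻¹ = ρ ^ a) : u * u * ρ * (u * u)⁻¹ = ρ ^ (a * a) := by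
  rw [show u * u * ρ * (u * u)⁻¹ = u * (u * ρ * u⁻¹) * u⁻¹ by group, e, ← conj_zpow, e, ← zpow_mul]

theorem inT {y : Γ} (hy : y ∈ R ∨ y ∈ T) (h2 : y * y = 1) (h1 : y ≠ 1) : y ∈ T :=
  hy.elim (fun hy => ((h.invol hy h2).resolve_left h1).symm ▸ h.z_mem_T) id

theorem inS {y : Γ} (hy : y ∈ R ∨ y ∈ T) : y ∈ S := hy.elim (fun hy => h.le hy) fun hy => h.T_le hy

theorem cjRT {y s : Γ} (hy : y ∈ R ∨ y ∈ T) (hs : s ∈ S) : y * (s * y⁻¹ * s⁻¹) ∈ R ∨ y * (s * y⁻¹ * s⁻¹) ∈ T :=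
  hy.imp (fun hy => mul_mem hy (h.norm s hs _ (inv_mem hy))) fun hy => mul_mem hy (h.T_norm hs _ (inv_mem hy))

/-- an element moving `u` to `u z` normalizes the centralizer of `u` -/
theorem nrm {r u : Γ} (hr : r ∈ S) (e : r * u * r⁻¹ = u * z) : Cj r (cS S u) (cS S u) := fun c hc => by
  have m := Cj.of_mem hr c hc.1
  have := ((Cj.of_mem hr).mono (cS_le S u) le_rfl).cS c hc
  refine ⟨m, ?_⟩
  have e2 := this.2
  rw [e, ← mul_assoc, mul_assoc u, ← h.zc m, ← mul_assoc] at e2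
  exact mul_right_cancel e2

end Loc

open Loc

namespace Hyp

variable {n : ℕ} {S R T : Subgroup Γ} {ρ σ z : Γ} (h : Hyp n S R T ρ σ z)
include h

theorem l1 {y g : Γ} (hy : y ∈ T) (h2 : y * y = 1) (h1 : y ≠ 1) (hg : g * y * g⁻¹ ∈ T)
    (hz : g * z * g⁻¹ ∈ S) : g * z * g⁻¹ = z := by
  obtain ⟨p, -, k, -, e, hp, hk⟩ := h.sat.ext2 (h.T_le hy) (mem_top g) (h.T_le hg)
  have le : ∀ {y}, y ∈ T → R ≤ cS S y := fun hy r hr => ⟨h.le hr, (h.T_comm hy hr).symm⟩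
  have pR := h.wc p (hp.mono (le hy) le_rfl)
  have kR := h.wc k (hk.mono (le hg) le_rfl)
  have c : ∀ r ∈ R, p * y * p⁻¹ * r = r * (p * y * p⁻¹) := fun r hr => by
    have := h.T_comm hy (pR.inv r hr)
    calc p * y * p⁻¹ * r = p * (y * (p⁻¹ * r * p⁻¹⁻¹)) * p⁻¹ := by group
      _ = _ := by rw [this]; group
  have yT : p * y * p⁻¹ ∈ T := (h.mem_T _).2 ⟨hp y ⟨h.T_le hy, rfl⟩, c _ h.ρ_mem, c _ h.σ_mem⟩
  have e1 : k * g * p⁻¹ * z * (k * g * p⁻¹)⁻¹ = k * (g * z * g⁻¹) * k⁻¹ := by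
    conv_lhs => rw [← cm_cj.1 (h.zc' pR)]
    group
  have m := h.sc _ yT (by rw [conj_mul, h2]; simp) (fun e => h1 (conj_eq_one_iff.1 e)) (k * g * p⁻¹)
    (mem_cS_top.2 (cm_cj.2 (by conv_rhs => rw [e]
                               group))) z h.z_mem (e1 ▸ hk _ ⟨hz, by
      rw [conj_mul, conj_mul, h.T_comm hy h.z_mem]⟩)
  rw [e1] at m
  rcases h.invol m (by rw [conj_mul, conj_mul, h.zz]; simp) with e | e
  · exact absurd (conj_eq_one_iff.1 (conj_eq_one_iff.1 e)) h.z_ne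
  · exact conj_injective (e.trans (cm_cj.1 (h.zc' kR)).symm)

theorem zT {g : Γ} (hg : g * z * g⁻¹ ∈ T) : g * z * g⁻¹ = z := h.l1 h.z_mem_T h.zz h.z_ne hg (h.T_le hg)

theorem f2 {u : Γ} (hu : u ∈ S) (h2 : u * u = 1) (hT : u ∉ T) : ∃ r ∈ R, r * u * r⁻¹ = u * z := by
  suffices ∃ r ∈ R, u * r * u⁻¹ = r * z by
    obtain ⟨r, hr, e⟩ := this
    exact ⟨r⁻¹, inv_mem hr, by
      rw [h.zc hu, show r⁻¹ * u * r⁻¹⁻¹ = r⁻¹ * (u * r * u⁻¹) * u by group, e, inv_mul_cancel_left]⟩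
  obtain ⟨a, j, -, e, -⟩ := h.act hu
  have e1 := sqρ h.toQS e
  rw [h2, one_mul, inv_one, mul_one, eq_comm, ← zpow_one ρ, ← zpow_mul, one_mul, h.inj] at e1
  have key : ∀ k : ℤ, (8 * 2 ^ n : ℤ) ∣ a * k - (k + 4 * 2 ^ n) → ∃ r ∈ R, u * r * u⁻¹ = r * z :=
    fun k d => ⟨ρ ^ k, zpow_mem h.ρ_mem k, by
      rw [← conj_zpow, e, h.z_def, ← zpow_mul, ← zpow_add, h.inj.2 d]⟩
  rcases sq_cases e1 with d | ⟨c, d⟩ | ⟨c, d⟩ | ⟨c, d⟩
  · exact ⟨σ, h.σ_mem, fixρ h.toQS hu h2 hT (cm_cj.2 (by rw [e, h.inj.2 d, zpow_one]))⟩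
  · exact key (2 * 2 ^ n) ⟨c * (2 * 2 ^ n) - 1, by linear_combination (2 * 2 ^ n) * d⟩
  · exact key 1 ⟨c, by linear_combination d⟩
  · exact key (2 * 2 ^ n) ⟨c * (2 * 2 ^ n) - 1 + 2 ^ n, by linear_combination (2 * 2 ^ n) * d⟩

theorem exists_tri : ∃ z' a, Tri S z z' a := by
  obtain ⟨g0, ⟨m0, n0⟩, mx⟩ := Set.exists_max_image {g | g * z * g⁻¹ ∈ S ∧ g * z * g⁻¹ ≠ z}
    (fun g => Nat.card (cS S (g * z * g⁻¹))) (Set.toFinite _) h.nz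
  have zS := h.le h.z_mem
  have nT : ∀ {g}, g * z * g⁻¹ ≠ z → g * z * g⁻¹ ∉ T := fun e m => e (h.zT m)
  have sq : ∀ g, g * z * g⁻¹ * (g * z * g⁻¹) = 1 := fun g => by rw [conj_mul, h.zz]; simp
  obtain ⟨r, hr, er⟩ := h.f2 m0 (sq g0) (nT n0)
  have e0 : g0⁻¹ * (g0 * z * g0⁻¹) * g0⁻¹⁻¹ = z := by group
  obtain ⟨g, -, eg, cg⟩ := h.sat.extZ m0 (mem_top g0⁻¹) (e0.symm ▸ zS) fun s hs => e0.symm ▸ h.zc hs
  rw [e0] at eg
  have s2 := sq g0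
  generalize g0 * z * g0⁻¹ = z' at *
  have zC : z ∈ cS S z' := ⟨zS, (h.zc m0).symm⟩
  have into : ∀ g, Cj g (cS S z') S → Cj g (cS S z') (cS S (g * z * g⁻¹)) := fun g c u hu =>
    ⟨c u hu, by rw [conj_mul, conj_mul, h.zc hu.1]⟩
  have max : ∀ g, Cj g (cS S z') S → g * z * g⁻¹ ≠ z → Cj g⁻¹ (cS S (g * z * g⁻¹)) (cS S z') :=
    fun g c ne => (into g c).inv_of_card (mx g ⟨c z zC, ne⟩)
  have n1 : g * z * g⁻¹ ≠ z := fun e => n0 (conj_injective (eg.trans e.symm))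
  obtain ⟨r', hr', er'⟩ := h.f2 (cg z zC) (sq g) (nT n1)
  have nm : Cj (r * (g⁻¹ * (r' * g))) (cS S z') (cS S z') :=
    (((into g cg).mul (nrm h.toQS (h.le hr') er')).mul (max g cg n1)).mul (nrm h.toQS (h.le hr) er)
  have rz := cm_cj.1 (h.zc (h.le hr))
  have rz' := cm_cj.1 (h.zc (h.le hr'))
  have gi : g⁻¹ * z * g = z' := by rw [← eg]; group
  have a1 : r * (g⁻¹ * (r' * g)) * z * (r * (g⁻¹ * (r' * g)))⁻¹ = z' := by
    calc _ = r * (g⁻¹ * (r' * (g * z * g⁻¹) * r'⁻¹) * g) * r⁻¹ := by group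
      _ = r * z * r⁻¹ * (r * (g⁻¹ * z * g) * r⁻¹) := by rw [er']; group
      _ = _ := by rw [gi, rz, er, h.zc m0, ← mul_assoc, h.zz, one_mul]
  have a2 : r * (g⁻¹ * (r' * g)) * z' * (r * (g⁻¹ * (r' * g)))⁻¹ = z * z' := by
    calc _ = r * (g⁻¹ * (r' * (g * z' * g⁻¹) * r'⁻¹) * g) * r⁻¹ := by group
      _ = _ := by rw [eg, rz', gi, er, h.zc m0]
  generalize r * (g⁻¹ * (r' * g)) = a at *
  have a3 : a * (z * z') * a⁻¹ = z := by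
    rw [← conj_mul, a1, a2, ← mul_assoc, h.zc m0, mul_assoc, s2, mul_one]
  have cube : ∀ x, a ^ 3 * x * (a ^ 3)⁻¹ = a * (a * (a * x * a⁻¹) * a⁻¹) * a⁻¹ := fun x => by
    rw [pow_three]; simp only [mul_inv_rev, mul_assoc]
  obtain ⟨k, hk⟩ := exists_odd_pow a
  have pw : ∀ x, a ^ 3 * x * (a ^ 3)⁻¹ = x → a ^ 4 ^ k * x * (a ^ 4 ^ k)⁻¹ = a * x * a⁻¹ := fun x e => by
    obtain ⟨t, ht⟩ : ∃ t, 4 ^ k = 1 + 3 * t := ⟨4 ^ k / 3, by
      have : 4 ^ k % 3 = 1 := by rw [Nat.pow_mod]; simp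
      omega⟩
    have c : (a ^ 3) ^ t * x * ((a ^ 3) ^ t)⁻¹ = x :=
      cm_cj.1 ((show Commute (a ^ 3) x from cm_cj.2 e).pow_left t).eq
    rw [ht, pow_add, pow_one, pow_mul]
    conv_rhs => rw [← c]
    group
  exact ⟨z', a ^ 4 ^ k, m0, n0, by rw [pw z (by rw [cube, a1, a2, a3]), a1],
    by rw [pw z' (by rw [cube, a2, a3, a1]), a2], hk, nm.pow _, (nm.pow _).inv, max⟩

variable {z' a : Γ} (t : Tri S z z' a)
include t

theorem z'z' : z' * z' = 1 := by rw [← t.az, conj_mul, h.zz]; simp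
theorem z'_notMem : z' ∉ T := fun m => t.ne (t.az ▸ h.zT (t.az.symm ▸ m))
theorem azz' : a * (z * z') * a⁻¹ = z := by
  rw [← conj_mul, t.az, t.az', ← mul_assoc, h.zc t.mem, mul_assoc, h.z'z' t, mul_one]

/-- `b` is `a` or `a⁻¹`. -/
theorem f4 {b u : Γ} (hb : b = a ∨ b = a⁻¹) (hu : u ∈ R ∨ u ∈ T) (hc : u * z' = z' * u)
    (h1 : b * u * b⁻¹ ∈ R ∨ b * u * b⁻¹ ∈ T) : u = 1 := by
  by_contra u1
  obtain ⟨k, y1, y2⟩ := exists_invol h.pgrp (inS h.toQS hu) u1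
  have m1 := inT h.toQS (hu.imp (pow_mem · (2 ^ k)) (pow_mem · (2 ^ k))) y2 y1
  have m2 : b * u ^ 2 ^ k * b⁻¹ ∈ T := inT h.toQS (by
    rw [← conj_pow]; exact h1.imp (pow_mem · (2 ^ k)) (pow_mem · (2 ^ k))) (by rw [conj_mul, y2]; simp)
    fun e => y1 (conj_eq_one_iff.1 e)
  have l := h.l1 m1 y2 y1 m2
  rcases hb with rfl | rfl
  · rw [t.az] at l
    exact t.ne (l t.mem)
  · have e : a⁻¹ * z * a⁻¹⁻¹ = z * z' := by
      conv_lhs => rw [← h.azz' t]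
      group
    rw [e] at l
    have := mul_eq_left.1 (l (mul_mem (h.le h.z_mem) t.mem))
    exact h.z'_notMem t (this ▸ one_mem _)

theorem f4c {b u v : Γ} (hb : b = a ∨ b = a⁻¹) (hu : u ∈ R ∨ u ∈ T) (hc : u * z' = z' * u)
    (hv : v ∈ R ∨ v ∈ T) (hc' : v * z' = z' * v) :
    b * u * b⁻¹ * v = v * (b * u * b⁻¹) := by
  have n : Cj b (cS S z') (cS S z') := by rcases hb with rfl | rfl; exacts [t.nm, t.nm']
  have uC : u ∈ cS S z' := ⟨inS h.toQS hu, hc⟩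
  have vC := n.inv v ⟨inS h.toQS hv, hc'⟩
  have e : b * (u * (b⁻¹ * v * b⁻¹⁻¹ * u⁻¹ * (b⁻¹ * v * b⁻¹⁻¹)⁻¹)) * b⁻¹ =
      (v * (b * u * b⁻¹ * v⁻¹ * (b * u * b⁻¹)⁻¹))⁻¹ := by group
  have := h.f4 t hb (cjRT h.toQS hu vC.1) (mul_mem uC (mul_mem (mul_mem vC (inv_mem uC)) (inv_mem vC))).2
    (by rw [e]; exact (cjRT h.toQS hv (n u uC).1).imp inv_mem inv_mem)
  rw [this, mul_one, mul_inv_cancel, eq_comm, inv_eq_one] at e
  calc b * u * b⁻¹ * v = v * (b * u * b⁻¹ * v⁻¹ * (b * u * b⁻¹)⁻¹) * (b * u * b⁻¹ * v) := by rw [e, one_mul]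
    _ = _ := by group

theorem dich : (∀ r ∈ R, r * z' = z' * r → r = 1 ∨ r = z) ∨
    (z' * ρ = ρ * z' ∧ z' * σ * z'⁻¹ = σ * z) := by
  refine (em _).imp id fun hn => ?_
  push Not at hn
  obtain ⟨r, hr, rc, r1, rz⟩ := hn
  suffices z' * ρ = ρ * z' from ⟨this, fixρ h.toQS t.mem (h.z'z' t) (h.z'_notMem t) this⟩
  obtain ⟨k, y1, y2⟩ := exists_invol h.pgrp (h.le (mul_mem hr hr)) fun e => (h.invol hr e).elim r1 rz
  have xx := (h.invol (pow_mem (mul_mem hr hr) _) y2).resolve_left y1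
  rw [(Commute.refl r).mul_pow] at xx
  have xR := pow_mem hr (2 ^ k)
  have xc : r ^ 2 ^ k * z' = z' * r ^ 2 ^ k := ((show Commute r z' from rc).pow_left _).eq
  generalize r ^ 2 ^ k = x at *
  have c := fun v hv => h.f4c t (Or.inl rfl) (Or.inl xR) xc (v := v) (Or.inl hv)
  have yy : a * x * a⁻¹ * (a * x * a⁻¹) = z' := by rw [conj_mul, xx, t.az]
  obtain ⟨b, j, ⟨b', hb⟩, e, -⟩ := h.act (t.nm x ⟨h.le xR, xc⟩).1
  generalize a * x * a⁻¹ = y at *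
  have e1 := sqρ h.toQS e
  rw [yy] at e1
  have e2 := sqρ h.toQS e1
  rw [h.z'z' t, one_mul, inv_one, mul_one, eq_comm, ← zpow_one ρ, ← zpow_mul, one_mul, h.inj] at e2
  have p : (0 : ℤ) < 2 ^ n := by positivity
  rcases sq_cases e2 with d | ⟨c', d⟩ | ⟨c', d⟩ | ⟨c', d⟩
  · exact cm_cj.2 (by rw [e1, h.inj.2 d, zpow_one])
  · have : 4 * (b' * b' + b' - 2 * 2 ^ n * c') = -2 := by rw [hb] at d; linear_combination d
    omega
  · have c2 := cm_cj.1 (c (ρ ^ (2 : ℤ)) (zpow_mem h.ρ_mem 2) (cm_cj.2 (by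
      rw [← conj_zpow, e1, ← zpow_mul]
      exact h.inj.2 ⟨2 * c' + 1, by linear_combination 2 * d⟩)).symm)
    rw [← conj_zpow, e, ← zpow_mul, h.inj] at c2
    obtain ⟨w, hw⟩ := c2
    have hb' : b = 1 + 4 * 2 ^ n * w := by linarith
    have : 4 * 2 ^ n * (2 * (w + 2 * 2 ^ n * w * w - c') - 1) = 0 := by
      rw [hb'] at d; linear_combination d
    rcases mul_eq_zero.1 this with e | e
    · omega
    · omega
  · have : 4 * (b' * b' + b' - 2 ^ n - 2 * 2 ^ n * c') = -2 := by rw [hb] at d; linear_combination d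
    omega

end Hyp

end H93.QW
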