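import Cfsg.Agent.Lib.QW.Bas

/-! Elements of odd order acting on subgroups of a quaternion group. -/

set_option autoImplicit false

namespace H93.QW

open Subgroup

variable {Γ : Type*} [Group Γ] [Finite Γ]

set_option linter.unusedSectionVars false

theorem odd_comm {g u : Γ} (ho : Odd (orderOf g)) (k : ℕ) (h : g ^ 2 ^ k * u = u * g ^ 2 ^ k) :
    g * u = u * g := by
  obtain ⟨m, e⟩ := mem_zpowers_pow_iff.2 ((Nat.coprime_two_left.2 ho).pow_left k)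
  rw [← e]
  exact Commute.zpow_left h m

theorem exists_odd_pow (g : Γ) : ∃ k : ℕ, Odd (orderOf (g ^ 4 ^ k)) := by
  obtain ⟨a, b, hb, e⟩ := Nat.exists_eq_two_pow_mul_odd (orderOf_pos g).ne'
  refine ⟨a, hb.of_dvd_nat (orderOf_dvd_of_pow_eq_one ?_)⟩
  rw [← pow_mul, ← orderOf_dvd_iff_pow_eq_one, e]
  exact ⟨2 ^ a, by rw [show 4 = 2 * 2 from rfl, mul_pow]; ring⟩

theorem cyc_cent {g c : Γ} (ho : Odd (orderOf g)) {k : ℕ} (hc : c ^ 2 ^ k = 1) {l : ℤ}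
    (h : g * c * g⁻¹ = c ^ l) : g * c = c * g := by
  have hc' : c ^ (2 ^ k : ℤ) = 1 := by exact_mod_cast hc
  rcases Int.even_or_odd l with ⟨m, rfl⟩ | hl
  · have := conj_pow_of h k
    rw [← two_mul, mul_pow, zpow_mul, hc', one_zpow, conj_eq_one_iff] at this
    rw [this, mul_one, one_mul]
  · obtain ⟨e, he⟩ := odd_pow_dvd k hl
    have := conj_pow_of h (2 ^ (k + 1))
    rw [show l ^ 2 ^ (k + 1) = 2 ^ k * (8 * e) + 1 by linear_combination he, zpow_add, zpow_mul, hc', one_zpow,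
      one_mul, zpow_one] at this
    exact odd_comm ho _ (mul_inv_eq_iff_eq_mul.1 this)

theorem chain {g u c : Γ} (ho : Odd (orderOf g)) {k : ℕ} (hc : c ^ 2 ^ k = 1)
    (h : g * u * g⁻¹ = u * c) (h' : g * c = c * g) : g * u = u * g := by
  have key : ∀ j : ℕ, g ^ j * u * (g ^ j)⁻¹ = u * c ^ j := fun j => by
    induction j with
    | zero => simp
    | succ j ih =>
      rw [pow_succ' g, show g * g ^ j * u * (g * g ^ j)⁻¹ = g * (g ^ j * u * (g ^ j)⁻¹) * g⁻¹ by group, ih,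
        ← conj_mul, h, ← conj_pow, h', mul_inv_cancel_right, mul_assoc, pow_succ']
  have := key (2 ^ k)
  rw [hc, mul_one] at this
  exact odd_comm ho k (mul_inv_eq_iff_eq_mul.1 this)

theorem exists_norm {S P X : Subgroup Γ} (hS : IsPGroup 2 S) (hP : P ≤ S) (hX : X ≤ S)
    (hn : ∀ s ∈ P, Cj s X X) (h : ¬ X ≤ P) : ∃ r ∈ X, r ∉ P ∧ Cj r P P := by
  haveI := (hS.to_le (sup_le hP hX)).isNilpotent
  obtain ⟨y, hy, yP⟩ := SetLike.exists_of_lt (normalizerCondition_of_isNilpotent (P.subgroupOf (P ⊔ X))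
    (lt_top_iff_ne_top.2 fun e => h (le_sup_right.trans (subgroupOf_eq_top.1 e))))
  have m : (y : Γ) ∈ ((P ⊔ X : Subgroup Γ) : Set Γ) := y.2
  rw [coe_mul_of_left_le_normalizer_right P X fun s hs => mem_normalizer_iff.2 fun u =>
    ⟨hn s hs u, fun e => by simpa [mul_assoc] using hn s⁻¹ (inv_mem hs) _ e⟩] at m
  obtain ⟨p, hp, x, hx, e⟩ := m
  refine ⟨x, hx, fun k => yP (mem_subgroupOf.2 (e ▸ mul_mem hp k)), fun u hu => ?_⟩
  have : (y : Γ) * u * (y : Γ)⁻¹ ∈ P := (mem_normalizer_iff.1 hy ⟨u, mem_sup_left hu⟩).1 hu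
  rw [← e] at this
  simpa [mul_assoc] using mul_mem (mul_mem (inv_mem hp) this) hp

namespace OddQ

variable {g I J z : Γ} (hI : I * I = z) (hJ : J * J = z)

section

variable (hc : J * I * J⁻¹ = I⁻¹)
include hI hJ hc

theorem zz : z * z = 1 := by
  have : J * z * J⁻¹ = z⁻¹ := by rw [← hI, ← conj_mul, hc, mul_inv_rev]
  rw [← hJ, ← mul_assoc, mul_inv_cancel_right, hJ] at this
  exact mul_eq_one_iff_eq_inv.2 this

theorem mem {u : Γ} (hu : u ∈ closure {I, J}) : ∃ a : ℤ, u = I ^ a ∨ u = J * I ^ a := by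
  have e : ∀ a : ℤ, I ^ a * J = J * I ^ (-a) := fun a => by
    rw [← mul_inv_eq_iff_eq_mul.1 (show J * I ^ (-a) * J⁻¹ = I ^ a by rw [← conj_zpow, hc]; group)]
  have e2 : J * J = I ^ (2 : ℤ) := by rw [hJ, ← hI, zpow_two]
  have e3 : J⁻¹ = J * I ^ (2 : ℤ) := by
    rw [inv_eq_iff_mul_eq_one, ← mul_assoc, ← e2, hJ, zz hI hJ hc]
  induction hu using closure_induction with
  | mem u hu =>
    rcases hu with rfl | rfl
    exacts [⟨1, .inl (by simp)⟩, ⟨0, .inr (by simp)⟩]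
  | one => exact ⟨0, .inl (by simp)⟩
  | mul u v _ _ hu hv =>
    obtain ⟨i, rfl | rfl⟩ := hu <;> obtain ⟨j, rfl | rfl⟩ := hv
    · exact ⟨i + j, .inl (by group)⟩
    · exact ⟨j - i, .inr (by rw [← mul_assoc, e]; group)⟩
    · exact ⟨i + j, .inr (by group)⟩
    · exact ⟨2 - i + j, .inl (by rw [mul_assoc, ← mul_assoc (I ^ i), e, ← mul_assoc, ← mul_assoc, e2]; group)⟩
  | inv u _ hu =>
    obtain ⟨i, rfl | rfl⟩ := hu
    · exact ⟨-i, .inl (by group)⟩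
    · exact ⟨i + 2, .inr (by rw [mul_inv_rev, e3, ← zpow_neg, ← mul_assoc, e]; group)⟩

theorem rel : I⁻¹ = z * I ∧ J⁻¹ = z * J ∧ I * z = z * I ∧ J * z = z * J ∧ J * I = z * (I * J) := by
  have k := zz hI hJ hc
  have a : I⁻¹ = z * I := by rw [inv_eq_iff_mul_eq_one, ← k, ← hI]; simp only [mul_assoc]
  refine ⟨a, ?_, by rw [← hI, mul_assoc], by rw [← hJ, mul_assoc], by rw [← mul_assoc, ← a, ← hc]; group⟩
  rw [inv_eq_iff_mul_eq_one, ← k, ← hJ]; simp only [mul_assoc]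

theorem six {u : Γ} (hu : u ∈ closure {I, J}) (h2 : u * u ≠ 1) :
    (u = I ∨ u = z * I) ∨ (u = J ∨ u = z * J) ∨ u = I * J ∨ u = z * (I * J) := by
  obtain ⟨-, -, r3, r4, r5⟩ := rel hI hJ hc
  have k := zz hI hJ hc
  have e : ∀ a : ℤ, I ^ a = 1 ∨ I ^ a = I ∨ I ^ a = z ∨ I ^ a = z * I := fun a => by
    rw [zpow_eq_zpow_emod a (show I ^ (4 : ℤ) = 1 by rw [← k, ← hI, ← zpow_two I, ← zpow_add]; rfl)]
    obtain e | e | e | e : a % 4 = 0 ∨ a % 4 = 1 ∨ a % 4 = 2 ∨ a % 4 = 3 := by omega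
    all_goals rw [e, ← hI]
    exacts [.inl (zpow_zero I), .inr (.inl (zpow_one I)), .inr (.inr (.inl (zpow_two I))),
      .inr (.inr (.inr (by rw [← zpow_two, ← zpow_add_one]; rfl)))]
  obtain ⟨a, rfl | rfl⟩ := mem hI hJ hc hu <;> rcases e a with e | e | e | e <;> rw [e] at h2 ⊢
  · exact absurd (mul_one 1) h2
  · exact .inl (.inl rfl)
  · exact absurd k h2
  · exact .inl (.inr rfl)
  · exact .inr (.inl (.inl (mul_one J)))
  · exact .inr (.inr (.inr r5))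
  · exact .inr (.inl (.inr r4))
  · exact .inr (.inr (.inl (by rw [← mul_assoc, r4, mul_assoc, r5, ← mul_assoc, k, one_mul])))

theorem fix (hz : z ≠ 1) (ho : Odd (orderOf g)) (hg : g * J * g⁻¹ ∈ closure {I, J})
    (e : g * I * g⁻¹ = I ∨ g * I * g⁻¹ = z * I) : g * I = I * g ∧ g * J = J * g := by
  have i4 : I ^ 2 ^ 2 = 1 := by rw [← zz hI hJ hc, ← hI, ← pow_two I, ← pow_add]; rfl
  have c : g * I = I * g := e.elim (fun e => cyc_cent ho i4 (l := 1) (by rw [e, zpow_one]))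
    fun e => cyc_cent ho i4 (l := -1) (by rw [e, zpow_neg_one, (rel hI hJ hc).1])
  refine ⟨c, ?_⟩
  obtain ⟨a, e | e⟩ := mem hI hJ hc hg
  · refine absurd ?_ hz
    have : J = I ^ a := by
      rw [← (Commute.zpow_right c a).mul_inv_cancel, mul_left_inj, mul_right_inj] at e; exact e
    rw [this, show I ^ a * I * (I ^ a)⁻¹ = I by group] at hc
    rw [← hI]; exact mul_eq_one_iff_eq_inv.2 hc
  · exact chain ho (k := 2) (by rw [← zpow_natCast, ← zpow_mul, mul_comm, zpow_mul, zpow_natCast, i4, one_zpow]) e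
      (Commute.zpow_right c a)

theorem next : I * J * (I * J) = z ∧ I * J * J * (I * J)⁻¹ = J⁻¹ ∧ J * (I * J) = I ∧
    closure {J, I * J} = closure {I, J} := by
  obtain ⟨r1, r2, r3, r4, r5⟩ := rel hI hJ hc
  have k := zz hI hJ hc
  have a : J * (I * J) = I := by rw [← mul_assoc, r5, mul_assoc, mul_assoc, hJ, r3, ← mul_assoc, k, one_mul]
  have m1 : I ∈ closure {I, J} := subset_closure (by simp)
  have m2 : J ∈ closure {I, J} := subset_closure (by simp)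
  have m3 : J ∈ closure {J, I * J} := subset_closure (by simp)
  have m4 : I * J ∈ closure {J, I * J} := subset_closure (by simp)
  refine ⟨by rw [mul_assoc, a, hI], ?_, a, le_antisymm ((closure_le _).2 ?_) ((closure_le _).2 ?_)⟩
  · rw [mul_inv_eq_iff_eq_mul, eq_inv_mul_iff_mul_eq, ← mul_assoc, a]
  · rintro _ (rfl | rfl)
    exacts [m2, mul_mem m1 m2]
  · have := mul_mem m3 m4
    rw [a] at this
    exact Set.insert_subset this (Set.singleton_subset_iff.2 m3)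

end

end OddQ

/-- Automorphisms of odd order of the quaternion group of order `8`. -/
theorem q8_odd {g I J z : Γ} (hI : I * I = z) (hJ : J * J = z) (hz : z ≠ 1) (hc : J * I * J⁻¹ = I⁻¹)
    (ho : Odd (orderOf g)) (hg : Cj g (closure {I, J}) (closure {I, J})) :
    (g * I = I * g ∧ g * J = J * g) ∨ ∃ q ∈ closure {I, J},
      (g * I * g⁻¹ = q * J * q⁻¹ ∧ g * J * g⁻¹ = q * (I * J) * q⁻¹) ∨
      (g * I * g⁻¹ = q * (I * J) * q⁻¹ ∧ g * J * g⁻¹ = q * I * q⁻¹) := by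
  have m1 : I ∈ closure {I, J} := subset_closure (by simp)
  have m2 : J ∈ closure {I, J} := subset_closure (by simp)
  obtain ⟨hK, c2, e2, k2⟩ := OddQ.next hI hJ hc
  obtain ⟨-, c3, e3, k3⟩ := OddQ.next hJ hK c2
  rw [e2] at c3 e3 k3
  by_cases hA : g * I * g⁻¹ = I ∨ g * I * g⁻¹ = z * I
  · exact .inl (OddQ.fix hI hJ hc hz ho (hg _ m2) hA)
  by_cases hB : g * J * g⁻¹ = J ∨ g * J * g⁻¹ = z * J
  · obtain ⟨a, b⟩ := OddQ.fix hJ hK c2 hz ho (k2 ▸ hg _ (mul_mem m1 m2)) hB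
    exact .inl ⟨e2 ▸ Commute.mul_right a b, a⟩
  by_cases hC : g * (I * J) * g⁻¹ = I * J ∨ g * (I * J) * g⁻¹ = z * (I * J)
  · obtain ⟨a, b⟩ := OddQ.fix hK hI c3 hz ho (by rw [k3, k2]; exact hg _ m1) hC
    exact .inl ⟨b, e3 ▸ Commute.mul_right a b⟩
  have n : ∀ {u}, u * u = z → g * u * g⁻¹ * (g * u * g⁻¹) ≠ 1 := fun e => by
    rw [conj_mul, e, Ne, conj_eq_one_iff]; exact hz
  have hD := n hK
  rw [← conj_mul] at hC hD
  obtain ⟨r1, r2, r3, r4, r5⟩ := OddQ.rel hI hJ hc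
  have k := OddQ.zz hI hJ hc
  have s0 : ∀ x, z * (z * x) = x := fun x => by rw [← mul_assoc, k, one_mul]
  have s1 : ∀ x, I * (I * x) = z * x := fun x => by rw [← mul_assoc, hI]
  have s2 : ∀ x, J * (J * x) = z * x := fun x => by rw [← mul_assoc, hJ]
  have s3 : ∀ x, I * (z * x) = z * (I * x) := fun x => by rw [← mul_assoc, r3, mul_assoc]
  have s4 : ∀ x, J * (z * x) = z * (J * x) := fun x => by rw [← mul_assoc, r4, mul_assoc]
  have s5 : ∀ x, J * (I * x) = z * (I * (J * x)) := fun x => by rw [← mul_assoc, r5, mul_assoc, mul_assoc]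
  have a := (OddQ.six hI hJ hc (hg _ m1) (n hI)).resolve_left hA
  have b : (g * J * g⁻¹ = I ∨ g * J * g⁻¹ = z * I) ∨ g * J * g⁻¹ = I * J ∨ g * J * g⁻¹ = z * (I * J) :=
    (OddQ.six hI hJ hc (hg _ m2) (n hJ)).imp_right fun h => h.resolve_left hB
  right
  rcases a with (a | a) | a | a <;> rcases b with (b | b) | b | b <;> rw [a, b] at hC hD ⊢ <;>
    first
    | (refine absurd ?_ hC
       simp only [mul_assoc, k, hI, hJ, r3, r4, r5, s0, s1, s2, s3, s4, s5, true_or, or_true]; done)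
    | (refine absurd ?_ hD
       simp only [mul_assoc, k, hI, hJ, r3, r4, r5, s0, s1, s2, s3, s4, s5, mul_one]; done)
    | (refine ⟨1, one_mem _, ?_⟩
       simp only [one_mul, inv_one, mul_one, true_or, or_true, and_self]; done)
    | (refine ⟨I, m1, ?_⟩
       simp only [mul_assoc, k, hI, hJ, r1, r3, r4, r5, s0, s1, s2, s3, s4, s5, mul_one, true_or, or_true, and_self]; done)
    | (refine ⟨J, m2, ?_⟩
       simp only [mul_assoc, k, hI, hJ, r2, r3, r4, r5, s0, s1, s2, s3, s4, s5, mul_one, true_or, or_true, and_self]; done)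
    | (refine ⟨I * J, mul_mem m1 m2, ?_⟩
       simp only [mul_assoc, mul_inv_rev, k, hI, hJ, r1, r2, r3, r4, r5, s0, s1, s2, s3, s4, s5, mul_one, true_or,
        or_true, and_self]; done)

namespace QS

variable {n : ℕ} {S R T : Subgroup Γ} {ρ σ z : Γ} (h : QS n S R T ρ σ z)
include h

theorem odd_cent {Y : Subgroup Γ} (hY : Y ≤ R) {g : Γ} (ho : Odd (orderOf g)) (hg : Cj g Y Y) :
    (∀ r ∈ Y, g * r = r * g) ∨ ∃ k, Y = Q8 n ρ σ k := by
  obtain ⟨d, hd⟩ := Int.subgroup_cyclic (Y.toAddSubgroup.comap (zpowersHom Γ ρ).toAdditiveRight)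
  have m : ∀ i : ℤ, ρ ^ i ∈ Y ↔ ∃ l : ℤ, ρ ^ i = (ρ ^ d) ^ l := fun i => by
    refine ⟨fun e => ?_, fun ⟨l, e⟩ => e ▸ zpow_mem (K := Y) ?_ l⟩
    · obtain ⟨l, rfl⟩ := AddSubgroup.mem_closure_singleton.1 (hd ▸ e : i ∈ AddSubgroup.closure {d})
      exact ⟨l, by rw [← zpow_mul, smul_eq_mul, mul_comm]⟩
    · exact (hd ▸ AddSubgroup.subset_closure rfl : d ∈ Y.toAddSubgroup.comap (zpowersHom Γ ρ).toAdditiveRight)
  have p : ∀ i : ℤ, (ρ ^ i) ^ 2 ^ (n + 3) = 1 := fun i => by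
    rw [← zpow_natCast, ← zpow_mul, h.ord]; exact ⟨i, by push_cast; ring⟩
  have cY := (m d).2 ⟨1, by simp⟩
  have dv : ∀ j k : ℤ, ρ ^ j * σ = ρ ^ k * σ * ρ ^ (k - j) := fun j k => by rw [mul_assoc, h.σ_mul]; group
  obtain ⟨k, e | e⟩ := (h.mem_R _).1 (hY (hg _ cY))
  · obtain ⟨l, e'⟩ := (m k).1 (e ▸ hg _ cY)
    have c := cyc_cent ho (p d) (e.trans e')
    have c' : ∀ i : ℤ, ρ ^ i ∈ Y → g * ρ ^ i = ρ ^ i * g := fun i hi => by
      obtain ⟨l, e⟩ := (m i).1 hi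
      rw [e]; exact Commute.zpow_right c l
    refine .inl fun r hr => ?_
    obtain ⟨i, rfl | rfl⟩ := (h.mem_R _).1 (hY hr)
    · exact c' i hr
    obtain ⟨j, f | f⟩ := (h.mem_R _).1 (hY (hg _ hr))
    · have := c' j (f ▸ hg _ hr)
      rw [mul_inv_eq_iff_eq_mul, ← this, mul_right_inj] at f
      exact absurd f.symm (h.ne _ _)
    · rw [dv j i] at f
      exact chain ho (p _) f (c' _ ((mul_mem_cancel_left hr).1 (f ▸ hg _ hr)))
  · have rY : ρ ^ k * σ ∈ Y := e ▸ hg _ cY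
    have s := h.sq' k
    rw [← e, conj_mul] at s
    have c2 : ρ ^ d * ρ ^ d = z := (h.invol (mul_mem (hY cY) (hY cY)) (by
      rw [← conj_eq_one_iff (a := g), ← conj_mul, s, h.zz])).resolve_left fun f => h.z_ne (by rw [← s, f]; group)
    have i1 : ρ ^ (2 * 2 ^ n : ℤ) ∈ Q8 n ρ σ k := subset_closure (by simp)
    have i2 : ρ ^ k * σ ∈ Q8 n ρ σ k := subset_closure (by simp)
    obtain ⟨a, b⟩ : ρ ^ d ∈ Q8 n ρ σ k ∧ ρ ^ (2 * 2 ^ n : ℤ) ∈ Y := by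
      rcases h.four (hY cY) c2 with f | f | ⟨j, f⟩
      exacts [⟨f ▸ i1, f ▸ cY⟩, ⟨f ▸ inv_mem i1, inv_mem_iff.1 (f ▸ cY)⟩, absurd f (h.ne _ _)]
    have q : ∀ i : ℤ, ρ ^ i ∈ Y → ρ ^ i ∈ Q8 n ρ σ k := fun i hi => by
      obtain ⟨l, e⟩ := (m i).1 hi
      rw [e]; exact zpow_mem a l
    refine .inr ⟨k, le_antisymm (fun r hr => ?_) ((closure_le _).2 ?_)⟩
    · obtain ⟨i, rfl | rfl⟩ := (h.mem_R _).1 (hY hr)
      · exact q i hr
      · rw [dv i k] at hr ⊢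
        exact mul_mem i2 (q _ ((mul_mem_cancel_left rY).1 hr))
    · rintro _ (rfl | rfl)
      exacts [b, rY]

theorem odd_cent_R {g : Γ} (ho : Odd (orderOf g)) (hg : Cj g R R) : ∀ r ∈ R, g * r = r * g := by
  refine (h.odd_cent le_rfl ho hg).resolve_right fun ⟨k, e⟩ => ?_
  obtain ⟨j, f | f⟩ := h.mem_Q8.1 (e ▸ h.ρ_mem)
  · nth_rewrite 1 [← zpow_one ρ] at f
    obtain ⟨c, hc⟩ := h.inj.1 f
    have : (2 : ℤ) * (4 * 2 ^ n * c + 2 ^ n * j) = 1 := by linear_combination -hc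
    omega
  · exact h.ne 1 _ ((zpow_one ρ).trans f)

theorem q8_of {I J : Γ} (hI : I ∈ R) (hJ : J ∈ R) (h1 : I * I = z) (h2 : J * J = z)
    (hc : J * I * J⁻¹ = I⁻¹) : ∃ k, I ∈ Q8 n ρ σ k ∧ J ∈ Q8 n ρ σ k := by
  have i1 : ∀ k, ρ ^ (2 * 2 ^ n : ℤ) ∈ Q8 n ρ σ k := fun k => subset_closure (by simp)
  have i2 : ∀ k, ρ ^ k * σ ∈ Q8 n ρ σ k := fun k => subset_closure (by simp)
  rcases h.four hI h1 with rfl | rfl | ⟨k, rfl⟩ <;> rcases h.four hJ h2 with rfl | rfl | ⟨l, rfl⟩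
  exacts [⟨0, i1 0, i1 0⟩, ⟨0, i1 0, inv_mem (i1 0)⟩, ⟨l, i1 l, i2 l⟩, ⟨0, inv_mem (i1 0), i1 0⟩,
    ⟨0, inv_mem (i1 0), inv_mem (i1 0)⟩, ⟨l, inv_mem (i1 l), i2 l⟩, ⟨k, i2 k, i1 k⟩, ⟨k, i2 k, inv_mem (i1 k)⟩, by
      have e : ρ ^ (l - k) = ρ ^ (k - l + 4 * 2 ^ n) := by
        have a : ρ ^ l * σ * (ρ ^ k * σ) = ρ ^ (l - k) * z := by
          rw [mul_assoc, ← mul_assoc σ, h.σ_mul, ← h.sq]; group
        have b : ρ ^ k * σ * (ρ ^ l * σ) = ρ ^ (k - l) * z := by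
          rw [mul_assoc, ← mul_assoc σ, h.σ_mul, ← h.sq]; group
        rw [(OddQ.rel h1 h2 hc).2.2.2.2, b, ← mul_assoc, mul_left_inj, h.z_def] at a
        rw [← a]; group
      obtain ⟨c, hc⟩ := h.inj.1 e
      exact ⟨k, i2 k, h.mem_Q8.2 ⟨2 * c + 1, .inr (by rw [show l = 2 * 2 ^ n * (2 * c + 1) + k by linarith])⟩⟩]

end QS

/-- Fusion in `C(z)` is trivial modulo `R T`. -/
theorem Hyp.foc {n : ℕ} {S R T : Subgroup Γ} {ρ σ z : Γ} (h : Hyp n S R T ρ σ z) {g v : Γ}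
    (hg : g * z = z * g) (hv : v ∈ S) (h1 : g * v * g⁻¹ ∈ S) :
    ∃ r ∈ R, ∃ t ∈ T, g * v * g⁻¹ = v * (r * t) := by
  obtain ⟨K, hK, m⟩ := h.exists_RT
  have mT : ∀ t, t ∈ T ↔ t ∈ S ∧ ∀ v ∈ R, t * v = v * t := fun t =>
    ⟨fun ht => ⟨h.T_le ht, fun v => h.T_comm ht⟩, fun ht => (h.mem_T t).2 ⟨ht.1, ht.2 _ h.ρ_mem, ht.2 _ h.σ_mem⟩⟩
  obtain ⟨r, hr, t, ht, e⟩ := (m _).1 (h.satz.foc K hK (h.satz.scc R h.le (h.sc z h.z_mem_T h.zz h.z_ne) K fun u => by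
      simp only [m, mT, and_assoc])
    (fun s hs t ht => let ⟨i, c, hc, e⟩ := h.comm_mem hs ht; (m _).2 ⟨_, zpow_mem h.ρ_mem i, c, hc, e⟩)
    (fun g _ c o u hu => (m _).2 ⟨1, one_mem _, _, (mT _).2 ⟨mul_mem (inv_mem hu) (c u hu), fun r hr => by
      have k := h.odd_cent_R o (h.wc g (c.mono h.le le_rfl))
      calc _ = u⁻¹ * g * u * (g⁻¹ * (r * g)) * g⁻¹ := by group
        _ = u⁻¹ * (g * (u * r * u⁻¹)) * u * g⁻¹ := by rw [← k r hr]; group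
        _ = _ := by rw [k _ (h.norm u hu r hr)]; group⟩, (one_mul _).symm⟩) g (mem_cS_top.2 hg) v hv h1)
  exact ⟨r, hr, t, ht, by rw [← e]; group⟩

end H93.QW
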