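import Cfsg.Agent.Lib.QW.Odd

/-! Centric radical subgroups and two commuting quaternion subgroups (package RAD). -/

set_option autoImplicit false

namespace H93.QW

open Subgroup

variable {Γ : Type*} [Group Γ] [Finite Γ] {n : ℕ} {S R T : Subgroup Γ} {ρ σ η τ z x : Γ}

omit [Finite Γ] in
theorem rad_two {S : Subgroup Γ} (hS : IsPGroup 2 S) {c : Γ} (hc : c ∈ S) : ∃ k : ℕ, c ^ 2 ^ k = 1 :=
  (hS ⟨c, hc⟩).imp fun _ e => congrArg Subtype.val e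

theorem QS.radx (h : QS n S R T ρ σ z) {H P : Subgroup Γ} (hH : S ≤ H) (hP : Rad H S P)
    (hi : ∀ g ∈ H, Cj g P P → Cj g (P ⊓ R) (P ⊓ R)) : R ≤ P ∨ ∃ k, P ⊓ R = Q8 n ρ σ k := by
  by_contra hc
  rw [not_or] at hc
  let K : Subgroup Γ :=
    { carrier := {g | (g ∈ H ∧ Cj g P P) ∧ ∀ u ∈ P, u⁻¹ * (g * u * g⁻¹) ∈ P ⊓ R}
      one_mem' := ⟨⟨one_mem _, fun u hu => by simpa using hu⟩, fun u _ => by simp⟩
      mul_mem' := fun {a b} ha hb => ⟨⟨mul_mem ha.1.1 hb.1.1, hb.1.2.mul ha.1.2⟩, fun u hu => by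
        have := mul_mem (ha.2 u hu) (hi a ha.1.1 ha.1.2 _ (hb.2 u hu))
        simpa [mul_assoc] using this⟩
      inv_mem' := fun {a} ha => ⟨⟨inv_mem ha.1.1, ha.1.2.inv⟩, fun u hu => by
        have := inv_mem (ha.2 _ (ha.1.2.inv u hu))
        simpa [mul_assoc] using this⟩ }
  obtain ⟨r, hr, h1, h2⟩ := exists_norm h.pgrp hP.le h.le (fun s hs => h.norm s (hP.le hs)) hc.1
  refine h1 (hP.rad K (fun k hk => hk.1) (fun g hg h3 k hk => ⟨⟨mul_mem (mul_mem hg hk.1.1) (inv_mem hg), ?_⟩,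
    fun u hu => ?_⟩) (fun k hk ho u hu => ?_) r ⟨⟨hH (h.le hr), h2⟩, fun u hu => ⟨?_, ?_⟩⟩ (h.le hr))
  · simpa [mul_assoc] using (h3.inv.mul hk.1.2).mul h3
  · simpa [mul_assoc] using hi g hg h3 _ (hk.2 _ (h3.inv u hu))
  · have c := (h.odd_cent inf_le_right ho (hi k hk.1.1 hk.1.2)).resolve_right hc.2
    obtain ⟨j, e⟩ := rad_two h.pgrp (hP.le (hk.2 u hu).1)
    exact chain ho e (by group) (c _ (hk.2 u hu))
  · exact P.mul_mem (P.inv_mem hu) (h2 u hu)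
  · have := R.mul_mem (h.norm _ (inv_mem (hP.le hu)) r hr) (R.inv_mem hr)
    simpa [mul_assoc] using this

namespace DQ

variable (h : DQ n S R T ρ σ η τ z x)
include h

omit [Finite Γ] in
theorem cent_Q8 {k : ℤ} {c : Γ} (hc : c ∈ S) (h1 : ∀ u ∈ Q8 n ρ σ k, c * u = u * c) : c ∈ T := by
  have e1 := h1 _ (subset_closure (by simp) : ρ ^ (2 * 2 ^ n : ℤ) ∈ Q8 n ρ σ k)
  have e2 := h1 _ (subset_closure (by simp) : ρ ^ k * σ ∈ Q8 n ρ σ k)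
  rcases h.pm c hc with e | e
  · have e3 : Commute c ρ := mul_inv_eq_iff_eq_mul.1 e
    refine (h.q.mem_T c).2 ⟨hc, e3, ?_⟩
    rwa [← mul_assoc, (e3.zpow_right k).eq, mul_assoc, mul_assoc, mul_right_inj] at e2
  · refine absurd ?_ h.q.z_ne
    have e3 := mul_inv_eq_iff_eq_mul.2 e1
    rw [← conj_zpow, e, inv_zpow] at e3
    rw [← h.q.ii]
    nth_rewrite 1 [← e3]
    exact inv_mul_cancel _

omit [Finite Γ] in
theorem x_conj (k l : ℤ) : x ^ l * (ρ ^ k * σ) * (x ^ l)⁻¹ = ρ ^ (k - l) * σ := by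
  have c : Commute x ρ := h.xρ
  have e1 : ∀ k : ℤ, x * (ρ ^ k * σ) * x⁻¹ = ρ ^ (k - 1) * σ := fun k => by
    rw [← mul_assoc, (c.zpow_right k).eq, mul_assoc, mul_assoc, ← mul_assoc x, h.xσ]; group
  have e2 : ∀ k : ℤ, x⁻¹ * (ρ ^ k * σ) * x = ρ ^ (k + 1) * σ := fun k => by
    have := e1 (k + 1)
    rw [add_sub_cancel_right] at this
    rw [← this]; group
  induction l using Int.induction_on with
  | zero => simp
  | succ l ih =>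
    rw [show x ^ ((l : ℤ) + 1) * (ρ ^ k * σ) * (x ^ ((l : ℤ) + 1))⁻¹ =
      x * (x ^ (l : ℤ) * (ρ ^ k * σ) * (x ^ (l : ℤ))⁻¹) * x⁻¹ by group, ih, e1, sub_sub]
  | pred l ih =>
    rw [show x ^ (-(l : ℤ) - 1) * (ρ ^ k * σ) * (x ^ (-(l : ℤ) - 1))⁻¹ =
      x⁻¹ * (x ^ (-(l : ℤ)) * (ρ ^ k * σ) * (x ^ (-(l : ℤ)))⁻¹) * x by group, ih, e2]
    congr 2; ring

omit [Finite Γ] in
theorem cj_Q8 (k l : ℤ) : Cj (x ^ l) (Q8 n ρ σ k) (Q8 n ρ σ (k - l)) := fun u hu => by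
  obtain ⟨j, rfl | rfl⟩ := h.q.mem_Q8.1 hu
  · refine h.q.mem_Q8.2 ⟨j, Or.inl ?_⟩
    rw [((show Commute x ρ from h.xρ).zpow_zpow _ _).eq, mul_inv_cancel_right]
  · exact h.q.mem_Q8.2 ⟨j, Or.inr (by rw [h.x_conj, add_sub_assoc])⟩

/-- an element of odd order moving the quaternion group of order eight -/
theorem rad_mv {P : Subgroup Γ} (hP : P ≤ S) {g : Γ} (hn : Cj g P P) (ho : Odd (orderOf g))
    (hR : Cj g (P ⊓ R) (P ⊓ R)) {k : ℤ} (e : P ⊓ R = Q8 n ρ σ k) (hm : ¬ ∀ r ∈ P ⊓ R, g * r = r * g) :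
    ∀ u ∈ P, ∃ r ∈ P ⊓ R, ∃ t ∈ P ⊓ T, u = r * t := by
  have mi : ρ ^ (2 * 2 ^ n : ℤ) ∈ P ⊓ R := e ▸ subset_closure (by simp)
  have ms : ρ ^ k * σ ∈ P ⊓ R := e ▸ subset_closure (by simp)
  have mJ := hR _ mi
  obtain ⟨j, eJ | eJ⟩ := h.q.mem_Q8.1 (e ▸ mJ)
  · refine absurd ?_ hm
    have i4 : (ρ ^ (2 * 2 ^ n : ℤ)) ^ 2 ^ 2 = 1 := by
      rw [pow_two 2, pow_mul, pow_two (ρ ^ _), h.q.ii, pow_two, h.q.zz]
    have c1 : Commute g (ρ ^ (2 * 2 ^ n : ℤ)) := cyc_cent ho i4 (eJ.trans (zpow_mul _ _ _))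
    have c2 : g * (ρ ^ k * σ) = ρ ^ k * σ * g := by
      obtain ⟨l, f | f⟩ := h.q.mem_Q8.1 (e ▸ hR _ ms)
      · refine absurd ?_ (h.q.ne (2 * 2 ^ n * l) k)
        rw [zpow_mul] at f ⊢
        rw [← mul_inv_eq_iff_eq_mul.2 (c1.zpow_right l).eq] at f
        simpa using f.symm
      · refine chain ho (k := 2) (c := (ρ ^ (2 * 2 ^ n : ℤ)) ^ (-l)) ?_ ?_ (c1.zpow_right _).eq
        · rw [← zpow_natCast, ← zpow_mul _ (-l), mul_comm (-l), zpow_mul _ _ (-l), zpow_natCast, i4, one_zpow]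
        · rw [f, ← zpow_mul, mul_assoc (ρ ^ k), h.q.σ_mul]; group
    rw [e]
    intro r hr
    refine ((closure_le (cS ⊤ g)).2 ?_ hr).2.symm
    rintro _ (rfl | rfl)
    exacts [mem_cS_top.2 c1.eq.symm, mem_cS_top.2 c2.symm]
  intro u hu
  have pm : ∀ u ∈ P, u * ρ ^ (2 * 2 ^ n : ℤ) * u⁻¹ = ρ ^ (2 * 2 ^ n : ℤ) ∨
      u * ρ ^ (2 * 2 ^ n : ℤ) * u⁻¹ = (ρ ^ (2 * 2 ^ n : ℤ))⁻¹ := fun u hu =>
    (h.pm u (hP hu)).imp (fun f => by rw [← conj_zpow, f]) fun f => by rw [← conj_zpow, f, inv_zpow]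
  have JI : ρ ^ (2 * 2 ^ n * j + k) * σ * ρ ^ (2 * 2 ^ n : ℤ) * (ρ ^ (2 * 2 ^ n * j + k) * σ)⁻¹ =
      (ρ ^ (2 * 2 ^ n : ℤ))⁻¹ := by rw [mul_assoc _ σ, h.q.σ_mul]; group
  have JJ := h.q.sq' (2 * 2 ^ n * j + k)
  have II := h.q.ii
  have zz := h.q.zz
  have cT : ∀ c ∈ S, c * ρ ^ (2 * 2 ^ n : ℤ) * c⁻¹ = ρ ^ (2 * 2 ^ n : ℤ) →
      c * (ρ ^ (2 * 2 ^ n * j + k) * σ) * c⁻¹ = ρ ^ (2 * 2 ^ n * j + k) * σ → c ∈ T :=
    fun c hc f1 f2 => h.cent_Q8 (k := 2 * 2 ^ n * j + k) hc fun r hr => by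
      refine ((closure_le (cS ⊤ c)).2 ?_ hr).2.symm
      rintro _ (rfl | rfl)
      exacts [mem_cS_top.2 (mul_inv_eq_iff_eq_mul.1 f1).symm,
        mem_cS_top.2 (mul_inv_eq_iff_eq_mul.1 f2).symm]
  have p1 := pm u hu
  have p2 := pm _ (hn.inv u hu)
  rw [eJ] at mJ
  generalize ρ ^ (2 * 2 ^ n * j + k) * σ = J at *
  generalize ρ ^ (2 * 2 ^ n : ℤ) = I at *
  have IJ : I * J * I⁻¹ = J⁻¹ := by
    have a1 : J * I⁻¹ = I * J := by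
      calc J * I⁻¹ = (J * I * J⁻¹)⁻¹ * J := by group
        _ = _ := by rw [JI, inv_inv]
    rw [mul_assoc, a1, ← mul_assoc, II, eq_inv_iff_mul_eq_one, mul_assoc, JJ, zz]
  replace p2 : u * J * u⁻¹ = J ∨ u * J * u⁻¹ = J⁻¹ := p2.imp (fun f => by
    rw [← eJ]; conv_rhs => rw [← f]
    group) fun f => by
      have : u * J * u⁻¹ = g * (g⁻¹ * u * g⁻¹⁻¹ * I * (g⁻¹ * u * g⁻¹⁻¹)⁻¹) * g⁻¹ := by rw [← eJ]; group
      rw [this, f, ← eJ]; group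
  have key : ∀ r ∈ P ⊓ R, u * I * u⁻¹ = r * I * r⁻¹ → u * J * u⁻¹ = r * J * r⁻¹ →
      ∃ r ∈ P ⊓ R, ∃ t ∈ P ⊓ T, u = r * t := fun r hr f1 f2 => by
    have m : r⁻¹ * u ∈ P := P.mul_mem (P.inv_mem hr.1) hu
    refine ⟨r, hr, r⁻¹ * u, ⟨m, cT _ (hP m) ?_ ?_⟩, by group⟩
    · rw [show r⁻¹ * u * I * (r⁻¹ * u)⁻¹ = r⁻¹ * (u * I * u⁻¹) * r by group, f1]; group
    · rw [show r⁻¹ * u * J * (r⁻¹ * u)⁻¹ = r⁻¹ * (u * J * u⁻¹) * r by group, f2]; group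
  rcases p1 with f1 | f1 <;> rcases p2 with f2 | f2
  · exact key 1 (one_mem _) (by simpa using f1) (by simpa using f2)
  · exact key I mi (by rw [f1]; group) (by rw [f2, IJ])
  · exact key J mJ (by rw [f1, JI]) (by rw [f2]; group)
  · refine key (I * J) (mul_mem mi mJ) ?_ ?_
    · rw [f1, show I * J * I * (I * J)⁻¹ = I * (J * I * J⁻¹) * I⁻¹ by group, JI]; group
    · rw [f2, ← IJ]; group

theorem rad (hsc : SC (cS ⊤ z) S R) {P : Subgroup Γ} (hP : Rad (cS ⊤ z) S P) {g : Γ}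
    (hg : g ∈ cS ⊤ z) (hn : Cj g P P) (ho : Odd (orderOf g)) :
    Cj g (P ⊓ R) (P ⊓ R) ∧ Cj g (P ⊓ T) (P ⊓ T) ∧
      ((∀ r ∈ P ⊓ R, g * r = r * g) ∨ ∃ k, P ⊓ R = Q8 n ρ σ k) ∧
      ((∀ t ∈ P ⊓ T, g * t = t * g) ∨ ∃ k, P ⊓ T = Q8 n η τ k) ∧
      ((∀ u ∈ P, g * u = u * g) ∨ ∀ u ∈ P, ∃ r ∈ P ⊓ R, ∃ t ∈ P ⊓ T, u = r * t) := by
  have A : ∀ g ∈ cS ⊤ z, Cj g P P → Cj g (P ⊓ R) (P ⊓ R) := fun g hg hn u hu =>
    ⟨hn u hu.1, hsc g hg u hu.2 (hP.le (hn u hu.1))⟩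
  obtain ⟨k, B⟩ : ∃ k, Q8 n ρ σ k ≤ P ⊓ R := by
    rcases h.q.radx (fun s hs => mem_cS_top.2 (h.q.zc hs)) hP A with e | ⟨k, e⟩
    exacts [⟨0, le_inf ((h.q.Q8_le 0).trans e) (h.q.Q8_le 0)⟩, ⟨k, e.ge⟩]
  have h1 := A g hg hn
  have h2 : Cj g (P ⊓ T) (P ⊓ T) := fun t ht => ⟨hn t ht.1, h.cent_Q8 (k := k) (hP.le (hn t ht.1))
    fun u hu => by
      have := h.q.T_comm ht.2 (h1.inv u (B hu)).2
      calc _ = g * (t * (g⁻¹ * u * g⁻¹⁻¹)) * g⁻¹ := by group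
        _ = _ := by rw [this]; group⟩
  have h3 := h.q.odd_cent inf_le_right ho h1
  have h4 := h.q'.odd_cent inf_le_right ho h2
  refine ⟨h1, h2, h3, h4, ?_⟩
  by_cases c1 : ∀ r ∈ P ⊓ R, g * r = r * g
  · by_cases c2 : ∀ t ∈ P ⊓ T, g * t = t * g
    · refine Or.inl fun u hu => ?_
      have m : u⁻¹ * (g * u * g⁻¹) ∈ P := P.mul_mem (P.inv_mem hu) (hn u hu)
      obtain ⟨j, e⟩ := rad_two h.q.pgrp (hP.le m)
      refine chain ho e (by group) (c2 _ ⟨m, h.cent_Q8 (k := k) (hP.le m) fun r hr => ?_⟩)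
      have e1 := c1 r (B hr)
      have e2 := c1 (u * r * u⁻¹) ⟨Cj.of_mem hu r (B hr).1, h.q.norm u (hP.le hu) r (B hr).2⟩
      calc _ = u⁻¹ * g * u * g⁻¹ * (r * g) * g⁻¹ := by group
        _ = u⁻¹ * (g * (u * r * u⁻¹)) * u * g⁻¹ := by rw [← e1]; group
        _ = _ := by rw [e2]; group
    · obtain ⟨l, e⟩ := h4.resolve_left c2
      refine Or.inr fun u hu => ?_
      obtain ⟨t, ht, r, hr, f⟩ := h.symm.rad_mv hP.le hn ho h2 e c2 u hu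
      exact ⟨r, hr, t, ht, f.trans (h.q.T_comm ht.2 hr.2)⟩
  · obtain ⟨l, e⟩ := h3.resolve_left c1
    exact Or.inr (h.rad_mv hP.le hn ho h1 e c1)

theorem scT (hz : Sat (cS ⊤ z) S) (hsc : SC (cS ⊤ z) S R) : SC (cS ⊤ z) S T := fun g hg u hu h1 =>
  hz.alp (fun P g => ∀ u ∈ P, u ∈ T → g * u * g⁻¹ ∈ T) (fun _ _ _ l c u hu => c u (l hu))
    (fun _ _ a b _ _ c1 _ c2 c3 u hu ht => by simpa [mul_assoc] using c3 _ (c1 u hu) (c2 u hu ht))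
    (fun _ _ _ e c u hu ht => e u hu ▸ c u hu ht) (fun s hs u _ ht => h.q.T_norm hs u ht)
    (fun P hP a ha hn ho u hu ht => ((h.rad hsc hP ha hn ho).2.1 u ⟨hu, ht⟩).2)
    (zpowers u) (zpowers_le.2 (h.q.T_le hu)) g hg (by
      rintro _ ⟨k, rfl⟩
      rw [← conj_zpow]; exact zpow_mem h1 k) u (mem_zpowers u) hu

end DQ

end H93.QW
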