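import Cfsg.Agent.Lib.QW.Odd

set_option autoImplicit false

namespace H93.QW

open Subgroup

variable {Γ : Type*} [Group Γ]

namespace Tr1

theorem cz {g u v : Γ} (e : g * u * g⁻¹ = v) (k : ℤ) : g * u ^ k * g⁻¹ = v ^ k := by
  rw [← e, conj_zpow]

theorem cm {g u : Γ} : g * u * g⁻¹ = u ↔ g * u = u * g := mul_inv_eq_iff_eq_mul

/-- an odd square with square `1` -/
theorem sq2 {n : ℕ} {l : ℤ} (ho : Odd l) (h : (8 * 2 ^ n : ℤ) ∣ l * l * (l * l) - 1) :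
    (8 * 2 ^ n : ℤ) ∣ l * l - 1 ∨ (8 * 2 ^ n : ℤ) ∣ l * l - 1 - 4 * 2 ^ n := by
  obtain ⟨k, rfl⟩ := ho
  have e : (2 * k + 1) * (2 * k + 1) = 4 * (k * k + k) + 1 := by ring
  rw [e] at h ⊢
  rcases sq_cases h with h | ⟨c, h⟩ | h | ⟨c, h⟩
  · exact Or.inl h
  · rw [mul_assoc] at h; omega
  · exact Or.inr h
  · rw [mul_assoc] at h; omega

variable {n : ℕ} {S R T : Subgroup Γ} {ρ σ z x y w a : Γ} (c : CC n S ρ σ x y w a)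
include c

theorem mul (i j k l : ℤ) : x ^ i * y ^ j * (x ^ k * y ^ l) = x ^ (i + k) * y ^ (j + l) := by
  have h : Commute x y := c.comm
  rw [zpow_add, zpow_add, mul_assoc, ← mul_assoc (y ^ j), ← (h.zpow_zpow k j).eq]
  simp only [mul_assoc]

theorem inv (i j : ℤ) : (x ^ i * y ^ j)⁻¹ = x ^ (-i) * y ^ (-j) :=
  inv_eq_of_mul_eq_one_right (by rw [mul c]; simp)

theorem zp (i j k : ℤ) : (x ^ i * y ^ j) ^ k = x ^ (i * k) * y ^ (j * k) := by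
  have h : Commute x y := c.comm
  rw [(h.zpow_zpow i j).mul_zpow, zpow_mul, zpow_mul]

theorem inj {i j k l : ℤ} :
    x ^ i * y ^ j = x ^ k * y ^ l ↔ (8 * 2 ^ n : ℤ) ∣ i - k ∧ (8 * 2 ^ n : ℤ) ∣ j - l := by
  rw [← mul_inv_eq_one, inv c, mul c, c.ord]; rfl

theorem ecm (i j k l : ℤ) : x ^ i * y ^ j * (x ^ k * y ^ l) * (x ^ i * y ^ j)⁻¹ = x ^ k * y ^ l := by
  rw [cm, mul c, mul c, add_comm i, add_comm j]

theorem mem (i j : ℤ) : x ^ i * y ^ j ∈ S := mul_mem (zpow_mem c.x_mem i) (zpow_mem c.y_mem j)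

theorem wE (i j : ℤ) : w * (x ^ i * y ^ j) * w⁻¹ = x ^ j * y ^ i := by
  have h : Commute x y := c.comm
  have wy : w * y * w⁻¹ = x := by
    rw [← c.wx]
    calc _ = w * w * x * (w * w)⁻¹ := by group
      _ = x := by rw [c.ww]; group
  rw [← conj_mul, cz c.wx, cz wy, (h.zpow_zpow j i).eq]

theorem aE (i j : ℤ) : a * (x ^ i * y ^ j) * a⁻¹ = x ^ j * y ^ (-i - j) := by
  have e1 : y⁻¹ = x ^ (0 : ℤ) * y ^ (-1 : ℤ) := by simp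
  have e2 : x * y⁻¹ = x ^ (1 : ℤ) * y ^ (-1 : ℤ) := by simp
  rw [← conj_mul, cz c.ax, cz c.ay, e2, e1, zp c, zp c, mul c]
  congr 2 <;> ring

theorem lE {e : Γ} {l : ℤ} (hx : e * x * e⁻¹ = x ^ l) (hy : e * y * e⁻¹ = y ^ l) (i j : ℤ) :
    e * (x ^ i * y ^ j) * e⁻¹ = x ^ (l * i) * y ^ (l * j) := by
  rw [← conj_mul, cz hx, cz hy, zpow_mul, zpow_mul]

theorem ρE (k : ℤ) : ρ ^ k = x ^ (-k) * y ^ k := by
  have h : Commute x y := c.comm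
  have e : ρ = x ^ (-1 : ℤ) * y ^ (1 : ℤ) := by rw [c.rho, zpow_neg_one, zpow_one, h.inv_left.eq]
  rw [e, zp c]
  congr 2 <;> ring

theorem ρ1 : ρ = x ^ (-1 : ℤ) * y ^ (1 : ℤ) := by rw [← ρE c, zpow_one]

theorem odd_l {e : Γ} {l : ℤ} (hx : e * x * e⁻¹ = x ^ l) : Odd l := by
  refine Int.not_even_iff_odd.1 fun ⟨k, hk⟩ => ?_
  have h1 := cz hx (4 * 2 ^ n)
  have h2 : x ^ (l * (4 * 2 ^ n)) * y ^ (0 : ℤ) = 1 := (c.ord _ _).2 ⟨⟨k, by rw [hk]; ring⟩, dvd_zero _⟩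
  rw [zpow_zero, mul_one] at h2
  rw [← zpow_mul, h2, mul_inv_eq_one, mul_eq_left] at h1
  obtain ⟨⟨k, hk⟩, -⟩ := (c.ord (4 * 2 ^ n) 0).1 (by rw [h1, zpow_zero, mul_one])
  have p : (0 : ℤ) < 2 ^ n := by positivity
  have : 4 = 8 * k := Int.eq_of_mul_eq_mul_right p.ne' (by rw [hk]; ring)
  omega

theorem lρ {e : Γ} {l : ℤ} (hx : e * x * e⁻¹ = x ^ l) (hy : e * y * e⁻¹ = y ^ l) :
    e * ρ * e⁻¹ = ρ ^ l := by
  rw [ρE c l, ρ1 c, lE c hx hy]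
  congr 2 <;> ring

theorem Eρ (i j : ℤ) : x ^ i * y ^ j * ρ * (x ^ i * y ^ j)⁻¹ = ρ := by
  rw [ρ1 c, ecm c]

/-- the action of an element of `S` on `B` -/
theorem act {s : Γ} (hs : s ∈ S) : ∃ i j l : ℤ, ∃ e ∈ S, a * e = e * a ∧ e * x * e⁻¹ = x ^ l ∧
    e * y * e⁻¹ = y ^ l ∧
    ((s = x ^ i * y ^ j * e ∧ ∀ p r : ℤ, s * (x ^ p * y ^ r) * s⁻¹ = x ^ (l * p) * y ^ (l * r)) ∨
      (s = x ^ i * y ^ j * e * w ∧
        ∀ p r : ℤ, s * (x ^ p * y ^ r) * s⁻¹ = x ^ (l * r) * y ^ (l * p))) := by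
  obtain ⟨i, j, l, e, he, ha, hx, hy, h⟩ := c.dec s hs
  refine ⟨i, j, l, e, he, ha, hx, hy, h.imp (fun h => ⟨h, fun p r => ?_⟩) fun h => ⟨h, fun p r => ?_⟩⟩
  · rw [← ecm c i j (l * p), ← lE c hx hy, h]; group
  · rw [← ecm c i j (l * r), ← lE c hx hy, ← wE c p r, h]; group

theorem mm {l : ℤ} (ho : Odd l) : (8 * 2 ^ n : ℤ) ∣ l * (4 * 2 ^ n) - 4 * 2 ^ n := by
  obtain ⟨k, rfl⟩ := ho
  exact ⟨k, by ring⟩

theorem nm : ¬ (8 * 2 ^ n : ℤ) ∣ 4 * 2 ^ n := fun ⟨k, hk⟩ => by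
  have p : (0 : ℤ) < 2 ^ n := by positivity
  have : 4 = 8 * k := Int.eq_of_mul_eq_mul_right p.ne' (by rw [hk]; ring)
  omega

/-- elements commuting with `x ^ m` or `y ^ m` -/
theorem bc {v : Γ} (hv : v ∈ S)
    (h : v * (x ^ (4 * 2 ^ n : ℤ) * y ^ (0 : ℤ)) * v⁻¹ = x ^ (4 * 2 ^ n : ℤ) * y ^ (0 : ℤ) ∨
      v * (x ^ (0 : ℤ) * y ^ (4 * 2 ^ n : ℤ)) * v⁻¹ = x ^ (0 : ℤ) * y ^ (4 * 2 ^ n : ℤ)) :
    ∃ i j l : ℤ, ∃ e ∈ S, a * e = e * a ∧ e * x * e⁻¹ = x ^ l ∧ e * y * e⁻¹ = y ^ l ∧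
      v = x ^ i * y ^ j * e := by
  obtain ⟨i, j, l, e, he, ha, hx, hy, ⟨h1, -⟩ | ⟨-, h1⟩⟩ := act c hv
  · exact ⟨i, j, l, e, he, ha, hx, hy, h1⟩
  · rw [h1, h1, inj c, inj c] at h
    exact absurd (h.elim (fun h => by simpa using h.1) fun h => by simpa using h.2) (nm c)

theorem sqx {s : Γ} (hs : s ∈ S) : s * s * (x ^ (4 * 2 ^ n : ℤ) * y ^ (0 : ℤ)) * (s * s)⁻¹ =
    x ^ (4 * 2 ^ n : ℤ) * y ^ (0 : ℤ) := by
  obtain ⟨i, j, l, e, -, -, hx, -, h⟩ := act c hs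
  have o := odd_l c hx
  have e1 : s * s * (x ^ (4 * 2 ^ n : ℤ) * y ^ (0 : ℤ)) * (s * s)⁻¹ =
    s * (s * (x ^ (4 * 2 ^ n : ℤ) * y ^ (0 : ℤ)) * s⁻¹) * s⁻¹ := by group
  rcases h with ⟨-, h⟩ | ⟨-, h⟩ <;> rw [e1, h, h, inj c, ← mul_assoc] <;>
    exact ⟨mm c (o.mul o), by simp⟩

theorem fix {i j : ℤ} (h : a * (x ^ i * y ^ j) = x ^ i * y ^ j * a) : x ^ i * y ^ j = 1 := by
  rw [← cm, aE c, inj c] at h
  have h3 : (2 ^ (n + 3) : ℤ) ∣ 3 * j := by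
    rw [show (2 ^ (n + 3) : ℤ) = 8 * 2 ^ n by ring,
      show 3 * j = j - i - (-i - j - j) + -0 - 0 + 0 * i by ring]
    simpa using h.1.sub h.2
  have h4 := dvd_of_odd_mul (by decide) h3
  rw [show (2 ^ (n + 3) : ℤ) = 8 * 2 ^ n by ring] at h4
  exact (c.ord i j).2 ⟨by simpa using h4.sub h.1, h4⟩

/-- an element of `D` acting trivially is trivial -/
theorem one {e : Γ} (he : e ∈ S) (ha : a * e = e * a) {l : ℤ} (hx : e * x * e⁻¹ = x ^ l)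
    (hy : e * y * e⁻¹ = y ^ l) (h : (8 * 2 ^ n : ℤ) ∣ l - 1) : e = 1 := by
  have h1 : x ^ l * y ^ (0 : ℤ) = x ^ (1 : ℤ) * y ^ (0 : ℤ) := (inj c).2 ⟨h, by simp⟩
  have h2 : x ^ (0 : ℤ) * y ^ l = x ^ (0 : ℤ) * y ^ (1 : ℤ) := (inj c).2 ⟨by simp, h⟩
  simp only [zpow_zero, zpow_one, mul_one, one_mul] at h1 h2
  obtain ⟨i, j, rfl⟩ := c.cen e he (cm.1 (hx.trans h1)) (cm.1 (hy.trans h2))
  exact fix c ha

theorem sqD {e : Γ} (ha : a * e = e * a) {l : ℤ} (hx : e * x * e⁻¹ = x ^ l)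
    (hy : e * y * e⁻¹ = y ^ l) : a * (e * e) = e * e * a ∧ e * e * x * (e * e)⁻¹ = x ^ (l * l) ∧
      e * e * y * (e * e)⁻¹ = y ^ (l * l) :=
  ⟨by rw [← mul_assoc, ha, mul_assoc, ha, mul_assoc], by rw [zpow_mul, ← cz hx, ← hx]; group,
    by rw [zpow_mul, ← cz hy, ← hy]; group⟩

/-- the three involutions of `B` -/
def W (n : ℕ) (x y u : Γ) : Prop := u = x ^ (4 * 2 ^ n : ℤ) * y ^ (4 * 2 ^ n : ℤ) ∨
  u = x ^ (4 * 2 ^ n : ℤ) * y ^ (0 : ℤ) ∨ u = x ^ (0 : ℤ) * y ^ (4 * 2 ^ n : ℤ)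

omit c in
theorem half {i : ℤ} (h : (8 * 2 ^ n : ℤ) ∣ i + i) :
    (8 * 2 ^ n : ℤ) ∣ i - 0 ∨ (8 * 2 ^ n : ℤ) ∣ i - 4 * 2 ^ n := by
  obtain ⟨k, hk⟩ := h
  rcases Int.even_or_odd' k with ⟨t, rfl | rfl⟩
  · exact Or.inl ⟨t, by linarith⟩
  · exact Or.inr ⟨t, by linarith⟩

variable (h : Hyp n S R T ρ σ z)
include h

theorem zE : z = x ^ (4 * 2 ^ n : ℤ) * y ^ (4 * 2 ^ n : ℤ) := by
  rw [h.z_def, ρE c, inj c]
  exact ⟨⟨-1, by ring⟩, by simp⟩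

/-- an involution commuting with `x ^ m` and `ρ` -/
theorem inW {v : Γ} (hv : v ∈ S) (v2 : v * v = 1) (v1 : v ≠ 1)
    (h1 : v * (x ^ (4 * 2 ^ n : ℤ) * y ^ (0 : ℤ)) * v⁻¹ = x ^ (4 * 2 ^ n : ℤ) * y ^ (0 : ℤ))
    (h2 : v * ρ * v⁻¹ = ρ) : W n x y v := by
  obtain ⟨i, j, l, e, he, ha, hx, hy, rfl⟩ := bc c hv (Or.inl h1)
  have h3 : ρ ^ l = ρ ^ (1 : ℤ) := by
    rw [zpow_one, ← cz (Eρ c i j).symm.symm l, ← lρ c hx hy]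
    exact Eq.trans (by group) h2
  rw [one c he ha hx hy (h.inj.1 h3), mul_one] at v1 v2 ⊢
  rw [mul c, c.ord] at v2
  rcases half v2.1 with h4 | h4 <;> rcases half v2.2 with h5 | h5
  · exact absurd ((c.ord i j).2 ⟨by simpa using h4, by simpa using h5⟩) v1
  · exact Or.inr (Or.inr ((inj c).2 ⟨h4, h5⟩))
  · exact Or.inr (Or.inl ((inj c).2 ⟨h4, h5⟩))
  · exact Or.inl ((inj c).2 ⟨h4, h5⟩)

theorem toz {v u : Γ} (hv : v ∈ S) (hu : W n x y u) (hc : v * u * v⁻¹ = u) :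
    ∃ α, α * u * α⁻¹ = z ∧ α * v * α⁻¹ ∈ S ∧ ∀ l : ℤ, v * ρ * v⁻¹ = ρ ^ l ↔
      α * v * α⁻¹ * ρ * (α * v * α⁻¹)⁻¹ = ρ ^ l := by
  have k : ∀ (i j p r : ℤ) (e : Γ), ∀ l : ℤ, x ^ i * y ^ j * e * ρ * (x ^ i * y ^ j * e)⁻¹ = ρ ^ l →
      x ^ p * y ^ r * e * ρ * (x ^ p * y ^ r * e)⁻¹ = ρ ^ l := fun i j p r e l h => by
    have h1 : e * ρ * e⁻¹ = ρ ^ l := by
      rw [← cz (Eρ c (-i) (-j)) l, ← h, ← inv c]; group
    rw [← cz (Eρ c p r) l, ← h1]; group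
  rcases hu with rfl | rfl | rfl
  · exact ⟨1, by rw [zE c h]; group, by simpa using hv, by simp⟩
  · obtain ⟨i, j, l, e, he, ha, -, -, rfl⟩ := bc c hv (Or.inl hc)
    have e1 : a * a * (x ^ i * y ^ j * e) * (a * a)⁻¹ = x ^ (-i - j) * y ^ (-j - (-i - j)) * e := by
      calc _ = a * (a * (x ^ i * y ^ j) * a⁻¹) * a⁻¹ * (a * (a * e * a⁻¹) * a⁻¹) := by group
        _ = _ := by rw [cm.2 ha, cm.2 ha, aE c, aE c]
    refine ⟨a * a, ?_, e1 ▸ mul_mem (mem c _ _) he, fun l => e1 ▸ ⟨k _ _ _ _ _ l, k _ _ _ _ _ l⟩⟩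
    calc _ = a * (a * (x ^ (4 * 2 ^ n : ℤ) * y ^ (0 : ℤ)) * a⁻¹) * a⁻¹ := by group
      _ = z := by
        rw [aE c, aE c, zE c h, inj c]
        exact ⟨⟨-1, by ring⟩, by simp⟩
  · obtain ⟨i, j, l, e, he, ha, -, -, rfl⟩ := bc c hv (Or.inr hc)
    have e1 : a * (x ^ i * y ^ j * e) * a⁻¹ = x ^ j * y ^ (-i - j) * e := by
      rw [← conj_mul, aE c, cm.2 ha]
    refine ⟨a, ?_, e1 ▸ mul_mem (mem c _ _) he, fun l => e1 ▸ ⟨k _ _ _ _ _ l, k _ _ _ _ _ l⟩⟩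
    rw [aE c, zE c h, inj c]
    exact ⟨by simp, ⟨-1, by ring⟩⟩

variable [Finite Γ]

/-- fusion fixing `W` changes the action on `ρ` by a sign only -/
theorem kk {v u g : Γ} (hv : v ∈ S) (hu : W n x y u) (hc : v * u * v⁻¹ = u) (hg : g * v * g⁻¹ ∈ S)
    (hu' : W n x y (g * u * g⁻¹)) {l : ℤ} (e : v * ρ * v⁻¹ = ρ ^ l) (hl : (8 * 2 ^ n : ℤ) ∣ l * l - 1) :
    v * (g * v * g⁻¹) * ρ * (v * (g * v * g⁻¹))⁻¹ = ρ ∨
      v * (g * v * g⁻¹) * ρ * (v * (g * v * g⁻¹))⁻¹ = ρ⁻¹ := by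
  obtain ⟨α, a1, a2, a3⟩ := toz c h hv hu hc
  obtain ⟨β, b1, b2, b3⟩ := toz c h hg hu' (by rw [conj_inv, conj_mul, conj_mul, hc])
  have e1 : β * g * α⁻¹ * (α * v * α⁻¹) * (β * g * α⁻¹)⁻¹ = β * (g * v * g⁻¹) * β⁻¹ := by group
  obtain ⟨r, hr, t, ht, e2⟩ := h.foc (g := β * g * α⁻¹) (cm.1 (by
    conv_lhs => rw [← a1]
    rw [← b1]; group)) a2 (e1 ▸ b2)
  rw [e1] at e2
  have e3 := (a3 l).1 e
  have t1 : t * ρ * t⁻¹ = ρ := cm.2 (h.T_comm ht h.ρ_mem)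
  have l2 : (ρ ^ l) ^ l = ρ := by
    rw [← zpow_mul, h.inj.2 hl, zpow_one]
  have key : ∀ m : ℤ, r * ρ * r⁻¹ = ρ ^ m →
      v * (g * v * g⁻¹) * ρ * (v * (g * v * g⁻¹))⁻¹ = ρ ^ m := fun m hm => by
    have e4 : g * v * g⁻¹ * ρ * (g * v * g⁻¹)⁻¹ = ρ ^ (l * m) := (b3 _).2 (by
      rw [e2, zpow_mul, ← cz e3, ← hm, ← t1]
      rw [t1]
      calc _ = α * v * α⁻¹ * (r * (t * ρ * t⁻¹) * r⁻¹) * (α * v * α⁻¹)⁻¹ := by group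
        _ = _ := by rw [t1])
    calc _ = v * (g * v * g⁻¹ * ρ * (g * v * g⁻¹)⁻¹) * v⁻¹ := by group
      _ = _ := by rw [e4, cz e, zpow_mul, l2]
  obtain ⟨i, rfl | rfl⟩ := (h.mem_R r).1 hr
  · exact Or.inl ((key 1 (by group)).trans (zpow_one _))
  · refine Or.inr ((key (-1) ?_).trans (zpow_neg_one _))
    calc _ = ρ ^ i * (σ * ρ * σ⁻¹) * (ρ ^ i)⁻¹ := by group
      _ = _ := by rw [h.conj]; group

omit c in
/-- transfer -/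
theorem trf {e : Γ} (he : e ∈ S) (e2 : e * e = 1) {l : ℤ} (hl : e * ρ * e⁻¹ = ρ ^ l)
    (h1 : ¬ (8 * 2 ^ n : ℤ) ∣ l - 1) (h2 : ¬ (8 * 2 ^ n : ℤ) ∣ l - -1) :
    ∃ g, Cj g (cS S e) S ∧ ¬ (e * (g * e * g⁻¹) * ρ * (e * (g * e * g⁻¹))⁻¹ = ρ ∨
      e * (g * e * g⁻¹) * ρ * (e * (g * e * g⁻¹))⁻¹ = ρ⁻¹) := by
  let K : Subgroup Γ :=
    { carrier := {s | s * ρ * s⁻¹ = ρ ∨ s * ρ * s⁻¹ = ρ⁻¹}
      one_mem' := Or.inl (by group)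
      mul_mem' := fun {s t} hs ht => by
        have e : s * t * ρ * (s * t)⁻¹ = s * (t * ρ * t⁻¹) * s⁻¹ := by group
        show _ ∨ _
        rw [e]
        rcases ht with ht | ht <;> rw [ht]
        · exact hs
        · rw [← conj_inv]
          rcases hs with hs | hs <;> rw [hs]
          · exact Or.inr rfl
          · exact Or.inl (inv_inv _)
      inv_mem' := fun {s} hs => by
        rcases hs with hs | hs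
        · exact Or.inl (by conv_lhs => rw [← hs]
                           group)
        · exact Or.inr (by conv_lhs => rw [← inv_inv ρ, ← hs]
                           group) }
  refine h.tr K (fun s hs t ht => ?_) e he e2 ?_
  · obtain ⟨i, u, hu, e1⟩ := h.comm_mem hs ht
    refine Or.inl ?_
    rw [e1]
    calc _ = ρ ^ i * (u * ρ * u⁻¹) * (ρ ^ i)⁻¹ := by group
      _ = _ := by rw [cm.2 (h.T_comm hu h.ρ_mem)]; group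
  · rintro (h3 | h3)
    · exact h1 (h.inj.1 (by rw [← hl, h3, zpow_one]))
    · exact h2 (h.inj.1 (by rw [← hl, h3, zpow_neg_one]))

omit c [Finite Γ] in
/-- squares of order two act by `1` or `1 + m` -/
theorem sqa {s : Γ} (hs : s ∈ S) (h4 : s * s * (s * s) = 1) : s * s * ρ * (s * s)⁻¹ = ρ ∨
    s * s * ρ * (s * s)⁻¹ = ρ ^ (1 + 4 * 2 ^ n : ℤ) := by
  obtain ⟨l, -, o, e, -⟩ := h.act hs
  have e1 : s * s * ρ * (s * s)⁻¹ = ρ ^ (l * l) := by rw [zpow_mul, ← cz e, ← e]; group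
  have e2 : ρ ^ (l * l * (l * l)) = ρ ^ (1 : ℤ) := by
    rw [zpow_mul _ (l * l), ← cz e1, ← e1]
    calc _ = s * s * (s * s) * ρ * (s * s * (s * s))⁻¹ := by group
      _ = _ := by rw [h4]; group
  rw [e1]
  rcases sq2 o (h.inj.1 e2) with h1 | h1
  · exact Or.inl ((h.inj.2 h1).trans (zpow_one _))
  · exact Or.inr (h.inj.2 (by rwa [← sub_sub]))

theorem no3 {e : Γ} (he : e ∈ S) (ha : a * e = e * a) {l : ℤ} (hx : e * x * e⁻¹ = x ^ l)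
    (hy : e * y * e⁻¹ = y ^ l) : ¬ (8 * 2 ^ n : ℤ) ∣ l - 1 - 4 * 2 ^ n := fun ⟨t, ht⟩ => by
  have el : l = 1 + 4 * 2 ^ n + 8 * 2 ^ n * t := by linarith
  have ll : (8 * 2 ^ n : ℤ) ∣ l * l - 1 :=
    ⟨1 + 2 * 2 ^ n + 2 * t + 8 * 2 ^ n * t + 8 * 2 ^ n * t * t, by rw [el]; ring⟩
  obtain ⟨s1, s2, s3⟩ := sqD c ha hx hy
  have p : (0 : ℤ) < 2 ^ n := by positivity
  obtain ⟨g, hg, hn⟩ := trf h he (one c (mul_mem he he) s1 s2 s3 ll) (lρ c hx hy)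
    (fun h => nm c (by simpa using h.sub ⟨t, ht⟩)) (fun ⟨k, hk⟩ => by
      rw [el, mul_assoc 8, mul_assoc 8] at hk; omega)
  have fx : ∀ i j : ℤ, e * (x ^ (2 * i) * y ^ (2 * j)) * e⁻¹ = x ^ (2 * i) * y ^ (2 * j) := fun i j => by
    rw [lE c hx hy, inj c, el]
    exact ⟨⟨i + 2 * t * i, by ring⟩, ⟨j + 2 * t * j, by ring⟩⟩
  have key : ∀ i j : ℤ, W n x y (x ^ (4 * 2 ^ n * i) * y ^ (4 * 2 ^ n * j)) →
      g * (x ^ (4 * 2 ^ n * i) * y ^ (4 * 2 ^ n * j)) * g⁻¹ * ρ *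
        (g * (x ^ (4 * 2 ^ n * i) * y ^ (4 * 2 ^ n * j)) * g⁻¹)⁻¹ = ρ ^ (1 + 4 * 2 ^ n : ℤ) := by
    intro i j hw
    have m1 := hg (x ^ (2 * (2 ^ n * i)) * y ^ (2 * (2 ^ n * j))) ⟨mem c _ _, (cm.1 (fx _ _)).symm⟩
    have e1 : g * (x ^ (4 * 2 ^ n * i) * y ^ (4 * 2 ^ n * j)) * g⁻¹ =
        g * (x ^ (2 * (2 ^ n * i)) * y ^ (2 * (2 ^ n * j))) * g⁻¹ *
          (g * (x ^ (2 * (2 ^ n * i)) * y ^ (2 * (2 ^ n * j))) * g⁻¹) := by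
      rw [conj_mul, mul c]; congr 4 <;> ring
    have e2 : g * (x ^ (4 * 2 ^ n * i) * y ^ (4 * 2 ^ n * j)) * g⁻¹ *
        (g * (x ^ (4 * 2 ^ n * i) * y ^ (4 * 2 ^ n * j)) * g⁻¹) = 1 := by
      rw [conj_mul, mul c, (c.ord _ _).2 ⟨⟨i, by ring⟩, ⟨j, by ring⟩⟩]; group
    have h1 := sqa h m1 (e1 ▸ e2)
    have h2 := sqx c m1
    have h3 := mul_mem m1 m1
    rw [← e1] at h1 h2 h3
    refine h1.resolve_left fun h1 => hn (kk c h he hw ?_ (hg e ⟨he, rfl⟩)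
      (inW c h h3 e2 (fun h4 => ?_) h2 h1) (lρ c hx hy) ll)
    · have := fx (2 * 2 ^ n * i) (2 * 2 ^ n * j)
      rwa [show 2 * (2 * 2 ^ n * i) = 4 * 2 ^ n * i by ring,
        show 2 * (2 * 2 ^ n * j) = 4 * 2 ^ n * j by ring] at this
    · rw [mul_inv_eq_one, mul_eq_left] at h4
      rw [h4] at hw
      rcases hw with hw | hw | hw
      exacts [nm c ((c.ord _ _).1 hw.symm).1, nm c ((c.ord _ _).1 hw.symm).1,
        nm c ((c.ord _ _).1 hw.symm).2]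
  have k1 := key 1 0 (Or.inr (Or.inl (by simp)))
  have k2 := key 0 1 (Or.inr (Or.inr (by simp)))
  have k3 := key 1 1 (Or.inl (by simp))
  have e3 : x ^ (4 * 2 ^ n * 1 : ℤ) * y ^ (4 * 2 ^ n * 1 : ℤ) = x ^ (4 * 2 ^ n * 1 : ℤ) * y ^ (4 * 2 ^ n * 0 : ℤ) *
      (x ^ (4 * 2 ^ n * 0 : ℤ) * y ^ (4 * 2 ^ n * 1 : ℤ)) := by simp
  rw [e3, ← conj_mul] at k3
  generalize g * (x ^ (4 * 2 ^ n * 1 : ℤ) * y ^ (4 * 2 ^ n * 0 : ℤ)) * g⁻¹ = u at k1 k3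
  generalize g * (x ^ (4 * 2 ^ n * 0 : ℤ) * y ^ (4 * 2 ^ n * 1 : ℤ)) * g⁻¹ = v at k2 k3
  have e4 : u * v * ρ * (u * v)⁻¹ = u * (v * ρ * v⁻¹) * u⁻¹ := by group
  rw [e4, k2, cz k1, ← zpow_mul, h.inj] at k3
  exact nm c (by
    have := k3.sub (Dvd.intro (2 * 2 ^ n) rfl)
    rwa [show (1 + 4 * 2 ^ n) * (1 + 4 * 2 ^ n) - (1 + 4 * 2 ^ n) - 8 * 2 ^ n * (2 * 2 ^ n) =
      (4 * 2 ^ n : ℤ) by ring] at this)

theorem no4 {e : Γ} (he : e ∈ S) (ha : a * e = e * a) {l : ℤ} (hx : e * x * e⁻¹ = x ^ l)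
    (hy : e * y * e⁻¹ = y ^ l) : ¬ (8 * 2 ^ n : ℤ) ∣ l + 1 - 4 * 2 ^ n := fun ⟨t, ht⟩ => by
  have el : l = -1 + 4 * 2 ^ n + 8 * 2 ^ n * t := by linarith
  have ll : (8 * 2 ^ n : ℤ) ∣ l * l - 1 :=
    ⟨-1 + 2 * 2 ^ n - 2 * t + 8 * 2 ^ n * t + 8 * 2 ^ n * t * t, by rw [el]; ring⟩
  obtain ⟨s1, s2, s3⟩ := sqD c ha hx hy
  have e2 := one c (mul_mem he he) s1 s2 s3 ll
  have eρ := lρ c hx hy
  obtain ⟨g, hg, hn⟩ := trf h he e2 eρ (fun ⟨k, hk⟩ => by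
      rw [el, mul_assoc 8, mul_assoc 8] at hk; omega) (fun h => nm c (by simpa using h.sub ⟨t, ht⟩))
  obtain ⟨-, j, -, -, ej⟩ := h.act he
  have j2 : (8 * 2 ^ n : ℤ) ∣ l * j + j - 0 := h.inj.1 (mul_right_cancel (b := σ) (by
    rw [zpow_add, zpow_mul, ← cz eρ, mul_assoc, ← ej, conj_mul, ← ej]
    calc _ = e * e * σ * (e * e)⁻¹ := by group
      _ = _ := by rw [e2]; group))
  obtain ⟨j, rfl⟩ : Even j := Int.not_odd_iff_even.1 fun ⟨i, hi⟩ => nm c (by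
    have := j2.sub (Dvd.intro (i + t * j) rfl)
    rwa [show l * j + j - 0 - 8 * 2 ^ n * (i + t * j) = (4 * 2 ^ n : ℤ) by rw [el, hi]; ring] at this)
  have fσ : e * (ρ ^ (-j * (2 * 2 ^ n - 1)) * σ) * e⁻¹ = ρ ^ (-j * (2 * 2 ^ n - 1)) * σ := by
    rw [← conj_mul, ej, cz eρ, ← zpow_mul, ← mul_assoc, ← zpow_add, mul_left_inj, h.inj]
    exact ⟨j - j * 2 ^ n - t * j * (2 * 2 ^ n - 1), by rw [el]; ring⟩
  have m1 := hg _ ⟨h.le (mul_mem (zpow_mem h.ρ_mem _) h.σ_mem), (cm.1 fσ).symm⟩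
  have e1 : g * z * g⁻¹ = g * (ρ ^ (-j * (2 * 2 ^ n - 1)) * σ) * g⁻¹ *
      (g * (ρ ^ (-j * (2 * 2 ^ n - 1)) * σ) * g⁻¹) := by rw [conj_mul, h.sq']
  have e3 : g * z * g⁻¹ * (g * z * g⁻¹) = 1 := by rw [conj_mul, h.zz]; group
  have h1 := sqa h m1 (e1 ▸ e3)
  have h2 := sqx c m1
  have h3 := mul_mem m1 m1
  rw [← e1] at h1 h2 h3
  rcases h1 with h1 | h1
  · exact hn (kk c h he (Or.inl (zE c h)) (cm.2 (h.zc he)) (hg e ⟨he, rfl⟩)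
      (inW c h h3 e3 (fun h4 => h.z_ne (by simpa using h4)) h2 h1) eρ ll)
  · obtain ⟨i, k, l', e', he', ha', hx', hy', e4⟩ := bc c h3 (Or.inl h2)
    refine no3 c h he' ha' hx' hy' ?_
    rw [sub_sub, ← h.inj, ← h1, e4, ← cz (Eρ c i k) l', ← lρ c hx' hy']
    group

end Tr1

open Tr1

variable [Finite Γ]

omit [Finite Γ] in
theorem CC.fix {n : ℕ} {S : Subgroup Γ} {ρ σ x y w a : Γ} (c : CC n S ρ σ x y w a) {i j : ℤ}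
    (h : a * (x ^ i * y ^ j) = x ^ i * y ^ j * a) : x ^ i * y ^ j = 1 := Tr1.fix c h

theorem Hyp.pm {n : ℕ} {S R T : Subgroup Γ} {ρ σ z x y w a : Γ} (h : Hyp n S R T ρ σ z)
    (c : CC n S ρ σ x y w a) {e : Γ} (he : e ∈ S) (ha : a * e = e * a) {l : ℤ}
    (hx : e * x * e⁻¹ = x ^ l) (hy : e * y * e⁻¹ = y ^ l) :
    e = 1 ∨ (e * x * e⁻¹ = x⁻¹ ∧ e * y * e⁻¹ = y⁻¹) := by
  have ord : ∀ {e : Γ} {l : ℤ}, e * e = 1 → e * x * e⁻¹ = x ^ l → (8 * 2 ^ n : ℤ) ∣ l * l - 1 :=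
    fun {e l} e2 hx => ((inj c (j := 0) (l := 0)).1 (by
      rw [zpow_mul, ← cz hx, ← hx]
      calc _ = e * e * x * (e * e)⁻¹ := by group
        _ = _ := by rw [e2]; group)).1
  have e2 : e * e = 1 := by
    by_contra e1
    obtain ⟨k, k1, k2⟩ := exists_invol h.pgrp (mul_mem he he) e1
    have e3 : (e * e) ^ 2 ^ k = e ^ 2 ^ k * e ^ 2 ^ k := (Commute.refl e).mul_pow _
    rw [e3] at k1 k2
    have hx' := conj_pow_of hx (2 ^ k)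
    have hy' := conj_pow_of hy (2 ^ k)
    have m := pow_mem he (2 ^ k)
    obtain ⟨s1, s2, s3⟩ := sqD c (Commute.pow_right ha (2 ^ k)).eq hx' hy'
    rcases sq2 (odd_l c hx') (ord k2 s2) with h1 | h1
    · exact k1 (one c (mul_mem m m) s1 s2 s3 h1)
    · exact no3 c h (mul_mem m m) s1 s2 s3 h1
  rcases sq_cases (ord e2 hx) with h1 | h1 | h1 | h1
  · exact Or.inl (one c he ha hx hy h1)
  · have h2 : x ^ l * y ^ (0 : ℤ) = x ^ (-1 : ℤ) * y ^ (0 : ℤ) := (inj c).2 ⟨by simpa using h1, by simp⟩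
    have h3 : x ^ (0 : ℤ) * y ^ l = x ^ (0 : ℤ) * y ^ (-1 : ℤ) := (inj c).2 ⟨by simp, by simpa using h1⟩
    simp only [zpow_zero, zpow_neg_one, mul_one, one_mul] at h2 h3
    exact Or.inr ⟨hx.trans h2, hy.trans h3⟩
  · exact absurd h1 (no3 c h he ha hx hy)
  · exact absurd h1 (no4 c h he ha hx hy)

end H93.QW
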