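import Cfsg.Agent.Lib.QW.Tr1

set_option autoImplicit false

namespace H93.QW

open Subgroup Tr1

variable {Γ : Type*} [Group Γ]

namespace Tr2

variable {n : ℕ} {S : Subgroup Γ} {ρ σ x y w a d : Γ} (c : CC n S ρ σ x y w a)
  (dx : d * x * d⁻¹ = x ^ (-1 : ℤ)) (dy : d * y * d⁻¹ = y ^ (-1 : ℤ))
include c dx dy

theorem dE (i j : ℤ) : d * (x ^ i * y ^ j) = x ^ (-i) * y ^ (-j) * d := by
  rw [← mul_inv_eq_iff_eq_mul, lE c dx dy]; simp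

theorem exQ (dd : d * d = 1) :
    ∃ Q : Subgroup Γ, ∀ u, u ∈ Q ↔ ∃ k l : ℤ, u = x ^ k * y ^ l ∨ u = x ^ k * y ^ l * d := by
  have di : d⁻¹ = d := inv_eq_of_mul_eq_one_right dd
  refine ⟨{ carrier := {u | ∃ k l : ℤ, u = x ^ k * y ^ l ∨ u = x ^ k * y ^ l * d}
            one_mem' := ⟨0, 0, Or.inl (by simp)⟩
            mul_mem' := ?_
            inv_mem' := ?_ }, fun _ => Iff.rfl⟩
  · rintro _ _ ⟨k, l, rfl | rfl⟩ ⟨p, r, rfl | rfl⟩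
    · exact ⟨_, _, Or.inl (mul c _ _ _ _)⟩
    · exact ⟨_, _, Or.inr (by rw [← mul_assoc, mul c])⟩
    · exact ⟨_, _, Or.inr (by rw [mul_assoc, dE c dx dy, ← mul_assoc, mul c])⟩
    · exact ⟨_, _, Or.inl (by
        rw [mul_assoc, ← mul_assoc d, dE c dx dy, mul_assoc _ d, dd, mul_one, mul c])⟩
  · rintro _ ⟨k, l, rfl | rfl⟩
    · exact ⟨_, _, Or.inl (inv c _ _)⟩
    · exact ⟨_, _, Or.inr (by rw [mul_inv_rev, di, inv c, dE c dx dy])⟩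

end Tr2

open Tr2

variable [Finite Γ]

theorem Hyp.gm {n : ℕ} {S R T : Subgroup Γ} {ρ σ z x y w a : Γ} (h : Hyp n S R T ρ σ z)
    (c : CC n S ρ σ x y w a) :
    (∀ s ∈ S, ∃ i j : ℤ, s = x ^ i * y ^ j ∨ s = x ^ i * y ^ j * w) ∨
      ∃ d b, GM n S x y w d ∧ b * x * b⁻¹ = y⁻¹ ∧ b * y * b⁻¹ = x * y⁻¹ ∧ b * d = d * b := by
  by_cases hD : ∃ d ∈ S, a * d = d * a ∧ d * x * d⁻¹ = x⁻¹ ∧ d * y * d⁻¹ = y⁻¹
  swap
  · refine Or.inl fun s hs => ?_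
    obtain ⟨i, j, l, e, he, ha, hx, hy, h1⟩ := c.dec s hs
    obtain rfl := (h.pm c he ha hx hy).resolve_right fun h2 => hD ⟨e, he, ha, h2⟩
    exact ⟨i, j, by simpa using h1⟩
  obtain ⟨d, hd, ad, dx', dy'⟩ := hD
  have dx := dx'.trans (zpow_neg_one x).symm
  have dy := dy'.trans (zpow_neg_one y).symm
  have dd : d * d = 1 := by
    obtain ⟨s1, s2, s3⟩ := sqD c ad dx dy
    exact one c (mul_mem hd hd) s1 s2 s3 (by simp)
  have cen : ∀ e ∈ S, e * x * e⁻¹ = x⁻¹ → e * y * e⁻¹ = y⁻¹ → ∃ i j : ℤ, e * d = x ^ i * y ^ j :=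
    fun e he hx hy => c.cen _ (mul_mem he hd)
      (cm.1 (by
        calc _ = e * (d * x * d⁻¹) * e⁻¹ := by group
          _ = _ := by rw [dx', ← conj_inv, hx, inv_inv]))
      (cm.1 (by
        calc _ = e * (d * y * d⁻¹) * e⁻¹ := by group
          _ = _ := by rw [dy', ← conj_inv, hy, inv_inv]))
  have cd : ∀ {e u : Γ}, e * d = u → e = u * d := fun e => by rw [← e, mul_assoc, dd, mul_one]
  have dec : ∀ s ∈ S, ∃ i j : ℤ, ∃ e, (e = 1 ∨ e = d) ∧ (s = x ^ i * y ^ j * e ∨ s = x ^ i * y ^ j * e * w) :=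
    fun s hs => by
      obtain ⟨i, j, l, e, he, ha, hx, hy, h1⟩ := c.dec s hs
      refine ⟨i, j, e, (h.pm c he ha hx hy).imp_right fun h2 => ?_, h1⟩
      obtain ⟨p, r, h3⟩ := cen e he h2.1 h2.2
      rw [cd h3, c.fix (by rw [← h3, ← mul_assoc, ha, mul_assoc, ad, mul_assoc]), one_mul]
  have wi : w⁻¹ = w := inv_eq_of_mul_eq_one_right c.ww
  have wy : w * y * w⁻¹ = x := by simpa using wE c 0 1
  obtain ⟨i, j, hw⟩ := cen (w * d * w⁻¹) (mul_mem (mul_mem c.w_mem hd) (inv_mem c.w_mem))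
    (by
      calc _ = w * (d * (w⁻¹ * x * w) * d⁻¹) * w⁻¹ := by group
        _ = _ := by rw [show w⁻¹ * x * w = y by rw [← c.wx, wi], dy', ← conj_inv, wy])
    (by
      calc _ = w * (d * (w⁻¹ * y * w) * d⁻¹) * w⁻¹ := by group
        _ = _ := by rw [show w⁻¹ * y * w = x by rw [← wy, wi], dx', ← conj_inv, c.wx])
  replace hw := cd hw
  have ij : x ^ (j + i) * y ^ (i + j) = 1 := mul_right_cancel (b := d) (by
    rw [← mul c, mul_assoc, ← hw, ← wE c i j, conj_mul, ← hw]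
    calc _ = w * w * d * (w * w)⁻¹ := by group
      _ = _ := by rw [c.ww]; group)
  rcases Int.even_or_odd' i with ⟨l, rfl | rfl⟩
  · have e0 : x ^ l = x ^ l * y ^ (0 : ℤ) := by simp
    have e1 : x ^ l * d * (x ^ l)⁻¹ = x ^ (2 * l) * y ^ (0 : ℤ) * d := by
      rw [e0, inv c, mul_assoc, dE c dx dy, ← mul_assoc, mul c]
      congr 3 <;> ring
    have xx : (x ^ l)⁻¹ * x * x ^ l = x := by group
    have xy : ∀ k : ℤ, x ^ k * y * (x ^ k)⁻¹ = y := fun k => by simpa using ecm c k 0 0 1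
    have xy' : (x ^ l)⁻¹ * y * x ^ l = y := by simpa using xy (-l)
    have wd : w * (x ^ l * d * (x ^ l)⁻¹) = x ^ l * d * (x ^ l)⁻¹ * w := by
      rw [← cm, e1, ← conj_mul, hw, wE c, ← mul_assoc, mul c, mul_left_inj, inj c]
      exact ⟨by simp, by simpa using ((c.ord _ _).1 ij).2⟩
    have e2 : ∀ p r : ℤ, x ^ p * y ^ r * d = x ^ (p - 2 * l) * y ^ r * (x ^ l * d * (x ^ l)⁻¹) :=
      fun p r => by rw [e1, ← mul_assoc, mul c]; simp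
    have md : x ^ l * d * (x ^ l)⁻¹ ∈ S := Cj.of_mem (zpow_mem c.x_mem l) d hd
    refine Or.inr ⟨x ^ l * d * (x ^ l)⁻¹, x ^ l * a * (x ^ l)⁻¹,
      ⟨⟨c.ord, c.comm, c.ww, by rw [conj_mul, dd]; group, wd, c.wx, ?_, ?_⟩, fun g => ⟨fun hg => ?_, ?_⟩⟩,
      ?_, ?_, by rw [conj_mul, conj_mul, ad]⟩
    · calc _ = x ^ l * (d * ((x ^ l)⁻¹ * x * x ^ l) * d⁻¹) * (x ^ l)⁻¹ := by group
        _ = _ := by rw [xx, dx']; group
    · calc _ = x ^ l * (d * ((x ^ l)⁻¹ * y * x ^ l) * d⁻¹) * (x ^ l)⁻¹ := by group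
        _ = _ := by rw [xy', dy', ← conj_inv, xy]
    · obtain ⟨p, r, e, rfl | rfl, rfl | rfl⟩ := dec g hg
      · exact ⟨p, r, Or.inl (mul_one _)⟩
      · exact ⟨p, r, Or.inr (Or.inl (by rw [mul_one]))⟩
      · exact ⟨_, r, Or.inr (Or.inr (Or.inl (e2 p r)))⟩
      · exact ⟨_, r, Or.inr (Or.inr (Or.inr (by rw [e2, wd, mul_assoc])))⟩
    · rintro ⟨p, r, rfl | rfl | rfl | rfl⟩
      exacts [mem c p r, mul_mem (mem c p r) c.w_mem, mul_mem (mem c p r) md,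
        mul_mem (mem c p r) (mul_mem c.w_mem md)]
    · calc _ = x ^ l * (a * ((x ^ l)⁻¹ * x * x ^ l) * a⁻¹) * (x ^ l)⁻¹ := by group
        _ = _ := by rw [xx, c.ax, ← conj_inv, xy]
    · calc _ = x ^ l * (a * ((x ^ l)⁻¹ * y * x ^ l) * a⁻¹) * (x ^ l)⁻¹ := by group
        _ = _ := by rw [xy', c.ay, ← conj_mul, ← conj_inv, xy]; group
  exfalso
  obtain ⟨Q, hQ⟩ := exQ c dx dy dd
  obtain ⟨j, rfl⟩ : Odd j := by
    obtain ⟨k, hk⟩ := ((c.ord _ _).1 ij).2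
    rw [mul_assoc] at hk
    exact ⟨4 * (2 ^ n * k) - l - 1, by omega⟩
  have wd : ∀ p r : ℤ, w * (x ^ p * y ^ r * d) * w⁻¹ = x ^ (r + (2 * l + 1)) * y ^ (p + (2 * j + 1)) * d :=
    fun p r => by rw [← conj_mul, hw, wE c, ← mul_assoc, mul c]
  have adE : ∀ p r : ℤ, a * (x ^ p * y ^ r * d) * a⁻¹ = x ^ r * y ^ (-p - r) * d :=
    fun p r => by rw [← conj_mul, aE c, cm.2 ad]
  have wQ : Cj w Q Q := fun u hu => by
    obtain ⟨p, r, rfl | rfl⟩ := (hQ u).1 hu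
    exacts [(hQ _).2 ⟨_, _, Or.inl (wE c p r)⟩, (hQ _).2 ⟨_, _, Or.inr (wd p r)⟩]
  have aQ : Cj a Q Q := fun u hu => by
    obtain ⟨p, r, rfl | rfl⟩ := (hQ u).1 hu
    exacts [(hQ _).2 ⟨_, _, Or.inl (aE c p r)⟩, (hQ _).2 ⟨_, _, Or.inr (adE p r)⟩]
  have dQ : d ∈ Q := (hQ _).2 ⟨0, 0, Or.inr (by simp)⟩
  have eQ : ∀ p r : ℤ, ∀ e, e = 1 ∨ e = d → x ^ p * y ^ r * e ∈ Q := by
    rintro p r e (rfl | rfl)
    exacts [(hQ _).2 ⟨p, r, Or.inl (mul_one _)⟩, (hQ _).2 ⟨p, r, Or.inr rfl⟩]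
  obtain ⟨k, hk, v, -, v1, v2, s, hs, e⟩ := h.sat.syl Q (fun u hu => by
      obtain ⟨p, r, rfl | rfl⟩ := (hQ u).1 hu
      exacts [mem c p r, mul_mem (mem c p r) hd]) (fun s hs => by
      obtain ⟨p, r, e, he, rfl | rfl⟩ := dec s hs
      exacts [Cj.of_mem (eQ p r e he), wQ.mul (Cj.of_mem (eQ p r e he))]) (w * a) trivial (aQ.mul wQ)
  have g1 : ∀ p r : ℤ, w * a * (x ^ p * y ^ r * d) * (w * a)⁻¹ =
      x ^ (-p - r + (2 * l + 1)) * y ^ (r + (2 * j + 1)) * d := fun p r => by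
    rw [← wd, ← adE]; group
  have g2 : ∀ t : ℕ, ∃ p r : ℤ, Even (p + t) ∧
      (w * a) ^ (2 * t) * d * ((w * a) ^ (2 * t))⁻¹ = x ^ p * y ^ (2 * r) * d := fun t => by
    induction t with
    | zero => exact ⟨0, 0, by simp, by simp⟩
    | succ t ih =>
      obtain ⟨p, r, ⟨u, hu⟩, ih⟩ := ih
      refine ⟨-(-p - 2 * r + (2 * l + 1)) - (2 * r + (2 * j + 1)) + (2 * l + 1), r + 2 * j + 1,
        ⟨u - j, by push_cast; linarith⟩, ?_⟩
      rw [show 2 * (r + 2 * j + 1) = 2 * r + (2 * j + 1) + (2 * j + 1) by ring, ← g1, ← g1, ← ih,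
        mul_add, mul_one, pow_succ', pow_succ']
      generalize (w * a) ^ (2 * t) = G
      group
  obtain ⟨p, r, hp, g3⟩ := g2 k
  obtain ⟨b1, b2, hb⟩ : ∃ b1 b2 : ℤ, s * s = x ^ b1 * y ^ b2 := by
    obtain ⟨_, _, l', e', he', ha', hx', hy', h1⟩ := act c hs
    have k1 : ∀ p r : ℤ, s * s * (x ^ p * y ^ r) * (s * s)⁻¹ = x ^ (l' * l' * p) * y ^ (l' * l' * r) :=
      fun p r => by
        have e1 : s * s * (x ^ p * y ^ r) * (s * s)⁻¹ = s * (s * (x ^ p * y ^ r) * s⁻¹) * s⁻¹ := by group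
        rcases h1 with ⟨-, h1⟩ | ⟨-, h1⟩ <;> rw [e1, h1, h1, mul_assoc l', mul_assoc l']
    obtain ⟨-, s2, s3⟩ := sqD c ha' hx' hy'
    have k2 : e' * e' = 1 := by
      rcases h.pm c he' ha' hx' hy' with h2 | h2
      · rw [h2, mul_one]
      · obtain ⟨s1, s2, s3⟩ := sqD c ha' (h2.1.trans (zpow_neg_one x).symm)
          (h2.2.trans (zpow_neg_one y).symm)
        exact one c (mul_mem he' he') s1 s2 s3 (by simp)
    rw [k2, one_mul, inv_one, mul_one] at s2 s3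
    exact c.cen _ (mul_mem hs hs) (cm.1 (by simpa [← s2] using k1 1 0)) (cm.1 (by simpa [← s3] using k1 0 1))
  have e3 : x ^ p * y ^ (2 * r) * d = v⁻¹ * (x ^ b1 * y ^ b2 * (v * d * v⁻¹) * (x ^ b1 * y ^ b2)⁻¹) * v := by
    have := e _ (((aQ.mul wQ).pow k) d dQ)
    rw [← g3, ← hb, two_mul, pow_add]
    calc _ = (w * a) ^ k * ((w * a) ^ k * d * ((w * a) ^ k)⁻¹) * ((w * a) ^ k)⁻¹ := by group
      _ = _ := by rw [this, e d dQ]; group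
  have e4 : ∃ u ∈ Q, x ^ p * y ^ (2 * r) = u * u := by
    obtain ⟨p', r', h1 | h1⟩ := (hQ _).1 (v1 d dQ)
    · refine ⟨1, one_mem _, mul_right_cancel (b := d) ?_⟩
      rw [e3, h1, ecm c, ← h1]; group
    · refine ⟨_, v2 _ (eQ b1 b2 1 (Or.inl rfl)), mul_right_cancel (b := d) ?_⟩
      have : x ^ b1 * y ^ b2 * (v * d * v⁻¹) * (x ^ b1 * y ^ b2)⁻¹ =
          x ^ b1 * y ^ b2 * (x ^ b1 * y ^ b2) * (v * d * v⁻¹) := by
        rw [h1, inv c, mul_assoc, mul_assoc _ d, dE c dx dy, ← mul_assoc, ← mul_assoc, mul c, mul c,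
          mul c, ← mul_assoc, mul c]
        congr 3 <;> ring
      rw [e3, this]; group
  obtain ⟨u, hu, e5⟩ := e4
  obtain ⟨k, rfl⟩ := hk
  obtain ⟨t, ht⟩ := hp
  push_cast at ht
  obtain ⟨p', r', rfl | rfl⟩ := (hQ u).1 hu
  · obtain ⟨⟨m, hm⟩, -⟩ := (inj c).1 (e5.trans (mul c _ _ _ _))
    rw [mul_assoc] at hm
    omega
  · rw [mul_assoc, ← mul_assoc d, dE c dx dy, mul_assoc _ d, dd, mul_one, mul c] at e5
    obtain ⟨⟨m, hm⟩, -⟩ := (inj c).1 e5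
    rw [mul_assoc] at hm
    omega

end H93.QW
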