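import Cfsg.Agent.Lib.QW.Rad
import Cfsg.Agent.Lib.QW.GMb

/-! # Weakly closed quaternion subgroups: the fusion in the centraliser of `z` is determined -/

set_option autoImplicit false

namespace H93.QW

open Subgroup

variable {Γ Γ' : Type*} [Group Γ] [Finite Γ] [Group Γ'] {n : ℕ}

omit [Finite Γ] in
theorem u1_map {S R T : Subgroup Γ} {ρ σ z : Γ} (h : QS n S R T ρ σ z) {S' R' T' : Subgroup Γ'}
    {ρ' σ' z' : Γ'} (h' : QS n S' R' T' ρ' σ' z') {f : Γ → Γ'} (hf : Mul S f) (e1 : f ρ = ρ')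
    (e2 : f σ = σ') {r : Γ} (hr : r ∈ R) : f r ∈ R' := by
  have m := h.le h.ρ_mem
  obtain ⟨i, rfl | rfl⟩ := (h.mem_R r).1 hr
  · exact (h'.mem_R _).2 ⟨i, Or.inl (by rw [hf.zpow m, e1])⟩
  · exact (h'.mem_R _).2 ⟨i, Or.inr (by rw [hf _ (zpow_mem m i) _ (h.le h.σ_mem), hf.zpow m, e1, e2])⟩

omit [Finite Γ] in
theorem u1_JI {S R T : Subgroup Γ} {ρ σ z : Γ} (h : QS n S R T ρ σ z) (k l : ℤ) :
    ρ ^ k * σ * ρ ^ l * (ρ ^ k * σ)⁻¹ = (ρ ^ l)⁻¹ := by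
  rw [mul_assoc (ρ ^ k), h.σ_mul]
  group

omit [Finite Γ] in
theorem u1_gamma {S R T : Subgroup Γ} {ρ σ η τ z x : Γ} (h : DQ n S R T ρ σ η τ z x) (g1 : GR n ρ σ η τ)
    (k : ℤ) : ∃ γ : Γ, (∀ t ∈ T, γ * t = t * γ) ∧ γ * ρ ^ (2 * 2 ^ n : ℤ) * γ⁻¹ = ρ ^ k * σ ∧
      γ * (ρ ^ k * σ) * γ⁻¹ = ρ ^ (2 * 2 ^ n : ℤ) * (ρ ^ k * σ) ∧
      γ * (ρ ^ (2 * 2 ^ n : ℤ) * (ρ ^ k * σ)) * γ⁻¹ = ρ ^ (2 * 2 ^ n : ℤ) := by
  obtain ⟨g, a1, a2, a3, a4⟩ := g1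
  have hT : T ≤ cS ⊤ g := h.q'.le_iff.2 ⟨mem_cS_top.2 a3.symm, mem_cS_top.2 a4.symm⟩
  have b1 : x ^ k * ρ ^ (2 * 2 ^ n : ℤ) * (x ^ k)⁻¹ = ρ ^ (2 * 2 ^ n : ℤ) := by
    rw [(Commute.zpow_zpow h.xρ k _).eq, mul_inv_cancel_right]
  have b2 : x ^ k * (ρ ^ k * σ) * (x ^ k)⁻¹ = σ := by rw [h.x_conj, sub_self, zpow_zero, one_mul]
  have hJ := h.q.sq' k
  have hI := h.q.ii
  have hc := u1_JI h.q k (2 * 2 ^ n)
  have hn := h.q.T_norm (zpow_mem h.x_mem k)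
  generalize ρ ^ (2 * 2 ^ n : ℤ) = I at *
  generalize ρ ^ k * σ = J at *
  generalize x ^ k = y at *
  have c1 : y⁻¹ * g * y * I * (y⁻¹ * g * y)⁻¹ = J := by
    calc _ = y⁻¹ * (g * (y * I * y⁻¹) * g⁻¹) * y := by group
      _ = J := by rw [b1, a1, ← b2]; group
  have c2 : y⁻¹ * g * y * J * (y⁻¹ * g * y)⁻¹ = I * J := by
    calc _ = y⁻¹ * (g * (y * J * y⁻¹) * g⁻¹) * y := by group
      _ = y⁻¹ * (y * I * y⁻¹ * (y * J * y⁻¹)) * y := by rw [b2, a2, b1]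
      _ = I * J := by group
  refine ⟨y⁻¹ * g * y, fun t ht => ?_, c1, c2, ?_⟩
  · calc _ = y⁻¹ * (g * (y * t * y⁻¹)) * y := by group
      _ = _ := by rw [← mem_cS_top.1 (hT (hn t ht))]; group
  · rw [← conj_mul, c1, c2]
    calc J * (I * J) = J * I * J⁻¹ * (J * J) := by group
      _ = I := by rw [hc, hJ, ← hI, inv_mul_cancel_left]

theorem u1_half {S R T : Subgroup Γ} {ρ σ z : Γ} (h : QS n S R T ρ σ z)
    {S' R' T' : Subgroup Γ'} {ρ' σ' η' τ' z' x' : Γ'}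
    (h' : DQ n S' R' T' ρ' σ' η' τ' z' x') (g1 : GR n ρ' σ' η' τ')
    {f : Γ → Γ'} (hf : Mul S f) (e1 : f ρ = ρ') (e2 : f σ = σ') {Y : Subgroup Γ} {g : Γ}
    (ho : Odd (orderOf g)) (hn : Cj g Y Y) (hY : (∀ r ∈ Y, g * r = r * g) ∨ ∃ k, Y = Q8 n ρ σ k) :
    ∃ c : Γ', (∀ t ∈ T', c * t = t * c) ∧ ∀ r ∈ Y, f (g * r * g⁻¹) = c * f r * c⁻¹ := by
  rcases hY with hY | ⟨k, rfl⟩
  · exact ⟨1, by simp, fun r hr => by simp [hY r hr]⟩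
  have hS : Q8 n ρ σ k ≤ S := (h.Q8_le k).trans h.le
  have m := h.le h.ρ_mem
  have mI : ρ ^ (2 * 2 ^ n : ℤ) ∈ S := zpow_mem m _
  have mJ : ρ ^ k * σ ∈ S := mul_mem (zpow_mem m _) (h.le h.σ_mem)
  have fI : f (ρ ^ (2 * 2 ^ n : ℤ)) = ρ' ^ (2 * 2 ^ n : ℤ) := by rw [hf.zpow m, e1]
  have fJ : f (ρ ^ k * σ) = ρ' ^ k * σ' := by
    rw [hf _ (zpow_mem m k) _ (h.le h.σ_mem), hf.zpow m, e1, e2]
  suffices H : ∃ c : Γ', (∀ t ∈ T', c * t = t * c) ∧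
      f (g * ρ ^ (2 * 2 ^ n : ℤ) * g⁻¹) = c * ρ' ^ (2 * 2 ^ n : ℤ) * c⁻¹ ∧
      f (g * (ρ ^ k * σ) * g⁻¹) = c * (ρ' ^ k * σ') * c⁻¹ by
    obtain ⟨c, h1, h2, h3⟩ := H
    refine ⟨c, h1, fun r hr => ?_⟩
    induction hr using closure_induction with
    | mem r hr =>
      rcases hr with rfl | rfl
      · rw [h2, fI]
      · rw [h3, fJ]
    | one => simp [hf.one]
    | mul r s hr hs ihr ihs =>
      rw [← conj_mul, hf _ (hS (hn r hr)) _ (hS (hn s hs)), ihr, ihs, hf _ (hS hr) _ (hS hs), conj_mul]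
    | inv r hr ihr => rw [← conj_inv, hf.inv (hS (hn r hr)), ihr, hf.inv (hS hr), conj_inv]
  obtain ⟨γ, c0, c1, c2, c3⟩ := u1_gamma h' g1 k
  rcases q8_odd h.ii (h.sq' k) h.z_ne (u1_JI h k _) ho hn with ⟨a1, a2⟩ | ⟨r, hr, a⟩
  · exact ⟨1, by simp, by rw [a1, mul_inv_cancel_right, fI]; simp,
      by rw [a2, mul_inv_cancel_right, fJ]; simp⟩
  have hr' := u1_map h h'.q hf e1 e2 (h.Q8_le k hr)
  have mr := hS hr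
  rcases a with ⟨a1, a2⟩ | ⟨a1, a2⟩
  · refine ⟨f r * γ, fun t ht => by
      rw [mul_assoc, c0 t ht, ← mul_assoc, ← h'.q.T_comm ht hr', mul_assoc], ?_, ?_⟩
    · rw [a1, hf.conj mr mJ, fJ, ← c1]; group
    · rw [a2, hf.conj mr (mul_mem mI mJ), hf _ mI _ mJ, fI, fJ, ← c2]; group
  · refine ⟨f r * γ⁻¹, fun t ht => by
      rw [mul_assoc, (Commute.inv_left (c0 t ht)).eq, ← mul_assoc, ← h'.q.T_comm ht hr', mul_assoc], ?_, ?_⟩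
    · rw [a1, hf.conj mr (mul_mem mI mJ), hf _ mI _ mJ, fI, fJ]
      nth_rw 2 [← c3]
      group
    · rw [a2, hf.conj mr mI, fI, ← c1]; group

theorem DQ.re {S R T : Subgroup Γ} {ρ σ η τ z x : Γ} (h : DQ n S R T ρ σ η τ z x)
    (hz : Sat (cS ⊤ z) S) (hsc : SC (cS ⊤ z) S R) {S' R' T' : Subgroup Γ'} {ρ' σ' η' τ' z' x' : Γ'}
    (h' : DQ n S' R' T' ρ' σ' η' τ' z' x') (g1 : GR n ρ' σ' η' τ') (g2 : GR n η' τ' ρ' σ')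
    {f : Γ → Γ'} (hf : Mul S f) (e1 : f ρ = ρ') (e2 : f σ = σ') (e3 : f η = η') (e4 : f τ = τ') :
    ∀ P ≤ S, ∀ g ∈ cS ⊤ z, Cj g P S → Re f P g := by
  refine hz.alp (Re f) (fun P Q g hP ⟨c, hc⟩ => ⟨c, fun u hu => hc u (hP hu)⟩)
    (fun P Q g k _ _ h1 _ ⟨c, hc⟩ ⟨d, hd⟩ => ⟨d * c, fun u hu => ?_⟩)
    (fun P g k e ⟨c, hc⟩ => ⟨c, fun u hu => by rw [← e u hu, hc u hu]⟩)
    (fun s hs => ⟨f s, fun u hu => hf.conj hs hu⟩) fun P hP g hg hn ho => ?_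
  · have := hd _ (h1 u hu)
    rw [hc u hu] at this
    simpa only [mul_inv_rev, mul_assoc] using this
  obtain ⟨n1, n2, a1, a2, a3 | a3⟩ := h.rad hsc hP hg hn ho
  · exact ⟨1, fun u hu => by simp [a3 u hu]⟩
  obtain ⟨c, c1, c2⟩ := u1_half h.q h' g1 hf e1 e2 ho n1 a1
  obtain ⟨d, d1, d2⟩ := u1_half h.q' h'.symm g2 hf e3 e4 ho n2 a2
  refine ⟨c * d, fun u hu => ?_⟩
  obtain ⟨r, hr, t, ht, rfl⟩ := a3 u hu
  have b1 := d1 _ (u1_map h.q h'.q hf e1 e2 hr.2)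
  have b2 := c1 _ (u1_map h.q' h'.q' hf e3 e4 (n2 t ht).2)
  rw [← conj_mul, hf _ (hP.le (n1 r hr).1) _ (hP.le (n2 t ht).1), hf _ (hP.le hr.1) _ (hP.le ht.1), c2 r hr]
  calc _ = c * f r * c⁻¹ * (c * f (g * t * g⁻¹) * c⁻¹) := by rw [b2, mul_inv_cancel_right]
    _ = c * (f r * d) * f t * (c * d)⁻¹ := by rw [d2 t ht]; group
    _ = _ := by rw [← b1]; group

end H93.QW
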