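import Cfsg.Agent.Lib.QW.U1

/-! # Weakly closed quaternion subgroups: the normal form determines the fusion -/

set_option autoImplicit false

namespace H93.QW

open Subgroup

variable {Γ Γ' : Type*} [Group Γ] [Finite Γ] [Group Γ'] {n : ℕ}

theorem u2_two {a : ℤ} (h : (8 * 2 ^ n : ℤ) ∣ a) : 4 ∣ a := Dvd.dvd.trans ⟨2 * 2 ^ n, by ring⟩ h

omit [Finite Γ] in
theorem u2_step {S R T : Subgroup Γ} {ρ σ η τ z x : Γ} (h : DQ n S R T ρ σ η τ z x) (g1 : GR n ρ σ η τ)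
    {r : Γ} (hr : r ∈ R) (e : r * r = z) : ∃ g : Γ, (∀ t ∈ T, g * t = t * g) ∧
      (g * r * g⁻¹ = ρ ^ (2 * 2 ^ n : ℤ) ∨ g * r * g⁻¹ = (ρ ^ (2 * 2 ^ n : ℤ))⁻¹) := by
  rcases h.q.four hr e with d | d | ⟨k, d⟩
  · exact ⟨1, by simp, Or.inl (by simpa using d)⟩
  · exact ⟨1, by simp, Or.inr (by simpa using d)⟩
  obtain ⟨γ, c0, c1, -⟩ := u1_gamma h g1 k
  exact ⟨γ⁻¹, fun t ht => (Commute.inv_left (c0 t ht)).eq, Or.inl (by rw [d, ← c1]; group)⟩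

omit [Finite Γ] in
theorem NF.fuse' {S : Subgroup Γ} {x y w d : Γ} (h : NF n S x y w d) {u : Γ}
    (hu : ∃ r ∈ gQ n x y w, ∃ t ∈ gQ n x y⁻¹ (w * d), u = r * t) (h2 : u * u = 1) (h1 : u ≠ 1) :
    u = gz n x y ∨ ∃ g ∈ cS ⊤ (gz n x y),
      g * u * g⁻¹ = x ^ (4 * 2 ^ n : ℤ) ∨ g * u * g⁻¹ = y ^ (4 * 2 ^ n : ℤ) := by
  have D := h.toGM.dq
  have G := h.toGM.toGM0
  obtain ⟨r, hr, t, ht, rfl⟩ := hu
  have c := D.q.T_comm ht hr
  have e : r * r * (t * t) = 1 := by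
    rw [← h2, mul_assoc, mul_assoc, ← mul_assoc r t, ← mul_assoc t r, c]
  have e' : r * r = (t * t)⁻¹ := eq_inv_of_mul_eq_one_left e
  rcases D.q.inf (mul_mem hr hr) (e' ▸ inv_mem (mul_mem ht ht)) with a | a
  · left
    have b : t * t = 1 := by rwa [a, one_mul] at e
    rcases D.q.invol hr a with a | a <;> rcases D.q'.invol ht b with b | b <;> rw [a, b] at h1 ⊢
    · exact absurd (mul_one _) h1
    · exact one_mul _
    · exact mul_one _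
    · exact absurd D.q.zz h1
  have b : t * t = gz n x y := by rw [← D.q.z_inv, ← a, e', inv_inv]
  obtain ⟨g, c1, a1⟩ := u2_step D h.gR hr a
  obtain ⟨k, c2, a2⟩ := u2_step D.symm h.gT ht b
  have mI : gρ x y ^ (2 * 2 ^ n : ℤ) ∈ gQ n x y w := zpow_mem D.q.ρ_mem _
  have key : k * g * (r * t) * (k * g)⁻¹ = g * r * g⁻¹ * (k * t * k⁻¹) := by
    have : k * (g * r * g⁻¹) = g * r * g⁻¹ * k := c2 _ (a1.elim (fun e => e ▸ mI) fun e => e ▸ inv_mem mI)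
    calc _ = k * (g * r * g⁻¹) * (g * t) * (k * g)⁻¹ := by group
      _ = _ := by rw [this, c1 t ht]; group
  refine Or.inr ⟨k * g, mem_cS_top.2 (by
    rw [mul_assoc, c1 _ D.q.z_mem_T, ← mul_assoc, c2 _ D.q.z_mem, mul_assoc]), ?_⟩
  have r1 : gρ x y = x ^ (-1 : ℤ) * y ^ (1 : ℤ) := by
    rw [gρ, zpow_neg, zpow_one, zpow_one, (Commute.inv_left G.comm).eq]
  have r2 : gρ x y⁻¹ = x ^ (-1 : ℤ) * y ^ (-1 : ℤ) := by
    rw [gρ, zpow_neg, zpow_neg, zpow_one, zpow_one, (Commute.inv_inv G.comm).eq]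
  have ex : x ^ (4 * 2 ^ n : ℤ) = x ^ (4 * 2 ^ n : ℤ) * y ^ (0 : ℤ) := by simp
  have ey : y ^ (4 * 2 ^ n : ℤ) = x ^ (0 : ℤ) * y ^ (4 * 2 ^ n : ℤ) := by simp
  rw [key, ex, ey]
  rcases a1 with a1 | a1 <;> rcases a2 with a2 | a2 <;> rw [a1, a2, r1, r2, G.zpow, G.zpow] <;>
    simp only [G.inv, G.mul, G.inj]
  · exact Or.inl ⟨⟨-1, by ring⟩, ⟨0, by ring⟩⟩
  · exact Or.inr ⟨⟨0, by ring⟩, ⟨0, by ring⟩⟩
  · exact Or.inr ⟨⟨0, by ring⟩, ⟨-1, by ring⟩⟩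
  · exact Or.inl ⟨⟨0, by ring⟩, ⟨0, by ring⟩⟩

theorem NF.fuse {S : Subgroup Γ} {x y w d : Γ} (h : NF n S x y w d) {u : Γ}
    (hu : ∃ r ∈ gQ n x y w, ∃ t ∈ gQ n x y⁻¹ (w * d), u = r * t) (h2 : u * u = 1) (h1 : u ≠ 1) :
    u = gz n x y ∨ ∃ g ∈ cS ⊤ (gz n x y),
      g * u * g⁻¹ = x ^ (4 * 2 ^ n : ℤ) ∨ g * u * g⁻¹ = y ^ (4 * 2 ^ n : ℤ) := h.fuse' hu h2 h1

/-- `u` is conjugate to `z` by an element realised in the other group -/
def U2Good (S : Subgroup Γ) (z : Γ) (f : Γ → Γ') (u : Γ) : Prop :=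
  ∃ γ, γ * u * γ⁻¹ = z ∧ Cj γ (cS S u) S ∧ Re f (cS S u) γ

omit [Finite Γ] in
theorem U2Good.step {S : Subgroup Γ} {z u γ : Γ} {f : Γ → Γ'} (h1 : Cj γ (cS S u) S)
    (h2 : Re f (cS S u) γ) (h3 : U2Good S z f (γ * u * γ⁻¹)) : U2Good S z f u := by
  obtain ⟨k, a1, a2, c, hc⟩ := h3
  obtain ⟨b, hb⟩ := h2
  refine ⟨k * γ, by rw [← a1]; group, h1.cS.mul a2, c * b, fun v hv => ?_⟩
  have := hc _ (h1.cS v hv)
  rw [hb v hv] at this
  simpa only [mul_inv_rev, mul_assoc] using this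

omit [Finite Γ] in
theorem u2_a {x y w d a : Γ} (G : GM0 n x y w d) (h1 : a * x * a⁻¹ = y⁻¹) (h2 : a * y * a⁻¹ = x * y⁻¹)
    (i j : ℤ) : a * (x ^ i * y ^ j) * a⁻¹ = x ^ j * y ^ (-i - j) := by
  have c : Commute x y := G.comm
  rw [← conj_mul, ← conj_zpow, ← conj_zpow, h1, h2, c.inv_right.mul_zpow, ← mul_assoc,
    ← (c.inv_right.zpow_zpow j i).eq, mul_assoc, ← zpow_add, inv_zpow']
  congr 2
  ring

omit [Finite Γ] in
theorem u2_f {S : Subgroup Γ} {x y w d : Γ} (G : GM n S x y w d) {f : Γ → Γ'} (hf : Mul S f) (i j : ℤ) :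
    f (x ^ i * y ^ j) = f x ^ i * f y ^ j := by
  rw [hf _ (zpow_mem G.x_mem i) _ (zpow_mem G.y_mem j), hf.zpow G.x_mem, hf.zpow G.y_mem]

theorem NF.good {S : Subgroup Γ} {x y w d : Γ} (h : NF n S x y w d)
    (hz : Sat (cS ⊤ (gz n x y)) S) {S' : Subgroup Γ'} {x' y' w' d' : Γ'} (h' : NF n S' x' y' w' d')
    {f : Γ → Γ'} (hf : Mul S f) (e1 : f x = x') (e2 : f y = y') (e3 : f w = w') (e4 : f d = d')
    (hU : ∀ P ≤ S, ∀ g ∈ cS ⊤ (gz n x y), Cj g P S → Re f P g) {u : Γ} (hu : u ∈ S) (h2 : u * u = 1)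
    (h1 : u ≠ 1) : U2Good S (gz n x y) f u := by
  have M := h.toGM
  have D := M.dq
  have G := M.toGM0
  obtain ⟨a, a1, a2, a3⟩ := h.tri
  obtain ⟨b, b1, b2, b3⟩ := h'.tri
  have ad : ∀ i j : ℤ, a * (x ^ i * y ^ j * d) * a⁻¹ = x ^ j * y ^ (-i - j) * d := fun i j => by
    rw [← conj_mul, u2_a G a1 a2, a3, mul_inv_cancel_right]
  have stepA : ∀ u, (∀ i j : ℤ, ¬ x ^ i * y ^ j * w * u = u * (x ^ i * y ^ j * w)) →
      (∀ i j : ℤ, ¬ x ^ i * y ^ j * (w * d) * u = u * (x ^ i * y ^ j * (w * d))) →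
      U2Good S (gz n x y) f (a * u * a⁻¹) → U2Good S (gz n x y) f u := fun u n1 n2 => by
    refine U2Good.step (fun v hv => ?_) ⟨b, fun v hv => ?_⟩ <;>
      obtain ⟨i, j, rfl | rfl | rfl | rfl⟩ := (M.mem v).1 hv.1 <;>
      first | exact absurd hv.2 (n1 i j) | exact absurd hv.2 (n2 i j) | skip
    · rw [u2_a G a1 a2]; exact M.e_mem _ _
    · rw [ad]; exact mul_mem (M.e_mem _ _) M.d_mem
    · rw [u2_a G a1 a2, u2_f M hf, u2_f M hf, e1, e2, u2_a h'.toGM.toGM0 b1 b2]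
    · rw [ad, hf _ (M.e_mem _ _) _ M.d_mem, hf _ (M.e_mem _ _) _ M.d_mem, u2_f M hf, u2_f M hf, e1, e2, e4,
        ← conj_mul, u2_a h'.toGM.toGM0 b1 b2, b3, mul_inv_cancel_right]
  have p0 : (0 : ℤ) < 4 * 2 ^ n := by positivity
  have nd : ¬ (8 * 2 ^ n : ℤ) ∣ 4 * 2 ^ n := QS.not_dvd p0 le_rfl
  have stepB : ∀ i j : ℤ, ¬ (8 * 2 ^ n : ℤ) ∣ j - i → ¬ (8 * 2 ^ n : ℤ) ∣ -j - i →
      U2Good S (gz n x y) f (x ^ j * y ^ (-i - j)) → U2Good S (gz n x y) f (x ^ i * y ^ j) :=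
    fun i j n1 n2 H => by
      refine stepA _ (fun k l e => n1 ?_) (fun k l e => n2 ?_) (u2_a G a1 a2 i j ▸ H)
      · rw [mul_assoc _ w, G.w_mul, ← mul_assoc, ← mul_assoc _ _ w, mul_left_inj, G.mul, G.mul, G.inj] at e
        exact (show k + j - (i + k) = j - i by ring) ▸ e.1
      · rw [mul_assoc _ (w * d), G.wd_mul, ← mul_assoc, ← mul_assoc _ _ (w * d), mul_left_inj, G.mul, G.mul,
          G.inj] at e
        exact (show k + -j - (i + k) = -j - i by ring) ▸ e.1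
  have gz0 : U2Good S (gz n x y) f (gz n x y) :=
    ⟨1, by simp, fun v hv => by simpa using hv.1, 1, fun v hv => by simp⟩
  have gy : U2Good S (gz n x y) f (y ^ (4 * 2 ^ n : ℤ)) := by
    have := stepB 0 (4 * 2 ^ n) (by simpa using nd) (by simpa using nd) (by
      rwa [(G.inj (i := 4 * 2 ^ n) (j := -0 - 4 * 2 ^ n) (k := 4 * 2 ^ n) (l := 4 * 2 ^ n)).2
        ⟨⟨0, by ring⟩, ⟨-1, by ring⟩⟩, ← G.gz_eq])
    simpa using this
  have gx : U2Good S (gz n x y) f (x ^ (4 * 2 ^ n : ℤ)) := by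
    have := stepB (4 * 2 ^ n) 0 (by simpa using nd) (by simpa using nd) (by
      rw [(G.inj (i := 0) (j := -(4 * 2 ^ n) - 0) (k := 0) (l := 4 * 2 ^ n)).2
        ⟨⟨0, by ring⟩, ⟨-1, by ring⟩⟩]
      simpa using gy)
    simpa using this
  obtain ⟨K, hK, mK⟩ := D.q.exists_RT
  have inK : ∀ u ∈ K, u * u = 1 → u ≠ 1 → U2Good S (gz n x y) f u := fun u hu h2 h1 => by
    rcases h.fuse ((mK u).1 hu) h2 h1 with e | ⟨g, hg, e⟩
    · exact e ▸ gz0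
    obtain ⟨s, hs, e⟩ : ∃ s ∈ S, g * u * g⁻¹ = s * s := by
      rcases e with e | e
      · exact ⟨x ^ (2 * 2 ^ n : ℤ), zpow_mem M.x_mem _, by rw [e, ← zpow_add]; congr 1; ring⟩
      · exact ⟨y ^ (2 * 2 ^ n : ℤ), zpow_mem M.y_mem _, by rw [e, ← zpow_add]; congr 1; ring⟩
    obtain ⟨c, hc, k, hk, e', c1, c2⟩ := hz.ext2 (hK hu) hg (e ▸ mul_mem hs hs)
    refine U2Good.step c1 (hU _ (cS_le _ _) c hc c1) ?_
    obtain ⟨i, j, e''⟩ := M.sq (c2 s ⟨hs, by rw [e, mul_assoc]⟩)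
    rw [conj_mul, ← e, ← e'] at e''
    rcases G.invB (i := i) (j := j) (by rw [← e'', conj_mul, h2, mul_one, mul_inv_cancel]) with t | t | t | t <;>
      rw [← e''] at t
    · exact absurd (by simpa using t) h1
    · exact t ▸ gz0
    · exact t ▸ gx
    · exact t ▸ gy
  have kR : gQ n x y w ≤ K := fun r hr => (mK r).2 ⟨r, hr, 1, one_mem _, (mul_one _).symm⟩
  have kT : gQ n x y⁻¹ (w * d) ≤ K := fun r hr => (mK r).2 ⟨1, one_mem _, r, hr, (one_mul _).symm⟩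
  have kE : ∀ i j : ℤ, 2 ∣ i + j → x ^ i * y ^ j ∈ K := fun i j ⟨s, hs⟩ => by
    have := mul_mem (kR (M.mem_gQ.2 ⟨j - s, Or.inl rfl⟩)) (kT (M.flip.mem_gQ.2 ⟨-s, Or.inl rfl⟩))
    rwa [inv_zpow', G.mul, show -(j - s) + - -s = i by omega, show j - s + - -s = j by omega] at this
  have ev : (2 : ℤ) ∣ 4 * 2 ^ n := ⟨2 * 2 ^ n, by ring⟩
  have kw : w ∈ K := (mul_mem_cancel_left (kE _ _ (by simpa using ev))).1
    (kR (M.mem_gQ.2 ⟨0, Or.inr rfl⟩))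
  have kwd : w * d ∈ K := by
    have := kT (M.flip.mem_gQ.2 ⟨0, Or.inr rfl⟩)
    rw [inv_zpow'] at this
    exact (mul_mem_cancel_left (kE _ _ (by simpa using ev))).1 this
  have kd : d ∈ K := (mul_mem_cancel_left kw).1 kwd
  have gd : ∀ i j : ℤ, 2 ∣ i + j → U2Good S (gz n x y) f (x ^ i * y ^ j * d) := fun i j e =>
    inK _ (mul_mem (kE i j e) kd) (by
      rw [mul_assoc, ← mul_assoc d, G.d_mul, mul_assoc _ d d, G.dd, mul_one, ← G.inv, mul_inv_cancel])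
      fun t => G.d_ne _ _ ((eq_inv_of_mul_eq_one_right t).trans (G.inv _ _))
  have stepD : ∀ i j : ℤ, ¬ 2 ∣ i + j → U2Good S (gz n x y) f (x ^ j * y ^ (-i - j) * d) →
      U2Good S (gz n x y) f (x ^ i * y ^ j * d) := fun i j n1 H => by
    refine stepA _ (fun k l e => ?_) (fun k l e => ?_) (ad i j ▸ H)
    · rw [mul_assoc _ w, ← mul_assoc w, G.w_mul, mul_assoc _ d, ← mul_assoc d, G.d_mul, mul_assoc _ w,
        mul_assoc _ d, ← G.wd, ← mul_assoc, ← mul_assoc _ _ (w * d), mul_left_inj, G.mul, G.mul, G.inj] at e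
      have := u2_two e.1
      omega
    · rw [mul_assoc _ (w * d), ← mul_assoc (w * d), G.wd_mul, mul_assoc _ d, ← mul_assoc d, G.d_mul,
        mul_assoc _ (w * d) d, mul_assoc _ d (w * d), ← mul_assoc d w d, ← G.wd, ← mul_assoc (x ^ k * y ^ l),
        ← mul_assoc (x ^ i * y ^ j),
        mul_left_inj, G.mul, G.mul, G.inj] at e
      have := u2_two e.1
      omega
  obtain ⟨i, j, rfl | rfl | rfl | rfl⟩ := (M.mem u).1 hu
  · refine inK _ (kE i j ?_) h2 h1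
    rw [G.mul, G.ord] at h2
    have := u2_two h2.1
    have := u2_two h2.2
    omega
  · refine inK _ (mul_mem (kE i j ?_) kw) h2 h1
    rw [mul_assoc, ← mul_assoc w, G.w_mul, mul_assoc _ w, G.ww, mul_one, G.mul, G.ord] at h2
    have := u2_two h2.1
    omega
  · by_cases e : 2 ∣ i + j
    · exact gd i j e
    refine stepD i j e ?_
    by_cases e' : 2 ∣ j + (-i - j)
    · exact gd _ _ e'
    exact stepD _ _ e' (gd _ _ (by omega))
  · refine inK _ (mul_mem (kE i j ?_) kwd) h2 h1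
    rw [mul_assoc, ← mul_assoc (w * d), G.wd_mul, mul_assoc _ (w * d), G.flip.ww, mul_one, G.mul, G.ord] at h2
    have := u2_two h2.1
    omega

theorem NF.re {S : Subgroup Γ} {x y w d : Γ} (h : NF n S x y w d) (hs : Sat ⊤ S)
    (hz : Sat (cS ⊤ (gz n x y)) S) {S' : Subgroup Γ'} {x' y' w' d' : Γ'} (h' : NF n S' x' y' w' d')
    {f : Γ → Γ'} (hf : Mul S f) (e1 : f x = x') (e2 : f y = y') (e3 : f w = w') (e4 : f d = d') :
    ∀ P ≤ S, ∀ g, Cj g P S → Re f P g := by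
  have M := h.toGM
  have D := M.dq
  have mx := M.x_mem
  have my := M.y_mem
  have hU := D.re hz h.sc h'.toGM.dq h'.gR h'.gT hf
    (by rw [gρ, hf _ my _ (inv_mem mx), hf.inv mx, e1, e2, gρ])
    (by rw [gσ, hf _ M.w_mem _ (zpow_mem mx _), hf.zpow mx, e1, e3, gσ])
    (by rw [gρ, hf _ (inv_mem my) _ (inv_mem mx), hf.inv mx, hf.inv my, e1, e2, gρ])
    (by rw [gσ, hf _ (mul_mem M.w_mem M.d_mem) _ (zpow_mem mx _), hf.zpow mx, hf _ M.w_mem _ M.d_mem,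
      e1, e3, e4, gσ])
  intro P hP g hg
  refine hs.alp (Re f) (fun P Q g hP ⟨c, hc⟩ => ⟨c, fun u hu => hc u (hP hu)⟩)
    (fun P Q g k _ _ h1 _ ⟨c, hc⟩ ⟨d, hd⟩ => ⟨d * c, fun u hu => ?_⟩)
    (fun P g k e ⟨c, hc⟩ => ⟨c, fun u hu => by rw [← e u hu, hc u hu]⟩)
    (fun s hs => ⟨f s, fun u hu => hf.conj hs hu⟩) (fun P hP g hg hn ho => ?_) P hP g trivial hg
  · have := hd _ (h1 u hu)
    rw [hc u hu] at this
    simpa only [mul_inv_rev, mul_assoc] using this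
  have hz' : gz n x y ∈ P := hP.cen _ (D.q.le D.q.z_mem) fun u hu => (D.q.zc (hP.le hu)).symm
  obtain ⟨γ, a1, a2, c, hc⟩ := h.good hz h' hf e1 e2 e3 e4 hU (hP.le (hn _ hz'))
    (by rw [conj_mul, D.q.zz, mul_one, mul_inv_cancel]) fun e => D.q.z_ne (by simpa using e)
  have hle : ∀ u ∈ P, g * u * g⁻¹ ∈ cS S (g * gz n x y * g⁻¹) := fun u hu =>
    ⟨hP.le (hn u hu), by rw [conj_mul, conj_mul, D.q.zc (hP.le hu)]⟩
  obtain ⟨k, hk⟩ := hU P hP.le (γ * g) (mem_cS_top.2 (by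
    rw [← mul_inv_eq_iff_eq_mul]; simpa only [mul_inv_rev, mul_assoc] using a1)) (Cj.mul hle a2)
  refine ⟨c⁻¹ * k, fun u hu => ?_⟩
  have b1 := hc _ (hle u hu)
  have b2 := hk u hu
  rw [show γ * g * u * (γ * g)⁻¹ = γ * (g * u * g⁻¹) * γ⁻¹ by group, b1] at b2
  calc _ = c⁻¹ * (c * f (g * u * g⁻¹) * c⁻¹) * c := by group
    _ = _ := by rw [b2]; group

end H93.QW
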